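import Mathlib
import Cfsg.Agent.Lib.Helper25.ACStmt

set_option autoImplicit false

namespace Cfsg.Agent.Lib.Helper20.ACVCORE

open Cfsg.Agent.Lib.Helper25.ACStmt

universe u

theorem main (hO : OddCore.{u}) (hH : HatB.{u}) (hE : ExV.{u}) (hS : VSmall.{u})
    (hA : VAll4.{u}) : VCore.{u} := by
  intro G _ _ hsolv hB huniq P₁ hP8 hnab
  obtain ⟨K, hKn, hKodd, hKmax⟩ := hO G
  haveI := hKn
  obtain ⟨hconj4, huQ⟩ := hH G hB K hKodd
  have huniqQ := huQ huniq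
  refine ⟨K, hKn, hKodd, huniqQ, ?_⟩
  haveI : Fact (Nat.Prime 2) := ⟨Nat.prime_two⟩
  haveI : Group.IsSolvable (G ⧸ K) :=
    haveI := hsolv
    inferInstance
  -- P₁ ⊓ K = ⊥
  have hPK : P₁ ⊓ K = ⊥ := by
    apply Subgroup.inf_eq_bot_of_coprime
    rw [hP8]
    have h2 : Nat.Coprime 2 (Nat.card ↥K) := Nat.coprime_two_left.mpr hKodd
    exact (show Nat.Coprime (2 ^ 3) (Nat.card ↥K) from h2.pow_left 3)
  have hinj : ∀ p ∈ P₁, ∀ p' ∈ P₁, (QuotientGroup.mk p : G ⧸ K) = QuotientGroup.mk p' → p = p' := by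
    intro p hp p' hp' h
    have hk : p⁻¹ * p' ∈ K := QuotientGroup.eq.mp h
    have hm : p⁻¹ * p' ∈ P₁ ⊓ K := ⟨P₁.mul_mem (P₁.inv_mem hp) hp', hk⟩
    rw [hPK, Subgroup.mem_bot] at hm
    exact inv_mul_eq_one.mp hm
  -- F1 for P₁
  have F1 : ∀ v ∈ P₁, v ^ 4 = 1 := by
    intro v hv
    have hdvd : orderOf v ∣ 8 := hP8 ▸ Subgroup.orderOf_dvd_natCard P₁ hv
    have hne : orderOf v ≠ 8 := by
      intro h8
      have hle : Subgroup.zpowers v ≤ P₁ := by rwa [Subgroup.zpowers_le]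
      have hcard : Nat.card (Subgroup.zpowers v) = 8 := by rw [Nat.card_zpowers, h8]
      have heq : Subgroup.zpowers v = P₁ :=
        Subgroup.eq_of_le_of_card_ge hle (by rw [hcard, hP8])
      obtain ⟨a, ha, b, hb, hab⟩ := hnab
      rw [← heq] at ha hb
      obtain ⟨m, rfl⟩ := Subgroup.mem_zpowers_iff.mp ha
      obtain ⟨n, rfl⟩ := Subgroup.mem_zpowers_iff.mp hb
      exact hab (by rw [← zpow_add, ← zpow_add, add_comm])
    have h4 : orderOf v ∣ 4 := by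
      obtain ⟨m, hm, hm'⟩ :=
        (Nat.dvd_prime_pow Nat.prime_two).mp (show orderOf v ∣ 2 ^ 3 from hdvd)
      interval_cases m
      · rw [hm']; norm_num
      · rw [hm']; norm_num
      · rw [hm']; norm_num
      · exact absurd (by rw [hm']; norm_num) hne
    exact orderOf_dvd_iff_pow_eq_one.mp h4
  -- an involution of P₁
  obtain ⟨z₀', hz₀'⟩ := exists_prime_orderOf_dvd_card' (G := ↥P₁) 2 (by rw [hP8]; norm_num)
  have hz₀P : (z₀' : G) ∈ P₁ := z₀'.2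
  have hz₀2 : orderOf (z₀' : G) = 2 := by rw [Subgroup.orderOf_coe]; exact hz₀'
  obtain ⟨z₀, hz₀P, hz₀2⟩ : ∃ z₀ ∈ P₁, orderOf z₀ = 2 := ⟨_, hz₀P, hz₀2⟩
  have hz₀ne : z₀ ≠ 1 := by
    intro h; rw [h, orderOf_one] at hz₀2; exact absurd hz₀2 (by norm_num)
  have hzh1 : (QuotientGroup.mk z₀ : G ⧸ K) ≠ 1 := by
    intro h
    exact hz₀ne (hinj z₀ hz₀P 1 P₁.one_mem (by rw [h]; rfl))
  have hzh2 : orderOf (QuotientGroup.mk z₀ : G ⧸ K) = 2 := by
    refine orderOf_eq_prime ?_ hzh1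
    rw [← QuotientGroup.mk_pow, ← hz₀2, pow_orderOf_eq_one]; rfl
  -- an element outside {1, z₀}
  obtain ⟨c, hcP, hc1, hcz⟩ : ∃ c ∈ P₁, c ≠ 1 ∧ c ≠ z₀ := by
    obtain ⟨a, ha, b, hb, hab⟩ := hnab
    by_cases haz : a = z₀
    · refine ⟨b, hb, ?_, ?_⟩
      · intro h; apply hab; rw [h, mul_one, one_mul]
      · intro h; apply hab; rw [h, haz]
    · refine ⟨a, ha, ?_, haz⟩
      intro h; apply hab; rw [h, mul_one, one_mul]
  have hex : ∃ y : G ⧸ K, y ≠ 1 ∧ y ≠ QuotientGroup.mk z₀ := by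
    refine ⟨QuotientGroup.mk c, ?_, ?_⟩
    · intro h; exact hc1 (hinj c hcP 1 P₁.one_mem (by rw [h]; rfl))
    · intro h; exact hcz (hinj c hcP z₀ hz₀P h)
  obtain ⟨V, hVn, hV2, hVex, hVsq⟩ := hE (G ⧸ K) inferInstance hKmax (QuotientGroup.mk z₀) hzh2
    (fun y hy => huniqQ y _ hy hzh2) hex
  have hall : ∀ y : G ⧸ K, y ^ 4 = 1 → y ∈ V :=
    hA (G ⧸ K) V hVn hconj4 (QuotientGroup.mk z₀) hzh2 (fun y hy => huniqQ y _ hy hzh2) hV2 hVex
  have hzV : (QuotientGroup.mk z₀ : G ⧸ K) ∈ V := by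
    apply hall
    rw [← QuotientGroup.mk_pow, F1 z₀ hz₀P]; rfl
  have hPV : ∀ p ∈ P₁, (QuotientGroup.mk p : G ⧸ K) ∈ V := by
    intro p hp
    apply hall
    rw [← QuotientGroup.mk_pow, F1 p hp]; rfl
  have hle8 : Nat.card ↥V ≤ 8 := by
    refine hS ↥V hV2 ⟨QuotientGroup.mk z₀, hzV⟩ ?_ ?_ ?_
    · intro h
      exact hzh1 (congrArg Subtype.val h)
    · intro y hy
      by_cases h1 : y = 1
      · exact Or.inl h1
      · right
        have hy' : (y : G ⧸ K) ^ 2 = 1 := by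
          have := congrArg Subtype.val hy
          simpa using this
        have hy1 : (y : G ⧸ K) ≠ 1 := fun h => h1 (Subtype.ext h)
        exact Subtype.ext (huniqQ _ _ (orderOf_eq_prime hy' hy1) hzh2)
    · intro v
      rcases hVsq v.1 v.2 with h | h
      · left; exact Subtype.ext (by simpa using h)
      · right; exact Subtype.ext (by simpa using h)
  have hge8 : 8 ≤ Nat.card ↥V := by
    rw [← hP8]
    let f : ↥P₁ → ↥V := fun p => ⟨QuotientGroup.mk (p : G), hPV p.1 p.2⟩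
    have hf : Function.Injective f := by
      intro p p' h
      have h' : (QuotientGroup.mk (p : G) : G ⧸ K) = QuotientGroup.mk (p' : G) :=
        congrArg Subtype.val h
      exact Subtype.ext (hinj _ p.2 _ p'.2 h')
    haveI : Finite ↥V := inferInstance
    exact Nat.card_le_card_of_injective f hf
  refine ⟨V, hVn, le_antisymm hle8 hge8, ?_, hall⟩
  obtain ⟨a, ha, b, hb, hab⟩ := hnab
  refine ⟨QuotientGroup.mk a, hPV a ha, QuotientGroup.mk b, hPV b hb, ?_⟩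
  intro h
  apply hab
  exact hinj _ (P₁.mul_mem ha hb) _ (P₁.mul_mem hb ha) h

end Cfsg.Agent.Lib.Helper20.ACVCORE
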