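import Mathlib
import Cfsg.Prelude.Def_Transfer
import Cfsg.Prelude.Def_Classical
import Cfsg.Agent.Lib.Helper4.UniStmt
import Cfsg.Agent.Lib.Helper46.SU3Coord
import Cfsg.Agent.Lib.Helper46.SU3Syl

/-!
# S1903 blueprint (helper20): a group of order 320 with `|G'| = 64`, `Z(G')` a four-group, is the
centralizer of an involution of `PSU₃(4)`

Route: both `G` and the centralizer are minimal non-2-nilpotent of order `2^6 * 5`, hence both
isomorphic to the universal group of S4395.  The centralizer is computed with the matrices of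
`Helper46.SU3Syl` (`gm`, `Pm`, `Qm`, `Tm`): it consists of the `Em ε l a b`, `l * φ l = 1`,
`b + φ b = a * φ a`.

Each piece is a `def X : Prop`; a piece is proved as `theorem main : X.{..}` in its own file.
-/

set_option autoImplicit false

namespace Cfsg.Agent.Lib.Helper20.C320Stmt

open Matrix Cfsg.Agent.Lib.Helper4.UniStmt Cfsg.Agent.Lib.Helper46.SU3Coord
  Cfsg.Agent.Lib.Helper46.SU3Syl

universe u v

/-! ## Abstract pieces -/

/-- [ABS] a group of order 320 with a normal subgroup `P ≤ G'` of order 64 whose centre has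
order 4 is minimal non-2-nilpotent. -/
def Abs : Prop :=
  ∀ (G : Type u) [Group G] [Finite G], Nat.card G = 320 →
    ∀ P : Subgroup G, P.Normal → Nat.card P = 64 → Nat.card (Subgroup.center ↥P) = 4 →
      P ≤ commutator G → MNPN 2 G

/-- [TRANS] minimal non-`p`-nilpotency is invariant under isomorphism (across universes). -/
def Trans : Prop :=
  ∀ (p : ℕ) (G : Type u) (H : Type v) [Group G] [Group H] [Finite G] [Finite H],
    Nonempty (G ≃* H) → MNPN p G → MNPN p H

/-! ## Matrices -/

section Mat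

variable {F : Type*} [Field F] (φ : F →+* F)

/-- the torus element `diag(l, φ l ^ 2, l)` (for `l * φ l = 1`) in the antidiagonal basis -/
def dm (l : F) : Matrix (Fin 3) (Fin 3) F := !![l, 0, 0; 0, φ l ^ 2, 0; 0, 0, l]

/-- the elements of the centralizer of `Tm φ ε 0 1`, in the basis of the identity Hermitian
form: `Em ε l a b = P * (diag(l, φ l ^ 2, l) * gm a b) * Q` -/
def Em (ε l a b : F) : Matrix (Fin 3) (Fin 3) F := Pm φ ε * (dm φ l * gm φ a b) * Qm φ ε

end Mat

/-- [MEM] the algebra of the matrices `Em`. -/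
def Mem : Prop :=
  ∀ (F : Type u) [Field F] (φ : F →+* F), (2 : F) = 0 → (∀ x, φ (φ x) = x) →
    ∀ ε : F, ε + φ ε = 1 →
      (∀ l a b l' a' b' : F, l' * φ l' = 1 →
        Em φ ε l a b * Em φ ε l' a' b' =
          Em φ ε (l * l') (φ l' ^ 3 * a + a') (b + b' + φ l' ^ 3 * a * φ a')) ∧
      (∀ l a b : F, l * φ l = 1 → (Em φ ε l a b).det = 1) ∧
      (∀ l a b : F, l * φ l = 1 → b + φ b = a * φ a →
        (Em φ ε l a b)ᵀ * (Em φ ε l a b).map φ = 1) ∧
      (∀ l a b l' a' b' : F, l * φ l = 1 → Em φ ε l a b = Em φ ε l' a' b' →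
        l = l' ∧ a = a' ∧ b = b') ∧
      (∀ a b : F, Em φ ε 1 a b = Tm φ ε a b)

/-- [CEN] a unitary matrix of determinant 1 commuting with `Tm φ ε 0 1` is an `Em ε l a b`. -/
def Cen : Prop :=
  ∀ (F : Type u) [Field F] (φ : F →+* F), (2 : F) = 0 → (∀ x, φ (φ x) = x) →
    ∀ ε : F, ε + φ ε = 1 →
      ∀ g : Matrix (Fin 3) (Fin 3) F, g.det = 1 → gᵀ * g.map φ = 1 →
        g * Tm φ ε 0 1 = Tm φ ε 0 1 * g →
        ∃ l a b : F, l * φ l = 1 ∧ b + φ b = a * φ a ∧ g = Em φ ε l a b

/-! ## Groups with coordinates `(l, a, b)` -/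

/-- coordinates identifying `C` with the triples `(l, a, b)`, `l * φ l = 1`,
`b + φ b = a * φ a`, multiplied like the matrices `Em`. -/
structure Coord5 (C : Type*) [Group C] {F : Type*} [Field F] (φ : F →+* F) where
  lam : C → F
  α : C → F
  β : C → F
  lam_rel : ∀ x, lam x * φ (lam x) = 1
  rel : ∀ x, β x + φ (β x) = α x * φ (α x)
  mul_lam : ∀ x y, lam (x * y) = lam x * lam y
  mul_α : ∀ x y, α (x * y) = φ (lam y) ^ 3 * α x + α y
  mul_β : ∀ x y, β (x * y) = β x + β y + φ (lam y) ^ 3 * α x * φ (α y)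
  inj : ∀ x y, lam x = lam y → α x = α y → β x = β y → x = y
  surj : ∀ l a b, l * φ l = 1 → b + φ b = a * φ a → ∃ x, lam x = l ∧ α x = a ∧ β x = b

/-- [CARD] a group with such coordinates over the field with 16 elements has order 320. -/
def CardC : Prop :=
  ∀ (F : Type u) [Field F] [Fintype F], Fintype.card F = 16 →
    ∀ φ : F →+* F, (∀ x, φ x = x ^ 4) →
      ∀ (C : Type v) [Group C] [Finite C], Nonempty (Coord5 C φ) → Nat.card C = 320

/-- [PSUB] the subgroup `lam = 1` is normal of order 64, its centre has order 4, and it lies in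
the derived subgroup. -/
def PSub : Prop :=
  ∀ (F : Type u) [Field F] [Fintype F], Fintype.card F = 16 →
    ∀ φ : F →+* F, (∀ x, φ x = x ^ 4) →
      ∀ (C : Type v) [Group C] [Finite C], Nonempty (Coord5 C φ) →
        ∃ P : Subgroup C, P.Normal ∧ Nat.card P = 64 ∧ Nat.card (Subgroup.center ↥P) = 4 ∧
          P ≤ commutator C

end Cfsg.Agent.Lib.Helper20.C320Stmt
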