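import Mathlib
import Cfsg.Agent.Lib.Helper88.CEStmt
import Cfsg.Agent.H85.GroupFS2
import Cfsg.Agent.H85.Aut
import Cfsg.Agent.H85.Basic

set_option autoImplicit false

/-! S5127/AUTJ: for `X₁`, `X₂` centralizing `E` and `R` an `E`-centric subgroup fully automized
in `E`, every element of `Aut_E(R)` extends to a map of `F` on `R (X₁ X₂)` fixing `X₁ X₂`. -/

namespace Cfsg.Agent.Lib.Helper20.CEAUTJ

open Cfsg Cfsg.FusionSystem Cfsg.Agent.Lib.Helper88.FCStmt Cfsg.Agent.Lib.Helper88.CEStmt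
open Cfsg.Agent.H85

universe u

variable {Ω : Type u} [Group Ω]

/-- a subgroup of `↥(R ⊔ X)` containing `R` and `X` is everything -/
theorem mem_of_sup {R X : Subgroup Ω} (K : Subgroup ↥(R ⊔ X))
    (hR : ∀ u : R, Subgroup.inclusion le_sup_left u ∈ K)
    (hX : ∀ x : X, Subgroup.inclusion le_sup_right x ∈ K) (y : ↥(R ⊔ X)) : y ∈ K := by
  have h1 : R.subgroupOf (R ⊔ X) ≤ K := by
    intro y hy
    have h := hR ⟨y.1, Subgroup.mem_subgroupOf.mp hy⟩
    have e : Subgroup.inclusion (le_sup_left : R ≤ R ⊔ X) ⟨y.1, Subgroup.mem_subgroupOf.mp hy⟩ = y :=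
      Subtype.ext rfl
    rwa [e] at h
  have h2 : X.subgroupOf (R ⊔ X) ≤ K := by
    intro y hy
    have h := hX ⟨y.1, Subgroup.mem_subgroupOf.mp hy⟩
    have e : Subgroup.inclusion (le_sup_right : X ≤ R ⊔ X) ⟨y.1, Subgroup.mem_subgroupOf.mp hy⟩ = y :=
      Subtype.ext rfl
    rwa [e] at h
  have h3 : R.subgroupOf (R ⊔ X) ⊔ X.subgroupOf (R ⊔ X) = ⊤ := by
    rw [← Subgroup.subgroupOf_sup le_sup_left le_sup_right, Subgroup.subgroupOf_self]
  have h4 : (⊤ : Subgroup ↥(R ⊔ X)) ≤ K := h3 ▸ sup_le h1 h2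
  exact h4 (Subgroup.mem_top y)

/-- `a` extends to a map of `F` on `R ⊔ X` fixing `X` elementwise. -/
def Ext {S : Subgroup Ω} (F : FusionSystem S) (R X : Subgroup Ω) (a : MulAut R) : Prop :=
  ∃ ψ ∈ F.Hom (R ⊔ X), (∀ u : R, ψ (Subgroup.inclusion le_sup_left u) = ((a u : R) : Ω)) ∧
    ∀ x : X, ψ (Subgroup.inclusion le_sup_right x) = x

theorem ext_one {S : Subgroup Ω} (F : FusionSystem S) {R X : Subgroup Ω} (h : R ⊔ X ≤ S) :
    Ext F R X 1 :=
  ⟨(R ⊔ X).subtype, subtype_mem F h, fun _ => rfl, fun _ => rfl⟩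

theorem ext_mul {S : Subgroup Ω} (F : FusionSystem S) {R X : Subgroup Ω} {a b : MulAut R}
    (ha : Ext F R X a) (hb : Ext F R X b) : Ext F R X (a * b) := by
  obtain ⟨ψa, hψa, ha1, ha2⟩ := ha
  obtain ⟨ψb, hψb, hb1, hb2⟩ := hb
  have h : ∀ y : ↥(R ⊔ X), ψb y ∈ R ⊔ X := by
    intro y
    have hy := mem_of_sup ((R ⊔ X).comap ψb)
      (fun u => by rw [Subgroup.mem_comap, hb1]; exact Subgroup.mem_sup_left (b u).2)
      (fun x => by rw [Subgroup.mem_comap, hb2]; exact Subgroup.mem_sup_right x.2) y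
    exact hy
  refine ⟨ψa.comp (ψb.codRestrict (R ⊔ X) h), F.comp_mem hψb hψa h, fun u => ?_, fun x => ?_⟩
  · have e : (⟨ψb (Subgroup.inclusion le_sup_left u), h _⟩ : ↥(R ⊔ X))
        = Subgroup.inclusion le_sup_left (b u) := Subtype.ext (hb1 u)
    show ψa ⟨ψb (Subgroup.inclusion le_sup_left u), h _⟩ = ((a (b u) : R) : Ω)
    rw [e]; exact ha1 (b u)
  · have e : (⟨ψb (Subgroup.inclusion le_sup_right x), h _⟩ : ↥(R ⊔ X))
        = Subgroup.inclusion le_sup_right x := Subtype.ext (hb2 x)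
    show ψa ⟨ψb (Subgroup.inclusion le_sup_right x), h _⟩ = x
    rw [e]; exact ha2 x

theorem ext_inv {S : Subgroup Ω} (F : FusionSystem S) {R X : Subgroup Ω} [Finite (MulAut R)]
    (h : R ⊔ X ≤ S) {a : MulAut R} (ha : Ext F R X a) : Ext F R X a⁻¹ := by
  have hpow : ∀ n : ℕ, Ext F R X (a ^ n) := by
    intro n
    induction n with
    | zero => rw [pow_zero]; exact ext_one F h
    | succ n ih => rw [pow_succ]; exact ext_mul F ih ha
  have hpos : 0 < orderOf a := orderOf_pos a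
  have hinv : a⁻¹ = a ^ (orderOf a - 1) := by
    apply inv_eq_of_mul_eq_one_right
    rw [← pow_succ', Nat.sub_add_cancel hpos, pow_orderOf_eq_one]
  rw [hinv]; exact hpow _

theorem ext_conj {S : Subgroup Ω} (F : FusionSystem S) {T R X : Subgroup Ω} (hTS : T ≤ S)
    (h : R ⊔ X ≤ S) (hX : X ≤ centralizerIn S T) {a : MulAut R} (ha : a ∈ autInducedBy T R) :
    Ext F R X a := by
  obtain ⟨t, ht, hta⟩ := (mem_autInducedBy_iff T R a).mp ha
  refine ⟨conjHom (R ⊔ X) t, F.conj_mem h (hTS ht), fun u => ?_, fun x => ?_⟩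
  · show t * (u : Ω) * t⁻¹ = _
    rw [hta u]
  · show t * (x : Ω) * t⁻¹ = x
    have hx : (x : Ω) ∈ Subgroup.centralizer (T : Set Ω) := (Subgroup.mem_inf.mp (hX x.2)).2
    have hc := Subgroup.mem_centralizer_iff.mp hx t ht
    rw [hc, mul_assoc, mul_inv_cancel, mul_one]

theorem main (hPP : PPart.{u}) (hUF : UFix.{u}) (hSG : SylowGen.{u}) : AutJoin.{u} := by
  intro Ω _ S _ p _ hS F hF T E hEn hJ X₁ X₂ hX₁ hX₁c hX₂ hX₂c R hRc hRa α hα
  have hTS : T ≤ S := hEn.1.2.2.2.1.1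
  have hRT : R ≤ T := hRc.1
  have hC₀S : centralizerIn S T ≤ S := inf_le_left
  have hX : X₁ ⊔ X₂ ≤ centralizerIn S T := sup_le hX₁ hX₂
  have hRXS : R ⊔ (X₁ ⊔ X₂) ≤ S := sup_le (hRT.trans hTS) (hX.trans hC₀S)
  have hRC₀S : R ⊔ centralizerIn S T ≤ S := sup_le (hRT.trans hTS) hC₀S
  haveI : Finite R :=
    Finite.of_injective (Subgroup.inclusion (hRT.trans hTS)) (Subgroup.inclusion_injective _)
  haveI : Finite (MulAut R) := inferInstance
  -- elements of order prime to `p`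
  have hpprime : ∀ a ∈ E.autGroup R, (orderOf a).Coprime p → Ext F R (X₁ ⊔ X₂) a := by
    intro a ha hm
    obtain ⟨ψ, hψ, m', hm', hψm', hψα, hψT⟩ :=
      hPP p hS F hF E hEn R hRc a ha (orderOf a) hm (pow_orderOf_eq_one a)
    have hf1 := hUF p hS F hF E hEn R hRc (hJ R hRc) X₁ hX₁ hX₁c ψ hψ m' hm' hψm' a ha hψα hψT
    have hf2 := hUF p hS F hF E hEn R hRc (hJ R hRc) X₂ hX₂ hX₂c ψ hψ m' hm' hψm' a ha hψα hψT
    have hle : R ⊔ (X₁ ⊔ X₂) ≤ R ⊔ centralizerIn S T := sup_le_sup_left hX R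
    have hfix : ∀ c : ↥(R ⊔ centralizerIn S T), (c : Ω) ∈ X₁ ⊔ X₂ → ψ c = c := by
      intro c hc
      have h1 : X₁.subgroupOf (R ⊔ centralizerIn S T) ≤
          MonoidHom.eqLocus ψ.toMonoidHom (MonoidHom.id _) := by
        intro c hc; exact hf1 c (Subgroup.mem_subgroupOf.mp hc)
      have h2 : X₂.subgroupOf (R ⊔ centralizerIn S T) ≤
          MonoidHom.eqLocus ψ.toMonoidHom (MonoidHom.id _) := by
        intro c hc; exact hf2 c (Subgroup.mem_subgroupOf.mp hc)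
      have h3 : (X₁ ⊔ X₂).subgroupOf (R ⊔ centralizerIn S T) ≤
          MonoidHom.eqLocus ψ.toMonoidHom (MonoidHom.id _) := by
        rw [Subgroup.subgroupOf_sup (hX₁.trans le_sup_right) (hX₂.trans le_sup_right)]
        exact sup_le h1 h2
      exact h3 (Subgroup.mem_subgroupOf.mpr hc)
    have hψF := (mem_autGroup_iff F hRC₀S ψ).mp hψ
    refine ⟨((R ⊔ centralizerIn S T).subtype.comp ψ.toMonoidHom).comp (Subgroup.inclusion hle),
      restrict_mem F hψF hle, fun u => ?_, fun x => ?_⟩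
    · exact hψα u
    · show ((ψ (Subgroup.inclusion hle (Subgroup.inclusion le_sup_right x)) :
        ↥(R ⊔ centralizerIn S T)) : Ω) = x
      rw [hfix _ x.2]
      rfl
  -- Sylow generation
  obtain ⟨_, Rsyl, hRsyl⟩ := hRa
  have hgen := hSG p Rsyl ⟨α, hα⟩
  have key : ∀ g : ↥(E.autGroup R),
      g ∈ Subgroup.closure ((((Rsyl : Subgroup ↥(E.autGroup R)) : Set ↥(E.autGroup R))) ∪
        {h : ↥(E.autGroup R) | (orderOf h).Coprime p}) →
      Ext F R (X₁ ⊔ X₂) (g : MulAut R) := by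
    intro g hg
    induction hg using Subgroup.closure_induction with
    | mem g hg =>
      rcases hg with hg | hg
      · have hg' : g ∈ (autInducedBy T R).subgroupOf (E.autGroup R) := by
          rw [← hRsyl]; exact hg
        exact ext_conj F hTS hRXS hX (Subgroup.mem_subgroupOf.mp hg')
      · have hord : orderOf (g : MulAut R) = orderOf g := Subgroup.orderOf_coe g
        exact hpprime g g.2 (by rw [hord]; exact hg)
    | one => exact ext_one F hRXS
    | mul a b _ _ ha hb => exact ext_mul F ha hb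
    | inv a _ ha => exact ext_inv F hRXS ha
  exact key ⟨α, hα⟩ hgen

end Cfsg.Agent.Lib.Helper20.CEAUTJ
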