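import Mathlib
import Cfsg.Agent.Lib.Helper88.CEStmt
import Cfsg.Agent.Lib.Helper30.WNWSYL
import Cfsg.Agent.Lib.Helper87.FSSat
import Cfsg.Agent.H85.Basic
import Cfsg.Agent.H85.Aut

set_option autoImplicit false

/-! S5127/KCONJS: an automorphism `κ ∈ Aut_F(R)` that is the identity on `R ∩ T` and moves every
element by an element of `T` centralizing `R ∩ T` becomes a conjugation by an element of `S` after
transport along a map of `F` defined on `N_S(R)`. -/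

namespace Cfsg.Agent.Lib.Helper20.CEKCONJS

open Cfsg Cfsg.FusionSystem Cfsg.Agent.Lib.Helper88.FCStmt Cfsg.Agent.Lib.Helper88.CEStmt
open Cfsg.Agent.H85

universe u

theorem main : KConjS.{u} := by
  intro Ω _ S _ p _ hS F hF T hT R hRS κ hκ hκT hκz
  obtain ⟨Q, ⟨θ, hθ, hθQ⟩, hfa, hrec⟩ := hF R hRS
  subst hθQ
  obtain ⟨χ₀, hχ₀, hχ₀r, ψ, hψ, hψχ⟩ :=
    Cfsg.Agent.Lib.Helper87.FSSat.exists_extension_normalizer hS F hθ hfa hrec
  have hRN : R ≤ normalizerIn S R := by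
    intro x hx
    exact Subgroup.mem_inf.mpr ⟨hRS hx, Subgroup.le_normalizer hx⟩
  -- `θ' := ψ|R`
  obtain ⟨θ', hθ'def⟩ : ∃ θ' : R →* Ω, θ' = ψ.comp (Subgroup.inclusion hRN) := ⟨_, rfl⟩
  have hθ' : θ' ∈ F.Hom R := by rw [hθ'def]; exact restrict_mem F hψ hRN
  have hθ'x : ∀ x : R, θ' x = χ₀ ⟨θ x, ⟨x, rfl⟩⟩ := by
    intro x; rw [hθ'def]; exact hψχ x (hRN x.2)
  have hrange : θ'.range = θ.range := by
    ext w
    constructor
    · rintro ⟨x, rfl⟩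
      rw [hθ'x]
      have h : χ₀ ⟨θ x, ⟨x, rfl⟩⟩ ∈ χ₀.range := ⟨_, rfl⟩
      exact (SetLike.ext_iff.mp hχ₀r _).mp h
    · intro hw
      have hw' : w ∈ χ₀.range := (SetLike.ext_iff.mp hχ₀r w).mpr hw
      obtain ⟨⟨v, x, rfl⟩, rfl⟩ := hw'
      exact ⟨x, hθ'x x⟩
  have hfa' : F.IsFullyAutomized p θ'.range := by rw [hrange]; exact hfa
  -- `ξ := θ' κ θ'⁻¹`
  obtain ⟨e, he⟩ : ∃ e, e = MonoidHom.ofInjective (F.injective_of_mem hθ') := ⟨_, rfl⟩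
  have hξ : MulAut.congr e κ ∈ F.autGroup θ'.range := by
    rw [he]; exact Cfsg.Agent.Lib.Helper87.FSSat.congr_mem_autGroup F hθ' hκ
  have hey : ∀ y : R, ((e y : θ'.range) : Ω) = θ' y := by intro y; rw [he]; rfl
  have hξe : ∀ y : R, ((MulAut.congr e κ (e y) : θ'.range) : Ω) = θ' (κ y) := by
    intro y
    show ((e (κ (e.symm (e y))) : θ'.range) : Ω) = θ' (κ y)
    rw [MulEquiv.symm_apply_apply, hey]
  -- `θ'` maps `R ∩ T` into `T`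
  have hθ'T : ∀ y : R, (y : Ω) ∈ T → θ' y ∈ T := by
    intro y hy
    have hle : R ⊓ T ≤ R := inf_le_left
    have h1 := restrict_mem F hθ' hle
    exact hT.2 (R ⊓ T) inf_le_right _ h1 ⟨y, Subgroup.mem_inf.mpr ⟨y.2, hy⟩⟩
  -- if `θ' y ∈ T` then `y ∈ T`
  have hθ'T' : ∀ y : R, θ' y ∈ T → (y : Ω) ∈ T := by
    intro y hy
    have hle : θ'.range ⊓ T ≤ θ'.range := inf_le_left
    obtain ⟨ψi, hψi, hψix⟩ := inv_mem' F hθ' hle
    have h2 := hT.2 (θ'.range ⊓ T) inf_le_right _ hψi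
      ⟨θ' y, Subgroup.mem_inf.mpr ⟨⟨y, rfl⟩, hy⟩⟩
    rw [hψix y] at h2
    exact h2
  have hc1 : ∀ x : θ'.range, (x : Ω) ∈ T → MulAut.congr e κ x = x := by
    intro x hx
    obtain ⟨y, rfl⟩ := e.surjective x
    rw [hey y] at hx
    have hyT := hθ'T' y hx
    apply Subtype.ext
    rw [hξe y, hκT y hyT, hey y]
  have hc2 : ∀ y : θ'.range, (y : Ω)⁻¹ * ((MulAut.congr e κ y : θ'.range) : Ω) ∈ T ∧
      ∀ x : θ'.range, (x : Ω) ∈ T →
        (y : Ω)⁻¹ * ((MulAut.congr e κ y : θ'.range) : Ω) * (x : Ω) =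
          (x : Ω) * ((y : Ω)⁻¹ * ((MulAut.congr e κ y : θ'.range) : Ω)) := by
    intro x
    obtain ⟨y, rfl⟩ := e.surjective x
    have hz := hκz y
    have hzT : ((y⁻¹ * κ y : R) : Ω) ∈ T := hz.1
    have hmap : ((e y : θ'.range) : Ω)⁻¹ * ((MulAut.congr e κ (e y) : θ'.range) : Ω)
        = θ' (y⁻¹ * κ y) := by
      rw [hξe y, hey y, map_mul, map_inv]
    rw [hmap]
    refine ⟨hθ'T _ hzT, fun x' hx' => ?_⟩
    obtain ⟨y', rfl⟩ := e.surjective x'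
    rw [hey y'] at hx' ⊢
    have hy'T := hθ'T' y' hx'
    have hc := hz.2 y' hy'T
    rw [← map_mul, ← map_mul]
    congr 1
    exact Subtype.ext hc
  obtain ⟨h, hhS, hh⟩ := Cfsg.Agent.Lib.Helper30.WNWSYL.main p hS F T hT θ'.range hfa'
    (MulAut.congr e κ) hξ hc1 hc2
  refine ⟨ψ, hψ, h, hhS, fun y hy hy' => ?_⟩
  have h1 := hh (e y)
  rw [hξe y, hey y] at h1
  have e1 : ψ ⟨((κ y : R) : Ω), hy'⟩ = θ' (κ y) := by rw [hθ'def]; rfl
  have e2 : ψ ⟨(y : Ω), hy⟩ = θ' y := by rw [hθ'def]; rfl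
  rw [e1, e2, h1]

end Cfsg.Agent.Lib.Helper20.CEKCONJS
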