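import Mathlib
import Cfsg.Agent.Lib.Helper30.CTIStmt

set_option autoImplicit false

/-! S4064/INVERT: an involution swapping two points inverts their common stabilizer. -/

namespace Cfsg.Agent.Lib.Helper20.CTIINVERT

open Cfsg.Agent.Lib.Helper30.CTIStmt

universe u

theorem fix_iff {G : Type u} [Group G] (H : Subgroup G) (a b : G) :
    a • ((b : G) : G ⧸ H) = b ↔ b⁻¹ * a * b ∈ H := by
  rw [MulAction.Quotient.smul_mk, smul_eq_mul, QuotientGroup.eq]
  rw [← inv_mem_iff (x := b⁻¹ * a * b)]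
  simp [mul_assoc]

theorem main : INVERT.{u} := by
  intro G _ _ M hZ x y w d hxy hw hwx hdx hdy
  obtain ⟨g, rfl⟩ := QuotientGroup.mk_surjective x
  subst hwx
  have hd1 : g⁻¹ * d * g ∈ NM M := (fix_iff (NM M) d g).mp hdx
  have hd2 : (w * g)⁻¹ * d * (w * g) ∈ NM M := by
    have h : d • (((w * g : G)) : G ⧸ NM M) = ((w * g : G) : G ⧸ NM M) := hdy
    exact (fix_iff (NM M) d (w * g)).mp h
  have hu2 : orderOf (g⁻¹ * w * g) = 2 := by
    rw [← hw]
    have := orderOf_injective (MulAut.conj g⁻¹).toMonoidHom (MulAut.conj g⁻¹).injective w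
    simpa using this
  have hu : g⁻¹ * w * g ∉ NM M := by
    intro hmem
    apply hxy
    exact ((fix_iff (NM M) w g).mpr hmem).symm
  have hmemD : g⁻¹ * d * g ∈ DU (NM M) (g⁻¹ * w * g) := by
    refine Subgroup.mem_inf.mpr ⟨hd1, ?_⟩
    rw [Subgroup.mem_map]
    refine ⟨(w * g)⁻¹ * d * (w * g), hd2, ?_⟩
    simp only [MulEquiv.coe_toMonoidHom, MulAut.conj_apply]
    group
  have h3 := hZ.dinv _ hu2 hu _ hmemD
  have h4 : g⁻¹ * (w * d * w⁻¹) * g = g⁻¹ * d⁻¹ * g := by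
    have e1 : g⁻¹ * (w * d * w⁻¹) * g = g⁻¹ * w * g * (g⁻¹ * d * g) * (g⁻¹ * w * g)⁻¹ := by group
    have e2 : g⁻¹ * d⁻¹ * g = (g⁻¹ * d * g)⁻¹ := by group
    rw [e1, e2, h3]
  exact mul_left_cancel (mul_right_cancel h4)

end Cfsg.Agent.Lib.Helper20.CTIINVERT
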