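import Mathlib
import Cfsg.Prelude.Def_LieExceptional

set_option autoImplicit false

/-! Shared lemmas for S4064 pieces N3, N4, Z5: solvability of products, CN passes to subgroups. -/

namespace Cfsg.Agent.Lib.Helper20.CTISolv

universe u

/-- `G = N K` with `N` normal solvable and `K` solvable ⇒ `G` solvable. -/
theorem solvable_of_prod {G : Type u} [Group G] (N K : Subgroup G) [hN : N.Normal]
    (h : ∀ g : G, ∃ n ∈ N, ∃ k ∈ K, g = n * k) [Group.IsSolvable N] [Group.IsSolvable K] :
    Group.IsSolvable G := by
  have hsurj : Function.Surjective ((QuotientGroup.mk' N).comp K.subtype) := by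
    intro q
    obtain ⟨g, rfl⟩ := QuotientGroup.mk'_surjective N q
    obtain ⟨n, hn, k, hk, rfl⟩ := h g
    refine ⟨⟨k, hk⟩, ?_⟩
    simp only [MonoidHom.comp_apply, Subgroup.subtype_apply, QuotientGroup.mk'_apply]
    rw [QuotientGroup.eq]
    have := hN.conj_mem n hn k⁻¹
    simpa [mul_assoc] using this
  haveI : Group.IsSolvable (G ⧸ N) := Group.isSolvable_of_surjective hsurj
  exact (Group.isSolvable_iff_subgroup_quotient N).mpr ⟨inferInstance, inferInstance⟩

/-- a complement of a solvable normal subgroup which is solvable -/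
theorem solvable_of_complement {G : Type u} [Group G] (N K : Subgroup G) [hN : N.Normal]
    (h : Subgroup.IsComplement' N K) [Group.IsSolvable N] [Group.IsSolvable K] :
    Group.IsSolvable G := by
  apply solvable_of_prod N K
  intro g
  obtain ⟨⟨n, k⟩, hnk⟩ := h.2 g
  exact ⟨n, n.2, k, k.2, hnk.symm⟩

/-- CN passes to subgroups -/
theorem isCNGroup_subgroup {G : Type u} [Group G] (hCN : Cfsg.IsCNGroup G) (K : Subgroup G) :
    Cfsg.IsCNGroup K := by
  intro k hk
  have hk' : (k : G) ≠ 1 := fun h => hk (Subtype.ext h)
  haveI := hCN (k : G) hk'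
  let f : Subgroup.centralizer ({k} : Set K) →* Subgroup.centralizer ({(k : G)} : Set G) :=
    MonoidHom.codRestrict (K.subtype.comp (Subgroup.centralizer ({k} : Set K)).subtype)
      (Subgroup.centralizer ({(k : G)} : Set G)) (by
        intro x
        rw [Subgroup.mem_centralizer_singleton_iff]
        have := Subgroup.mem_centralizer_singleton_iff.mp x.2
        exact congrArg Subtype.val this)
  have hf : Function.Injective f := by
    intro x y hxy
    have : ((x : K) : G) = ((y : K) : G) :=
      congrArg (fun z : Subgroup.centralizer ({(k : G)} : Set G) => (z : G)) hxy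
    exact Subtype.ext (Subtype.ext this)
  exact Subgroup.isNilpotent_of_ker_le_center f (by rw [(f.ker_eq_bot_iff).mpr hf]; exact bot_le)

end Cfsg.Agent.Lib.Helper20.CTISolv
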