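import Mathlib
import Cfsg.Agent.Lib.Helper30.CTIStmt

set_option autoImplicit false

/-! S4064/Z2T: transitive + point stabilizer transitive on the rest ⇒ 2-transitive. -/

namespace Cfsg.Agent.Lib.Helper20.CTIZ2T

open Cfsg.Agent.Lib.Helper30.CTIStmt

universe u

theorem ne_one_of_ne {G : Type u} [Group G] (H : Subgroup G) (g : G) (b : G ⧸ H)
    (hab : (g : G ⧸ H) ≠ b) : g⁻¹ • b ≠ ((1 : G) : G ⧸ H) := by
  intro h
  apply hab
  have hb : b = g • ((1 : G) : G ⧸ H) := by rw [← h, smul_inv_smul]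
  rw [hb, MulAction.Quotient.smul_mk, smul_eq_mul, mul_one]

theorem main : Z2T.{u} := by
  intro G _ H hZ
  rw [MulAction.is_two_pretransitive_iff]
  intro a b c d hab hcd
  obtain ⟨g₁, rfl⟩ := QuotientGroup.mk_surjective a
  obtain ⟨g₂, rfl⟩ := QuotientGroup.mk_surjective c
  have h1 := ne_one_of_ne H g₁ b hab
  have h2 := ne_one_of_ne H g₂ d hcd
  obtain ⟨h, hh, hh'⟩ := hZ _ _ h1 h2
  refine ⟨g₂ * h * g₁⁻¹, ?_, ?_⟩
  · rw [MulAction.Quotient.smul_mk, smul_eq_mul, inv_mul_cancel_right]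
    exact QuotientGroup.eq.mpr (by simpa using hh)
  · rw [mul_smul, mul_smul, hh', smul_inv_smul]

end Cfsg.Agent.Lib.Helper20.CTIZ2T
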