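import Mathlib
import Cfsg.Prelude.Def_Characters
import Cfsg.Agent.Lib.Helper32.D8Stmt
import Cfsg.Agent.Lib.Helper26.GenChar
import Cfsg.Agent.Lib.Helper80.Integrality
import Cfsg.Agent.Lib.CT.Ops
import Cfsg.Agent.Lib.CT.Wedderburn

/-!
# S3716: shared linearity and degree lemmas for the pieces C2T, CASE1, C2B
-/

set_option autoImplicit false

namespace Cfsg.Agent.Lib.Helper20.D8Lin

open Cfsg Cfsg.Agent.Lib.Helper32.D8Stmt

universe u

variable {G : Type u} [Group G] [Fintype G]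

theorem bb_sub (Θ Θ' : G → ℂ) (u v : G) : bb (Θ - Θ') u v = bb Θ u v - bb Θ' u v := by
  simp only [bb, Pi.sub_apply, Finset.sum_sub_distrib, mul_sub]

theorem bb_add (Θ Θ' : G → ℂ) (u v : G) : bb (Θ + Θ') u v = bb Θ u v + bb Θ' u v := by
  simp only [bb, Pi.add_apply, Finset.sum_add_distrib, mul_add]

theorem ci_sub_left (φ φ' ψ : G → ℂ) :
    classInner (φ - φ') ψ = classInner φ ψ - classInner φ' ψ := by
  simp only [classInner, Pi.sub_apply, sub_mul, Finset.sum_sub_distrib, mul_sub]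

theorem ci_add_left (φ φ' ψ : G → ℂ) :
    classInner (φ + φ') ψ = classInner φ ψ + classInner φ' ψ := by
  simp only [classInner, Pi.add_apply, add_mul, Finset.sum_add_distrib, mul_add]

theorem ci_sub_right (φ ψ ψ' : G → ℂ) :
    classInner φ (ψ - ψ') = classInner φ ψ - classInner φ ψ' :=
  Cfsg.Agent.Lib.Helper26.GenChar.classInner_sub_right φ ψ ψ'

theorem ci_add_right (φ ψ ψ' : G → ℂ) :
    classInner φ (ψ + ψ') = classInner φ ψ + classInner φ ψ' :=
  Cfsg.Agent.Lib.Helper26.GenChar.classInner_add_right φ ψ ψ'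

theorem gc_sub {θ η : G → ℂ} (h : IsGeneralizedCharacter G θ) (h' : IsGeneralizedCharacter G η) :
    IsGeneralizedCharacter G (θ - η) :=
  Cfsg.Agent.Lib.Helper26.GenChar.isGeneralizedCharacter_sub h h'

theorem gc_add {θ η : G → ℂ} (h : IsGeneralizedCharacter G θ) (h' : IsGeneralizedCharacter G η) :
    IsGeneralizedCharacter G (θ + η) :=
  Cfsg.Agent.Lib.Helper26.GenChar.isGeneralizedCharacter_add h h'

theorem triv_irr : IsIrrCharacter G (triv G) :=
  Cfsg.Agent.Lib.CT.Ops.isIrrCharacter_one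

theorem triv_apply (g : G) : triv G g = 1 := rfl

theorem card_ne_zero : (Nat.card G : ℂ) ≠ 0 := by
  have : 0 < Nat.card G := Nat.card_pos
  exact_mod_cast this.ne'

theorem deg_ne_zero {U : G → ℂ} (hU : IsIrrCharacter G U) : U 1 ≠ 0 := by
  rw [Cfsg.Agent.Lib.Helper80.Integrality.apply_one_eq_charDegree
    (Cfsg.Agent.Lib.CT.Wedderburn.isCharacter_of_irr hU)]
  exact_mod_cast (Cfsg.Agent.Lib.CT.Wedderburn.irr_charDegree_pos hU).ne'

theorem deg_eq_one_of {U : G → ℂ} (hU : IsIrrCharacter G U) {σ : ℂ} (hσ : σ = 1 ∨ σ = -1)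
    (h : σ * U 1 = -1) : U 1 = 1 := by
  rw [Cfsg.Agent.Lib.Helper80.Integrality.apply_one_eq_charDegree
    (Cfsg.Agent.Lib.CT.Wedderburn.isCharacter_of_irr hU)] at h ⊢
  rcases hσ with rfl | rfl
  · exfalso
    have h2 : ((charDegree U : ℤ) : ℂ) = ((-1 : ℤ) : ℂ) := by
      push_cast
      linear_combination h
    have h3 := Int.cast_injective h2
    omega
  · linear_combination -h

/-- Rescaling of the pair relation. -/
theorem pair_scale (α β γ ca cw n m M P Q A B C : ℂ) (hca : ca ≠ 0) (hcw : cw ≠ 0) (hn : n ≠ 0)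
    (hA : A = α * ca ^ 2 / n) (hB : B = β * ca * cw / n) (hC : C = γ * cw ^ 2 / n)
    (h : m * (C * P ^ 2 - 2 * B * P * Q + A * Q ^ 2) = M * (A * C - B ^ 2)) :
    m * (γ * (P / ca) ^ 2 - 2 * β * (P / ca) * (Q / cw) + α * (Q / cw) ^ 2) * n
      = M * (α * γ - β ^ 2) := by
  subst hA hB hC
  have e : m * (γ * (P / ca) ^ 2 - 2 * β * (P / ca) * (Q / cw) + α * (Q / cw) ^ 2) * n
      - M * (α * γ - β ^ 2)
      = (n ^ 2 / (ca ^ 2 * cw ^ 2)) *
        (m * ((γ * cw ^ 2 / n) * P ^ 2 - 2 * (β * ca * cw / n) * P * Q + (α * ca ^ 2 / n) * Q ^ 2)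
          - M * ((α * ca ^ 2 / n) * (γ * cw ^ 2 / n) - (β * ca * cw / n) ^ 2)) := by
    field_simp
  have h' := sub_eq_zero.mpr h
  rw [h', mul_zero] at e
  exact sub_eq_zero.mp e

end Cfsg.Agent.Lib.Helper20.D8Lin
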