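import Mathlib
import Cfsg.Prelude.Def_Characters
import Cfsg.Agent.Lib.Helper32.D8Stmt
import Cfsg.Agent.Lib.Helper20.D8Lin

/-!
# S3716 piece C2T: the four uses of TRI
-/

set_option autoImplicit false

namespace Cfsg.Agent.Lib.Helper20.D8C2T

open Cfsg Cfsg.Agent.Lib.Helper32.D8Stmt Cfsg.Agent.Lib.Helper20.D8Lin

universe u

theorem main (hTRI : TRI.{u}) : C2T.{u} := by
  intro G _ _ Θ1 Θ2 Θ3 Θ4 a w ca cw hB hca hcw hTab U σ hU hUt hσ
  obtain ⟨⟨h1aa, h1aw, h1ww⟩, ⟨h2aa, h2aw, h2ww⟩, ⟨h3aa, h3aw, h3ww⟩, ⟨h4aa, h4aw, h4ww⟩⟩ :=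
    hTab
  have hn : (Nat.card G : ℂ) ≠ 0 := card_ne_zero
  refine ⟨?_, ?_, ?_, ?_⟩
  · intro m1 m2
    have key := hTRI (Θ1 - Θ2) U w a (gc_sub hB.g1 hB.g2)
      (by simp only [Pi.sub_apply, hB.o1, hB.o2]; ring)
      (by simp only [ci_sub_left, ci_sub_right, hB.n11, hB.n12, hB.n21, hB.n22]; norm_num)
      (by simp only [Pi.sub_apply, hB.w1, hB.w2]; ring)
      (by simp only [Pi.sub_apply, hB.a1, hB.a2]; ring)
      (by simp only [ci_sub_left, hB.t1, hB.t2]; ring)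
      hU hUt
      (by simp only [ci_sub_left, m1, m2]; rcases hσ with rfl | rfl <;> norm_num)
    exact key.2 (by simp only [bb_sub, h1ww, h2ww]; ring)
  · intro m3 m4
    have key := hTRI (Θ3 - Θ4) U a w (gc_sub hB.g3 hB.g4)
      (by simp only [Pi.sub_apply, hB.o3, hB.o4]; ring)
      (by simp only [ci_sub_left, ci_sub_right, hB.n33, hB.n34, hB.n43, hB.n44]; norm_num)
      (by simp only [Pi.sub_apply, hB.a3, hB.a4]; ring)
      (by simp only [Pi.sub_apply, hB.w3, hB.w4]; ring)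
      (by simp only [ci_sub_left, hB.t3, hB.t4]; ring)
      hU hUt
      (by simp only [ci_sub_left, m3, m4]; rcases hσ with rfl | rfl <;> norm_num)
    exact key.2 (by simp only [bb_sub, h3aa, h4aa]; ring)
  · intro m1 m2 m3 m4
    have key := hTRI (Θ3 + Θ4 - Θ2) U w a (gc_sub (gc_add hB.g3 hB.g4) hB.g2)
      (by simp only [Pi.sub_apply, Pi.add_apply, hB.o3, hB.o4, hB.o2]; ring)
      (by simp only [ci_sub_left, ci_add_left, ci_sub_right, ci_add_right, hB.n33, hB.n34,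
            hB.n32, hB.n43, hB.n44, hB.n42, hB.n23, hB.n24, hB.n22]; norm_num)
      (by simp only [Pi.sub_apply, Pi.add_apply, hB.w3, hB.w4, hB.w2]; ring)
      (by simp only [Pi.sub_apply, Pi.add_apply, hB.a3, hB.a4, hB.a2]; ring)
      (by simp only [ci_sub_left, ci_add_left, hB.t3, hB.t4, hB.t2]; ring)
      hU hUt
      (by simp only [ci_sub_left, ci_add_left, m2, m3, m4]; rcases hσ with rfl | rfl <;> norm_num)
    exact key.2 (by simp only [bb_sub, bb_add, h3ww, h4ww, h2ww]; ring)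
  · intro m1 m2 m3 m4
    have key := hTRI (Θ1 + Θ2 - Θ4) U a w (gc_sub (gc_add hB.g1 hB.g2) hB.g4)
      (by simp only [Pi.sub_apply, Pi.add_apply, hB.o1, hB.o2, hB.o4]; ring)
      (by simp only [ci_sub_left, ci_add_left, ci_sub_right, ci_add_right, hB.n11, hB.n12,
            hB.n14, hB.n21, hB.n22, hB.n24, hB.n41, hB.n42, hB.n44]; norm_num)
      (by simp only [Pi.sub_apply, Pi.add_apply, hB.a1, hB.a2, hB.a4]; ring)
      (by simp only [Pi.sub_apply, Pi.add_apply, hB.w1, hB.w2, hB.w4]; ring)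
      (by simp only [ci_sub_left, ci_add_left, hB.t1, hB.t2, hB.t4]; ring)
      hU hUt
      (by simp only [ci_sub_left, ci_add_left, m1, m2, m4]; rcases hσ with rfl | rfl <;> norm_num)
    have key1 := key.1
    simp only [bb_sub, bb_add, h1aa, h2aa, h4aa, h1ww, h2ww, h4ww, h1aw, h2aw, h4aw] at key1
    have hne : ca ^ 2 * cw ^ 2 / (Nat.card G : ℂ) ^ 2 ≠ 0 :=
      div_ne_zero (mul_ne_zero (pow_ne_zero 2 hca) (pow_ne_zero 2 hcw)) (pow_ne_zero 2 hn)
    exact hne (by linear_combination (2 / 9 : ℂ) * key1)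

end Cfsg.Agent.Lib.Helper20.D8C2T
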