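-- helper20: subgroups of symmetric groups generated by 3-cycles (Jordan), for S2929.
import Mathlib
import Cfsg.Prelude.Def_Local
import Cfsg.Agent.Lib.Helper21.Comp
import Cfsg.Agent.Lib.Helper21.FStar
import Cfsg.Agent.Lib.Helper22.CompInv
import Cfsg.Agent.Lib.Helper56.SmallSolvable

set_option autoImplicit false
set_option linter.unusedVariables false
set_option linter.unusedSectionVars false

namespace Cfsg.Agent.Lib.Helper20.ThreeCyc

open Equiv Equiv.Perm Subgroup
open scoped Pointwise commutatorElement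

variable {α : Type*} [Fintype α] [DecidableEq α]

/-- a 3-cycle cannot map a set with two points off itself. -/
theorem threeCycle_not_disjoint {s : Perm α} (hs : s.IsThreeCycle) {B : Set α} {b b' : α}
    (hb : b ∈ B) (hb' : b' ∈ B) (hne : b ≠ b') (hd : ∀ a ∈ B, s a ∉ B) : False := by
  have h1 : s b ∉ B := hd b hb
  have h2 : s b' ∉ B := hd b' hb'
  have hsb : s b ≠ b := fun h => h1 (by rw [h]; exact hb)
  have hsb' : s b' ≠ b' := fun h => h2 (by rw [h]; exact hb')
  have m1 : b ∈ s.support := mem_support.2 hsb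
  have m2 : b' ∈ s.support := mem_support.2 hsb'
  have m3 : s b ∈ s.support := apply_mem_support.2 m1
  have m4 : s b' ∈ s.support := apply_mem_support.2 m2
  have hcard : ({b, b', s b, s b'} : Finset α).card = 4 := by
    rw [Finset.card_insert_of_notMem, Finset.card_insert_of_notMem, Finset.card_pair]
    · intro h; exact hne (s.injective h)
    · simp only [Finset.mem_insert, Finset.mem_singleton, not_or]
      exact ⟨fun h => h1 (by rw [← h]; exact hb'), fun h => h2 (by rw [← h]; exact hb')⟩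
    · simp only [Finset.mem_insert, Finset.mem_singleton, not_or]
      exact ⟨hne, fun h => h1 (by rw [← h]; exact hb), fun h => h2 (by rw [← h]; exact hb)⟩
  have hsub : ({b, b', s b, s b'} : Finset α) ⊆ s.support := by
    intro a ha
    simp only [Finset.mem_insert, Finset.mem_singleton] at ha
    rcases ha with rfl | rfl | rfl | rfl <;> assumption
  have := Finset.card_le_card hsub
  rw [hcard, hs.card_support] at this
  omega

/-- a transitive group generated by 3-cycles is primitive. -/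
theorem isPreprimitive_closure (S : Set (Perm α)) (hS : ∀ s ∈ S, s.IsThreeCycle)
    (htrans : MulAction.IsPretransitive (closure S) α) :
    MulAction.IsPreprimitive (closure S) α := by
  refine { toIsPretransitive := htrans, isTrivialBlock_of_isBlock := ?_ }
  intro B hB
  by_cases hsub : B.Subsingleton
  · exact Or.inl hsub
  right
  rw [Set.not_subsingleton_iff] at hsub
  obtain ⟨b, hb, b', hb', hne⟩ := hsub
  have hgen : ∀ s ∈ S, s ∈ MulAction.stabilizer (Perm α) B := by
    intro s hs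
    rw [MulAction.mem_stabilizer_iff]
    have h := (MulAction.isBlock_iff_smul_eq_or_disjoint.1 hB) ⟨s, subset_closure hs⟩
    rcases h with h | h
    · exact h
    · exfalso
      apply threeCycle_not_disjoint (hS s hs) hb hb' hne
      intro a ha hsa
      exact Set.disjoint_left.1 h (Set.smul_mem_smul_set (a := (⟨s, subset_closure hs⟩ : closure S)) ha) hsa
  have hle : closure S ≤ MulAction.stabilizer (Perm α) B := (closure_le _).2 hgen
  rw [Set.eq_univ_iff_forall]
  intro a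
  obtain ⟨g, hg⟩ := MulAction.exists_smul_eq (closure S) b a
  have h := hle g.2
  rw [MulAction.mem_stabilizer_iff] at h
  rw [← h, ← hg]
  exact Set.smul_mem_smul_set (a := (g : Perm α)) hb

/-- Jordan: a transitive group generated by 3-cycles contains the alternating group. -/
theorem alt_le_closure (S : Set (Perm α)) (hS : ∀ s ∈ S, s.IsThreeCycle) (hne : S.Nonempty)
    (htrans : MulAction.IsPretransitive (closure S) α) : alternatingGroup α ≤ closure S := by
  obtain ⟨s, hs⟩ := hne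
  exact alternatingGroup_le_of_isPreprimitive_of_isThreeCycle_mem
    (isPreprimitive_closure S hS htrans) (hS s hs) (subset_closure hs)

/-- a perfect group of permutations cannot have a 3-cycle in its centre. -/
theorem false_of_central_threeCycle (L : Subgroup (Perm α)) (hperf : ⁅L, L⁆ = L) (z : Perm α)
    (hz : z.IsThreeCycle) (hzL : z ∈ L) (hc : ∀ g ∈ L, g * z = z * g) : False := by
  obtain ⟨a, ha⟩ : z.support.Nonempty := by
    rw [← Finset.card_pos, hz.card_support]; norm_num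
  have ha' : z a ≠ a := mem_support.1 ha
  have hcz : ∀ g ∈ L, ∀ i : ℤ, ∀ c : α, g ((z ^ i) c) = (z ^ i) (g c) := by
    intro g hg i c
    have h1 : g * z ^ i = z ^ i * g := (Commute.zpow_right (hc g hg) i).eq
    have := congrArg (fun p : Perm α => p c) h1
    simpa [Perm.mul_apply] using this
  have key : ∀ g ∈ L, ∃ i : ℤ, g a = (z ^ i) a := by
    intro g hg
    have h2 : z (g a) ≠ g a := by
      intro h
      have h3 := hcz g hg 1 a
      rw [zpow_one, h] at h3
      exact ha' (g.injective h3)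
    obtain ⟨i, hi⟩ := hz.isCycle.exists_zpow_eq ha' h2
    exact ⟨i, hi.symm⟩
  have hgh : ∀ g ∈ L, ∀ h ∈ L, g (h a) = h (g a) := by
    intro g hg h hh
    obtain ⟨i, hi⟩ := key g hg
    obtain ⟨j, hj⟩ := key h hh
    rw [hi, hj, hcz g hg j a, hcz h hh i a, hi, hj, ← Perm.mul_apply, ← Perm.mul_apply,
      ← zpow_add, ← zpow_add, add_comm]
  have hle : ⁅L, L⁆ ≤ MulAction.stabilizer (Perm α) a := by
    rw [commutator_le]
    intro g hg h hh
    rw [MulAction.mem_stabilizer_iff]
    show (⁅g, h⁆ : Perm α) a = a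
    rw [commutatorElement_def]
    simp only [Perm.mul_apply]
    rw [hgh g⁻¹ (L.inv_mem hg) h⁻¹ (L.inv_mem hh)]
    simp
  rw [hperf] at hle
  exact ha' (MulAction.mem_stabilizer_iff.1 (hle hzL))

/-- a permutation supported on `Δ` is in the range of `ofSubtype`. -/
theorem mem_range_of_support (Δ : Finset α) (s : Perm α) (h : ∀ a, s a ≠ a → a ∈ Δ) :
    s ∈ (ofSubtype : Perm ↥Δ →* Perm α).range := by
  have h₁ : ∀ a, s a ∈ Δ ↔ a ∈ Δ := by
    intro a
    by_cases ha : s a = a
    · rw [ha]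
    · have h2 : s (s a) ≠ s a := fun h' => ha (s.injective h')
      exact ⟨fun _ => h a ha, fun _ => h (s a) h2⟩
  exact ⟨s.subtypePerm h₁, ofSubtype_subtypePerm h₁ h⟩

/-- **Main permutation-group lemma.** `L` perfect, nontrivial, normalized by `H ≥ L`, `z ∈ H` a
3-cycle and `L` inside the group generated by the `L`-conjugates of `z`: then `L` is an alternating
group on some subset `Δ`, and `L` fixes every point outside `Δ`. -/
theorem exists_alt_iso (L H : Subgroup (Perm α)) (hLH : L ≤ H)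
    (hn : ∀ h ∈ H, ∀ g ∈ L, h * g * h⁻¹ ∈ L) (hperf : ⁅L, L⁆ = L) (hne : L ≠ ⊥)
    (z : Perm α) (hz : z.IsThreeCycle) (hzH : z ∈ H)
    (hLM : L ≤ closure {s | ∃ g ∈ L, s = g * z * g⁻¹}) :
    ∃ Δ : Finset α, (∀ g ∈ L, ∀ a, a ∉ Δ → g a = a) ∧
      Nonempty (L ≃* alternatingGroup ↥Δ) := by
  classical
  let S : Set (Perm α) := {s | ∃ g ∈ L, s = g * z * g⁻¹}
  let M : Subgroup (Perm α) := closure S
  have hLM' : L ≤ M := hLM
  let Δ : Finset α := Finset.univ.filter (fun a => ∃ g ∈ L, g⁻¹ a ∈ z.support)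
  have hΔ : ∀ a, a ∈ Δ ↔ ∃ g ∈ L, g⁻¹ a ∈ z.support := by
    intro a; simp [Δ]
  let f : Perm ↥Δ →* Perm α := ofSubtype
  have hf : Function.Injective f := ofSubtype_injective
  have hzS : z ∈ S := ⟨1, L.one_mem, by simp⟩
  have hSr : ∀ s ∈ S, s ∈ f.range := by
    rintro s ⟨g, hg, rfl⟩
    apply mem_range_of_support
    intro a ha
    refine (hΔ a).2 ⟨g, hg, mem_support.2 ?_⟩
    intro h2
    apply ha
    simp only [Perm.mul_apply]
    rw [h2]
    simp
  have hMr : M ≤ f.range := (closure_le _).2 hSr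
  have hMH : M ≤ H := (closure_le _).2 (by
    rintro s ⟨g, hg, rfl⟩
    exact H.mul_mem (H.mul_mem (hLH hg) hzH) (H.inv_mem (hLH hg)))
  let S' : Set (Perm ↥Δ) := f ⁻¹' S
  let M' : Subgroup (Perm ↥Δ) := closure S'
  have hM'map : M'.map f = M := by
    show (closure S').map f = closure S
    rw [MonoidHom.map_closure, Set.image_preimage_eq_of_subset]
    intro s hs
    exact hSr s hs
  have hS'3 : ∀ s ∈ S', s.IsThreeCycle := by
    intro s hs
    obtain ⟨g, hg, hsg⟩ := hs
    have h1 : (f s).cycleType = {3} := by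
      rw [hsg, cycleType_conj]; exact hz
    have h2 : (f s).cycleType = s.cycleType := cycleType_ofSubtype
    show s.cycleType = {3}
    rw [← h2]; exact h1
  obtain ⟨a₀, ha₀⟩ : z.support.Nonempty := by
    rw [← Finset.card_pos, hz.card_support]; norm_num
  have ha₀Δ : a₀ ∈ Δ := (hΔ a₀).2 ⟨1, L.one_mem, by simpa using ha₀⟩
  have htr : MulAction.IsPretransitive M' ↥Δ := by
    rw [MulAction.isPretransitive_iff_base (⟨a₀, ha₀Δ⟩ : ↥Δ)]
    rintro ⟨a, ha⟩
    obtain ⟨g, hg, hga⟩ := (hΔ a).1 ha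
    obtain ⟨i, hi⟩ := hz.isCycle.exists_zpow_eq (mem_support.1 ha₀) (mem_support.1 hga)
    have hmem : g * z ^ i ∈ M := M.mul_mem (hLM' hg) (M.zpow_mem (subset_closure hzS) i)
    rw [← hM'map] at hmem
    obtain ⟨m', hm', hm'eq⟩ := hmem
    refine ⟨⟨m', hm'⟩, ?_⟩
    apply Subtype.ext
    show ((m' ⟨a₀, ha₀Δ⟩ : ↥Δ) : α) = a
    have h3 : f m' a₀ = ((m' ⟨a₀, ha₀Δ⟩ : ↥Δ) : α) := ofSubtype_apply_coe m' ⟨a₀, ha₀Δ⟩
    rw [← h3, hm'eq, Perm.mul_apply, hi]
    simp
  have hS'ne : S'.Nonempty := by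
    obtain ⟨z', hz'⟩ := hSr z hzS
    refine ⟨z', ?_⟩
    show f z' ∈ S
    rw [hz']; exact hzS
  have hAle : alternatingGroup ↥Δ ≤ M' := alt_le_closure S' hS'3 hS'ne htr
  let L₁ : Subgroup (Perm ↥Δ) := L.comap f
  have hL₁map : L₁.map f = L := by
    rw [map_comap_eq, inf_eq_right]; exact hLM'.trans hMr
  have hperf₁ : ⁅L₁, L₁⁆ = L₁ := by
    apply map_injective hf
    rw [map_commutator, hL₁map, hperf]
  have hne₁ : L₁ ≠ ⊥ := by
    intro h; apply hne; rw [← hL₁map, h, Subgroup.map_bot]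
  have hL₁alt : L₁ ≤ alternatingGroup ↥Δ := by
    rw [← hperf₁, commutator_le]
    intro a _ b _
    rw [mem_alternatingGroup, map_commutatorElement]
    exact commutatorElement_eq_one_iff_commute.2 (Commute.all _ _)
  have hcard : 5 ≤ Nat.card ↥Δ := by
    by_contra hc
    have hc' := not_le.1 hc
    have hsolv : Group.IsSolvable (Perm ↥Δ) :=
      Cfsg.Agent.Lib.Helper56.SmallSolvable.isSolvable_perm_of_card_le_four ↥Δ (by omega)
    have hsolv₁ : Group.IsSolvable L₁ := Group.isSolvable_of_isSolvable_injective L₁.subtype_injective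
    have := Cfsg.Agent.Lib.Helper21.FStar.commutator_lt_of_solvable hsolv₁ hne₁
    rw [hperf₁] at this
    exact lt_irrefl _ this
  have hsimple := alternatingGroup.isSimpleGroup hcard
  have hnorm₁ : ∀ m ∈ M', ∀ k ∈ L₁, m * k * m⁻¹ ∈ L₁ := by
    intro m hm k hk
    show f (m * k * m⁻¹) ∈ L
    rw [map_mul, map_mul, map_inv]
    apply hn _ _ _ hk
    apply hMH
    rw [← hM'map]
    exact ⟨m, hm, rfl⟩
  let N : Subgroup (alternatingGroup ↥Δ) := L₁.subgroupOf (alternatingGroup ↥Δ)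
  have hNn : N.Normal := ⟨fun k hk g => by
    rw [mem_subgroupOf] at hk ⊢
    exact hnorm₁ g (hAle g.2) k hk⟩
  rcases hNn.eq_bot_or_eq_top with h | h
  · exfalso
    apply hne₁
    rw [eq_bot_iff]
    intro k hk
    have h1 : (⟨k, hL₁alt hk⟩ : alternatingGroup ↥Δ) ∈ N := mem_subgroupOf.2 hk
    rw [h, mem_bot] at h1
    exact mem_bot.2 (congrArg Subtype.val h1)
  · have hAL : alternatingGroup ↥Δ ≤ L₁ := by
      intro k hk
      have h1 : (⟨k, hk⟩ : alternatingGroup ↥Δ) ∈ N := by rw [h]; exact mem_top _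
      exact mem_subgroupOf.1 h1
    have heq : L₁ = alternatingGroup ↥Δ := le_antisymm hL₁alt hAL
    refine ⟨Δ, ?_, ⟨?_⟩⟩
    · intro g hg a ha
      obtain ⟨g', rfl⟩ := hMr (hLM' hg)
      exact ofSubtype_apply_of_not_mem g' ha
    · exact ((MulEquiv.subgroupCongr hL₁map.symm).trans
        (L₁.equivMapOfInjective f hf).symm).trans (MulEquiv.subgroupCongr heq)

/-- a Sylow 3-subgroup of `S_n`, `n ≥ 3`, contains a 3-cycle. -/
theorem exists_threeCycle_mem (n : ℕ) (hn : 3 ≤ n) (P : Sylow 3 (Perm (Fin n))) :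
    ∃ z ∈ P, z.IsThreeCycle := by
  have : Fact (Nat.Prime 3) := ⟨Nat.prime_three⟩
  let a : Fin n := ⟨0, by omega⟩
  let b : Fin n := ⟨1, by omega⟩
  let c : Fin n := ⟨2, by omega⟩
  have hc : (swap a b * swap a c).IsThreeCycle :=
    isThreeCycle_swap_mul_swap_same (by simp [a, b, Fin.ext_iff]) (by simp [a, c, Fin.ext_iff])
      (by simp [b, c, Fin.ext_iff])
  obtain ⟨t, ht⟩ : ∃ t : Perm (Fin n), t.IsThreeCycle := ⟨_, hc⟩
  have hp : IsPGroup 3 (zpowers t) := by
    apply IsPGroup.of_card (n := 1)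
    rw [Nat.card_zpowers, ht.orderOf]; norm_num
  obtain ⟨Q, hQ⟩ := hp.exists_le_sylow
  obtain ⟨g, hg⟩ := MulAction.exists_smul_eq (Perm (Fin n)) Q P
  refine ⟨g * t * g⁻¹, ?_, ?_⟩
  · rw [← hg]
    show g * t * g⁻¹ ∈ ((g • Q : Sylow 3 (Perm (Fin n))) : Subgroup (Perm (Fin n)))
    rw [Sylow.smul_def, Sylow.pointwise_smul_def]
    have h1 : t ∈ (Q : Subgroup (Perm (Fin n))) := hQ (mem_zpowers t)
    have h2 := Subgroup.smul_mem_pointwise_smul t (MulAut.conj g) _ h1
    simpa [MulAut.smul_def] using h2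
  · show (g * t * g⁻¹).cycleType = {3}
    rw [cycleType_conj]; exact ht

/-- counting: a Sylow 3-subgroup of `S_n` acting faithfully on an invariant set `D` forces
`|D| ≥ n - 2`. -/
theorem sylow_bound (n : ℕ) (P : Sylow 3 (Perm (Fin n))) (D : Finset (Fin n))
    (hinv : ∀ h ∈ P, ∀ a, h a ∈ D ↔ a ∈ D) (hfaith : ∀ h ∈ P, (∀ a ∈ D, h a = a) → h = 1) :
    n ≤ D.card + 2 := by
  have : Fact (Nat.Prime 3) := ⟨Nat.prime_three⟩
  let ρ : ↥(P : Subgroup (Perm (Fin n))) →* Perm ↥D :=
    { toFun := fun h => (h : Perm (Fin n)).subtypePerm (fun a => hinv h h.2 a)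
      map_one' := by ext; simp
      map_mul' := fun g h => by ext k; rfl }
  have hρ : Function.Injective ρ := by
    rw [injective_iff_map_eq_one]
    intro h hh
    apply Subtype.ext
    apply hfaith h h.2
    intro a ha
    have := congrArg (fun σ : Perm ↥D => ((σ ⟨a, ha⟩ : ↥D) : Fin n)) hh
    simpa [ρ] using this
  have hdvd : Nat.card ↥(P : Subgroup (Perm (Fin n))) ∣ Nat.card (Perm ↥D) :=
    Subgroup.card_dvd_of_injective ρ hρ
  rw [Nat.card_perm, Nat.card_eq_fintype_card (α := ↥D), Fintype.card_coe] at hdvd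
  rw [Sylow.card_eq_multiplicity, Nat.card_perm, Nat.card_fin] at hdvd
  by_contra hcon
  have hcon' := not_le.1 hcon
  have h1 : (D.card + 3).factorial ∣ n.factorial := Nat.factorial_dvd_factorial (by omega)
  have h2 : 3 * D.card.factorial ∣ (D.card + 3).factorial := by
    have e : (D.card + 3).factorial
        = ((D.card + 3) * (D.card + 2) * (D.card + 1)) * D.card.factorial := by
      simp only [Nat.factorial_succ]; ring
    rw [e]
    have h3 : 3 ∣ (D.card + 3) * (D.card + 2) * (D.card + 1) := by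
      apply Nat.dvd_of_mod_eq_zero
      rcases (by omega : D.card % 3 = 0 ∨ D.card % 3 = 1 ∨ D.card % 3 = 2) with h | h | h <;>
        simp [Nat.mul_mod, Nat.add_mod, h]
    exact Nat.mul_dvd_mul_right h3 _
  have hk0 : D.card.factorial ≠ 0 := Nat.factorial_ne_zero _
  have hn0 : n.factorial ≠ 0 := Nat.factorial_ne_zero n
  have hv : 3 ^ (D.card.factorial.factorization 3) ∣ D.card.factorial := Nat.ordProj_dvd _ _
  have h4 : 3 ^ (D.card.factorial.factorization 3 + 1) ∣ n.factorial := by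
    rw [pow_succ, mul_comm]
    exact (Nat.mul_dvd_mul_left 3 hv).trans (h2.trans h1)
  have h5 := (Nat.prime_three.pow_dvd_iff_le_factorization hn0).1 h4
  have h6 := (Nat.prime_three.pow_dvd_iff_le_factorization hk0).1 hdvd
  omega

/-- **S2929.** `H ≤ S_n` containing a Sylow 3-subgroup of `S_n`, with `F*(H)` quasisimple:
`F*(H) ≅ A_m` with `m ∈ {n-2, n-1, n}`. -/
theorem main (n : ℕ) (hn : 5 ≤ n) (H : Subgroup (Perm (Fin n)))
    (hF : Cfsg.IsQuasisimple ↥(Cfsg.generalizedFittingSubgroup ↥H))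
    (hS : ∃ P : Sylow 3 (Perm (Fin n)), (P : Subgroup (Perm (Fin n))) ≤ H) :
    ∃ m : ℕ, (m = n - 2 ∨ m = n - 1 ∨ m = n) ∧
      Nonempty (↥(Cfsg.generalizedFittingSubgroup ↥H) ≃* ↥(alternatingGroup (Fin m))) := by
  classical
  obtain ⟨P, hP⟩ := hS
  obtain ⟨z, hzP, hz⟩ := exists_threeCycle_mem n (by omega) P
  have hzH : z ∈ H := hP hzP
  have hFn : (Cfsg.generalizedFittingSubgroup ↥H).Normal :=
    Cfsg.Agent.Lib.Helper21.FStar.gfs_normal
  have hcent : centralizer ((Cfsg.generalizedFittingSubgroup ↥H : Subgroup ↥H) : Set ↥H)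
      ≤ Cfsg.generalizedFittingSubgroup ↥H :=
    Cfsg.Agent.Lib.Helper21.FStar.centralizer_gfs_le
  let L : Subgroup (Perm (Fin n)) := (Cfsg.generalizedFittingSubgroup ↥H).map H.subtype
  have hLmem : ∀ g, g ∈ L ↔ ∃ k ∈ Cfsg.generalizedFittingSubgroup ↥H, (k : Perm (Fin n)) = g := by
    intro g; exact Subgroup.mem_map
  have hLH : L ≤ H := by
    intro g hg
    obtain ⟨k, _, rfl⟩ := (hLmem g).1 hg
    exact k.2
  have hnorm : ∀ h ∈ H, ∀ g ∈ L, h * g * h⁻¹ ∈ L := by
    intro h hh g hg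
    obtain ⟨k, hk, rfl⟩ := (hLmem g).1 hg
    exact (hLmem _).2 ⟨⟨h, hh⟩ * k * ⟨h, hh⟩⁻¹, hFn.conj_mem k hk ⟨h, hh⟩, rfl⟩
  have hperfF : ⁅Cfsg.generalizedFittingSubgroup ↥H, Cfsg.generalizedFittingSubgroup ↥H⁆
      = Cfsg.generalizedFittingSubgroup ↥H :=
    Cfsg.Agent.Lib.Helper21.Comp.commutator_self hF
  have hperf : ⁅L, L⁆ = L := by
    show ⁅(Cfsg.generalizedFittingSubgroup ↥H).map H.subtype,
      (Cfsg.generalizedFittingSubgroup ↥H).map H.subtype⁆ = _
    rw [← map_commutator, hperfF]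
  have hneF : Cfsg.generalizedFittingSubgroup ↥H ≠ ⊥ :=
    Cfsg.Agent.Lib.Helper21.Comp.ne_bot_of_quasisimple hF
  have hne : L ≠ ⊥ := by
    intro h; apply hneF
    exact (map_eq_bot_iff_of_injective _ H.subtype_injective).1 h
  have hcomp : Cfsg.IsComponent (Cfsg.generalizedFittingSubgroup ↥H) := ⟨hFn.isSubnormal, hF⟩
  have hcentL : ∀ h ∈ H, (∀ g ∈ L, g * h = h * g) → h ∈ L := by
    intro h hh hc
    have h1 : (⟨h, hh⟩ : ↥H) ∈
        centralizer ((Cfsg.generalizedFittingSubgroup ↥H : Subgroup ↥H) : Set ↥H) := by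
      rw [mem_centralizer_iff]
      intro k hk
      apply Subtype.ext
      exact hc k.1 ((hLmem _).2 ⟨k, hk, rfl⟩)
    exact (hLmem _).2 ⟨⟨h, hh⟩, hcent h1, rfl⟩
  let S : Set (Perm (Fin n)) := {s | ∃ g ∈ L, s = g * z * g⁻¹}
  have hzS : z ∈ S := ⟨1, L.one_mem, by simp⟩
  have hSH : ∀ s ∈ S, s ∈ H := by
    rintro s ⟨g, hg, rfl⟩
    exact H.mul_mem (H.mul_mem (hLH hg) hzH) (H.inv_mem (hLH hg))
  have hLS : ∀ g ∈ L, ∀ s ∈ S, g * s * g⁻¹ ∈ S := by
    rintro g hg s ⟨k, hk, rfl⟩
    exact ⟨g * k, L.mul_mem hg hk, by group⟩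
  have hLnS : L ≤ normalizer ((closure S : Subgroup (Perm (Fin n))) : Set (Perm (Fin n))) :=
    Cfsg.Agent.Lib.Helper22.CompInv.le_normalizer_closure L S hLS
  have hLM : L ≤ closure S := by
    let T : Subgroup ↥H := (closure S).subgroupOf H
    have hFT : Cfsg.generalizedFittingSubgroup ↥H ≤ normalizer (T : Set ↥H) := by
      intro k hk
      have hkL : (k : Perm (Fin n)) ∈ L := (hLmem _).2 ⟨k, hk, rfl⟩
      have h1 := hLnS hkL
      rw [mem_normalizer_iff] at h1 ⊢
      intro t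
      exact h1 (t : Perm (Fin n))
    rcases Cfsg.Agent.Lib.Helper22.CompInv.component_le_or_commutator_eq_bot hcomp hFT with h | h
    · intro g hg
      obtain ⟨k, hk, rfl⟩ := (hLmem g).1 hg
      exact mem_subgroupOf.1 (h hk)
    · exfalso
      have hzc : ∀ g ∈ L, g * z = z * g := by
        intro g hg
        obtain ⟨k, hk, rfl⟩ := (hLmem g).1 hg
        have hzT : (⟨z, hzH⟩ : ↥H) ∈ T := mem_subgroupOf.2 (subset_closure hzS)
        have h1 := commutator_eq_bot_iff_le_centralizer.1 h hk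
        have h2 := mem_centralizer_iff.1 h1 ⟨z, hzH⟩ hzT
        exact (congrArg Subtype.val h2).symm
      have hzL : z ∈ L := hcentL z hzH hzc
      exact false_of_central_threeCycle L hperf z hz hzL hzc
  obtain ⟨Δ, hΔ, ⟨e⟩⟩ := exists_alt_iso L H hLH hnorm hperf hne z hz hzH hLM
  let D : Finset (Fin n) := Finset.univ.filter (fun a => ∃ g ∈ L, g a ≠ a)
  have hD : ∀ a, a ∈ D ↔ ∃ g ∈ L, g a ≠ a := by
    intro a; simp [D]
  have hDΔ : D ⊆ Δ := by
    intro a ha
    obtain ⟨g, hg, hga⟩ := (hD a).1 ha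
    by_contra h
    exact hga (hΔ g hg a h)
  have hDinv : ∀ h ∈ H, ∀ a, a ∈ D → h a ∈ D := by
    intro h hh a ha
    obtain ⟨g, hg, hga⟩ := (hD a).1 ha
    refine (hD _).2 ⟨h * g * h⁻¹, hnorm h hh g hg, ?_⟩
    intro h'
    have h2 : (h * g * h⁻¹) (h a) = h (g a) := by
      simp [Perm.mul_apply]
    rw [h2] at h'
    exact hga (h.injective h')
  have hDinv' : ∀ h ∈ H, ∀ a, h a ∈ D ↔ a ∈ D := by
    intro h hh a
    refine ⟨fun ha => ?_, hDinv h hh a⟩
    have := hDinv h⁻¹ (H.inv_mem hh) _ ha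
    simpa using this
  have hfaith : ∀ h ∈ H, (∀ a ∈ D, h a = a) → h = 1 := by
    intro h hh hfix
    have hc : ∀ g ∈ L, g * h = h * g := by
      intro g hg
      ext a
      simp only [Perm.mul_apply]
      by_cases ha : a ∈ D
      · rw [hfix a ha, hfix (g a) (hDinv g (hLH hg) a ha)]
      · have h1 : g a = a := by
          by_contra h'; exact ha ((hD a).2 ⟨g, hg, h'⟩)
        have h2 : h a ∉ D := fun h' => ha ((hDinv' h hh a).1 h')
        have h3 : g (h a) = h a := by
          by_contra h'; exact h2 ((hD _).2 ⟨g, hg, h'⟩)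
        rw [h1, h3]
    have hL' : h ∈ L := hcentL h hh hc
    ext a
    by_cases ha : a ∈ D
    · simpa using congrArg Fin.val (hfix a ha)
    · by_contra h'
      apply ha
      refine (hD a).2 ⟨h, hL', ?_⟩
      intro h''
      apply h'
      rw [h'']
      rfl
  have hb : n ≤ D.card + 2 :=
    sylow_bound n P D (fun h hh => hDinv' h (hP hh)) (fun h hh => hfaith h (hP hh))
  have hcardΔ : Δ.card ≤ n := by
    have := Finset.card_le_univ Δ
    simpa using this
  have hDc : D.card ≤ Δ.card := Finset.card_le_card hDΔ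
  refine ⟨Δ.card, by omega, ⟨?_⟩⟩
  exact (((Cfsg.generalizedFittingSubgroup ↥H).equivMapOfInjective H.subtype
    H.subtype_injective).trans e).trans (Equiv.altCongrHom Δ.equivFin)

end Cfsg.Agent.Lib.Helper20.ThreeCyc
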