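-- helper20: pairings / double transpositions in symmetric groups, for S2928.
import Mathlib
import Cfsg.Prelude.Def_Local
import Cfsg.Agent.Lib.Helper21.Comp
import Cfsg.Agent.Lib.Helper21.FStar
import Cfsg.Agent.Lib.Helper22.CompInv
import Cfsg.Agent.Lib.Helper20.ThreeCyc

set_option autoImplicit false
set_option linter.unusedVariables false
set_option linter.unusedSectionVars false

namespace Cfsg.Agent.Lib.Helper20.DoubleTr

open Equiv Equiv.Perm Subgroup
open scoped Pointwise commutatorElement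

variable {α : Type*} [Fintype α] [DecidableEq α]

theorem perm_apply_inv (g : Perm α) (k : α) : g (g⁻¹ k) = k := g.apply_symm_apply k

theorem perm_inv_apply (g : Perm α) (k : α) : g⁻¹ (g k) = k := g.symm_apply_apply k

theorem swap_commute {p q r t : α} (h1 : p ≠ r) (h2 : p ≠ t) (h3 : q ≠ r) (h4 : q ≠ t) :
    Commute (swap p q) (swap r t) := by
  apply Equiv.Perm.Disjoint.commute
  intro k
  by_cases hk : k = r ∨ k = t
  · left
    rcases hk with rfl | rfl
    · exact swap_apply_of_ne_of_ne (Ne.symm h1) (Ne.symm h3)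
    · exact swap_apply_of_ne_of_ne (Ne.symm h2) (Ne.symm h4)
  · right
    rw [not_or] at hk
    exact swap_apply_of_ne_of_ne hk.1 hk.2

/-- two double transpositions whose supports meet in exactly one point: the square of the product
is a 3-cycle. -/
theorem threeCycle_of_meet_one {x a b c d e f : α}
    (hxa : x ≠ a) (hxd : x ≠ d) (had : a ≠ d)
    (hbx : b ≠ x) (hba : b ≠ a) (hbd : b ≠ d) (hcx : c ≠ x) (hca : c ≠ a) (hcd : c ≠ d)
    (hex : e ≠ x) (hea : e ≠ a) (hed : e ≠ d) (hfx : f ≠ x) (hfa : f ≠ a) (hfd : f ≠ d)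
    (hbe : b ≠ e) (hbf : b ≠ f) (hce : c ≠ e) (hcf : c ≠ f) :
    (((swap x a * swap b c) * (swap x d * swap e f)) ^ 2).IsThreeCycle := by
  have c1 : Commute (swap b c) (swap x d) := swap_commute hbx hbd hcx hcd
  have c2 : Commute (swap b c) (swap x a) := swap_commute hbx hba hcx hca
  have c3 : Commute (swap e f) (swap x a) := swap_commute hex hea hfx hfa
  have c4 : Commute (swap e f) (swap x d) := swap_commute hex hed hfx hfd
  have c5 : Commute (swap b c) (swap e f) := swap_commute hbe hbf hce hcf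
  have e1 : (swap x a * swap b c) * (swap x d * swap e f)
      = (swap x a * swap x d) * (swap b c * swap e f) := by
    calc (swap x a * swap b c) * (swap x d * swap e f)
        = swap x a * (swap b c * swap x d) * swap e f := by group
      _ = swap x a * (swap x d * swap b c) * swap e f := by rw [c1.eq]
      _ = (swap x a * swap x d) * (swap b c * swap e f) := by group
  have c6 : Commute (swap x a * swap x d) (swap b c * swap e f) :=
    Commute.mul_left (c2.symm.mul_right c3.symm) (c1.symm.mul_right c4.symm)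
  have e2 : (swap b c * swap e f) ^ 2 = 1 := by
    rw [c5.mul_pow, pow_two, pow_two, swap_mul_self, swap_mul_self, one_mul]
  rw [e1, c6.mul_pow, e2, mul_one, pow_two]
  exact (isThreeCycle_swap_mul_swap_same hxa hxd had).isThreeCycle_sq

/-- the group of permutations preserving each pair `{x, π x}` of an involution `π`. -/
def pairGroup (π : Perm α) (hπ : ∀ x, π (π x) = x) : Subgroup (Perm α) where
  carrier := {g | ∀ x, g x = x ∨ g x = π x}
  one_mem' := fun x => Or.inl rfl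
  mul_mem' := by
    intro g h hg hh x
    show g (h x) = x ∨ g (h x) = π x
    rcases hh x with h1 | h1 <;> rcases hg (h x) with h2 | h2
    · left; rw [h2, h1]
    · right; rw [h2, h1]
    · right; rw [h2, h1]
    · left; rw [h2, h1, hπ]
  inv_mem' := by
    intro g hg x
    show g⁻¹ x = x ∨ g⁻¹ x = π x
    rcases hg (g⁻¹ x) with h1 | h1
    · left
      rw [perm_apply_inv] at h1
      exact h1.symm
    · right
      rw [perm_apply_inv] at h1
      exact ((congrArg π h1).trans (hπ _)).symm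

theorem mem_pairGroup {π : Perm α} {hπ : ∀ x, π (π x) = x} {g : Perm α} :
    g ∈ pairGroup π hπ ↔ ∀ x, g x = x ∨ g x = π x := Iff.rfl

theorem pairGroup_sq {π : Perm α} {hπ : ∀ x, π (π x) = x} {g : Perm α}
    (hg : g ∈ pairGroup π hπ) : g * g = 1 := by
  ext x
  show g (g x) = x
  rcases hg x with h1 | h1
  · rw [h1, h1]
  · rcases hg (π x) with h2 | h2
    · have h3 : π x = x := g.injective (h2.trans h1.symm)
      rw [h1, h2, h3]
    · rw [h1, h2, hπ]

theorem pairGroup_comm {π : Perm α} {hπ : ∀ x, π (π x) = x} {g h : Perm α}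
    (hg : g ∈ pairGroup π hπ) (hh : h ∈ pairGroup π hπ) : g * h = h * g := by
  have e1 : g⁻¹ = g := inv_eq_of_mul_eq_one_right (pairGroup_sq hg)
  have e2 : h⁻¹ = h := inv_eq_of_mul_eq_one_right (pairGroup_sq hh)
  have e3 : (g * h)⁻¹ = g * h :=
    inv_eq_of_mul_eq_one_right (pairGroup_sq ((pairGroup π hπ).mul_mem hg hh))
  rw [← e3, mul_inv_rev, e1, e2]

theorem swap_mem_pairGroup (π : Perm α) (hπ : ∀ x, π (π x) = x) (x : α) :
    swap x (π x) ∈ pairGroup π hπ := by
  intro k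
  by_cases h1 : k = x
  · right; rw [h1, swap_apply_left]
  · by_cases h2 : k = π x
    · right; rw [h2, swap_apply_right, hπ]
    · left; exact swap_apply_of_ne_of_ne h1 h2

/-- the double transposition `(x πx)(y πy)`. -/
def dt (π : Perm α) (x y : α) : Perm α := swap x (π x) * swap y (π y)

/-- `x`, `y` lie in different pairs of `π`. -/
def Valid (π : Perm α) (x y : α) : Prop := π x ≠ x ∧ π y ≠ y ∧ y ≠ x ∧ y ≠ π x

theorem dt_mem_pairGroup (π : Perm α) (hπ : ∀ x, π (π x) = x) (x y : α) :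
    dt π x y ∈ pairGroup π hπ :=
  (pairGroup π hπ).mul_mem (swap_mem_pairGroup π hπ x) (swap_mem_pairGroup π hπ y)

theorem sign_dt (π : Perm α) {x y : α} (h : Valid π x y) : Equiv.Perm.sign (dt π x y) = 1 := by
  unfold dt
  rw [map_mul, sign_swap (Ne.symm h.1), sign_swap (Ne.symm h.2.1)]
  rfl

theorem dt_apply_left (π : Perm α) (hπ : ∀ x, π (π x) = x) {x y : α} (h : Valid π x y) :
    dt π x y x = π x := by
  unfold dt
  have h1 : x ≠ π y := by
    intro h'
    exact h.2.2.2 (by rw [h', hπ])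
  rw [Perm.mul_apply, swap_apply_of_ne_of_ne (Ne.symm h.2.2.1) h1, swap_apply_left]

theorem dt_apply_of_ne (π : Perm α) {x y w : α} (h1 : w ≠ x) (h2 : w ≠ π x) (h3 : w ≠ y)
    (h4 : w ≠ π y) : dt π x y w = w := by
  unfold dt
  rw [Perm.mul_apply, swap_apply_of_ne_of_ne h3 h4, swap_apply_of_ne_of_ne h1 h2]

/-- the "no bad pair" condition: a double transposition of `π` and one of `ρ` through a common
point share a second point. -/
def NB (π ρ : Perm α) : Prop :=
  ∀ x y v, π x ≠ x → π y ≠ y → y ≠ x → y ≠ π x → ρ x ≠ x → ρ v ≠ v → v ≠ x → v ≠ ρ x →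
    π x ≠ ρ x → π x ≠ v → π x ≠ ρ v → y ≠ ρ x → y ≠ v → y ≠ ρ v →
    π y ≠ ρ x → π y ≠ v → π y ≠ ρ v → False

theorem NB.symm {π ρ : Perm α} (h : NB π ρ) : NB ρ π := by
  intro x y v h1 h2 h3 h4 h5 h6 h7 h8 h9 h10 h11 h12 h13 h14 h15 h16 h17
  exact h x v y h5 h6 h7 h8 h1 h2 h3 h4 (Ne.symm h9) (Ne.symm h12) (Ne.symm h15) (Ne.symm h10)
    (Ne.symm h13) (Ne.symm h16) (Ne.symm h11) (Ne.symm h14) (Ne.symm h17)

/-- in a group without 3-cycles containing the double transpositions of `π` and `ρ`. -/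
theorem nb_of_no_threeCycle (H : Subgroup (Perm α)) (hno : ∀ z ∈ H, ¬ z.IsThreeCycle)
    (π ρ : Perm α) (hπ : ∀ x, π (π x) = x) (hρ : ∀ x, ρ (ρ x) = x)
    (hπH : ∀ x y, Valid π x y → dt π x y ∈ H) (hρH : ∀ x v, Valid ρ x v → dt ρ x v ∈ H) :
    NB π ρ := by
  intro x y v h1 h2 h3 h4 h5 h6 h7 h8 h9 h10 h11 h12 h13 h14 h15 h16 h17
  have hm : (dt π x y * dt ρ x v) ^ 2 ∈ H :=
    H.pow_mem (H.mul_mem (hπH x y ⟨h1, h2, h3, h4⟩) (hρH x v ⟨h5, h6, h7, h8⟩)) 2
  apply hno _ hm
  unfold dt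
  apply threeCycle_of_meet_one (Ne.symm h1) (Ne.symm h5) h9 h3 h4 h12
  · intro h'; exact h4 (by rw [← h', hπ])
  · intro h'; exact h3 (π.injective h')
  · exact h15
  · exact h7
  · exact Ne.symm h10
  · exact h8
  · intro h'; exact h8 (by rw [← h', hρ])
  · exact Ne.symm h11
  · intro h'; exact h7 (ρ.injective h')
  · exact h13
  · exact h14
  · exact h16
  · exact h17

/-- choose a non-fixed point outside a small set. -/
theorem exists_nonfixed_notMem (π : Perm α) (hπ1 : ∀ p q, π p = p → π q = q → p = q)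
    (S : Finset α) (hS : S.card + 1 < Fintype.card α) : ∃ y, π y ≠ y ∧ y ∉ S := by
  by_contra hcon
  have h1 : ∀ y, y ∈ S ∪ Finset.univ.filter (fun p => π p = p) := by
    intro y
    by_contra hy
    rw [Finset.mem_union, not_or] at hy
    apply hcon
    refine ⟨y, ?_, hy.1⟩
    intro hfix
    exact hy.2 (Finset.mem_filter.2 ⟨Finset.mem_univ _, hfix⟩)
  have h2 : (Finset.univ.filter (fun p => π p = p)).card ≤ 1 := by
    rw [Finset.card_le_one]
    intro a ha b hb
    exact hπ1 a b (Finset.mem_filter.1 ha).2 (Finset.mem_filter.1 hb).2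
  have h3 : Fintype.card α ≤ (S ∪ Finset.univ.filter (fun p => π p = p)).card := by
    rw [← Finset.card_univ]
    exact Finset.card_le_card (fun y _ => h1 y)
  have h4 := Finset.card_union_le S (Finset.univ.filter (fun p => π p = p))
  omega

/-- under `NB`, a fixed point of `π` is a fixed point of `ρ` (at least 8 points). -/
theorem cl_fix (π ρ : Perm α) (hπ : ∀ x, π (π x) = x) (hρ : ∀ x, ρ (ρ x) = x)
    (hπ1 : ∀ p q, π p = p → π q = q → p = q) (hρ1 : ∀ p q, ρ p = p → ρ q = q → p = q)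
    (hcard : 8 ≤ Fintype.card α) (hNB : NB π ρ) : ∀ x, π x = x → ρ x = x := by
  intro x hx
  by_contra hne
  have hd1 : π (ρ x) ≠ ρ x := fun h => hne (hπ1 _ _ h hx)
  have hd2 : ρ (ρ x) ≠ ρ x := by
    rw [hρ]; exact Ne.symm hne
  obtain ⟨v, hv, hvS⟩ := exists_nonfixed_notMem ρ hρ1 {ρ x, x, π (ρ x), ρ (π (ρ x))}
    (by have := Finset.card_le_four (a := ρ x) (b := x) (c := π (ρ x)) (d := ρ (π (ρ x))); omega)
  simp only [Finset.mem_insert, Finset.mem_singleton, not_or] at hvS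
  obtain ⟨y, hy, hyS⟩ := exists_nonfixed_notMem π hπ1 {ρ x, π (ρ x), v, ρ v, π v, π (ρ v)}
    (by have := Finset.card_le_six (a := ρ x) (b := π (ρ x)) (c := v) (d := ρ v) (e := π v)
          (f := π (ρ v)); omega)
  simp only [Finset.mem_insert, Finset.mem_singleton, not_or] at hyS
  have hyx : y ≠ x := fun h => hy (by rw [h]; exact hx)
  have hπyx : π y ≠ x := by
    intro h
    apply hyx
    have := congrArg π h
    rw [hπ, hx] at this
    exact this
  apply hNB (ρ x) y v hd1 hy hyS.1 hyS.2.1 hd2 hv hvS.1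
  · rw [hρ]; exact hvS.2.1
  · rw [hρ]
    intro h
    have := congrArg π h
    rw [hπ, hx] at this
    exact hne this
  · exact Ne.symm hvS.2.2.1
  · intro h
    apply hvS.2.2.2
    rw [h, hρ]
  · rw [hρ]; exact hyx
  · exact hyS.2.2.1
  · exact hyS.2.2.2.1
  · rw [hρ]; exact hπyx
  · intro h
    apply hyS.2.2.2.2.1
    rw [← h, hπ]
  · intro h
    apply hyS.2.2.2.2.2
    rw [← h, hπ]

/-- under `NB` (and equal fixed points), `π` and `ρ` commute (at least 8 points). -/
theorem cl_comm (π ρ : Perm α) (hπ : ∀ x, π (π x) = x) (hρ : ∀ x, ρ (ρ x) = x)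
    (hπ1 : ∀ p q, π p = p → π q = q → p = q)
    (hfix : ∀ x, π x = x ↔ ρ x = x)
    (hcard : 8 ≤ Fintype.card α) (hNB : NB π ρ) : ∀ x, ρ (π x) = π (ρ x) := by
  intro x
  by_contra hne
  by_cases hx : π x = x
  · have hx' : ρ x = x := (hfix x).1 hx
    apply hne
    rw [hx, hx', hx]
  have hx' : ρ x ≠ x := fun h => hx ((hfix x).2 h)
  have had : π x ≠ ρ x := by
    intro h
    apply hne
    rw [h, hρ, ← h, hπ]
  -- d = ρ x, c = π d
  have hd : π (ρ x) ≠ ρ x := by
    intro h
    have h2 : ρ (ρ x) = ρ x := (hfix _).1 h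
    rw [hρ] at h2
    exact hx' h2.symm
  have hc : ρ (π (ρ x)) ≠ π (ρ x) := by
    intro h
    have h2 : π (π (ρ x)) = π (ρ x) := (hfix _).2 h
    rw [hπ] at h2
    exact hd h2.symm
  obtain ⟨y, hy, hyS⟩ := exists_nonfixed_notMem π hπ1
    {x, π x, ρ x, π (ρ x), ρ (π (ρ x)), π (ρ (π (ρ x)))}
    (by have := Finset.card_le_six (a := x) (b := π x) (c := ρ x) (d := π (ρ x))
          (e := ρ (π (ρ x))) (f := π (ρ (π (ρ x)))); omega)
  simp only [Finset.mem_insert, Finset.mem_singleton, not_or] at hyS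
  apply hNB x y (π (ρ x)) hx hy hyS.1 hyS.2.1 hx' hc
  · intro h
    apply had
    have := congrArg π h
    rw [hπ] at this
    exact this.symm
  · exact hd
  · exact had
  · intro h
    have := congrArg π h
    rw [hπ, hπ] at this
    exact hx' this.symm
  · intro h
    apply hne
    rw [h, hρ]
  · exact hyS.2.2.1
  · exact hyS.2.2.2.1
  · exact hyS.2.2.2.2.1
  · intro h
    apply hyS.2.2.2.1
    rw [← h, hπ]
  · intro h
    exact hyS.2.2.1 (π.injective h)
  · intro h
    apply hyS.2.2.2.2.2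
    rw [← h, hπ]

/-- under `NB` (and equal fixed points), `ρ = π` (at least 10 points). -/
theorem cl_eq (π ρ : Perm α) (hπ : ∀ x, π (π x) = x) (hρ : ∀ x, ρ (ρ x) = x)
    (hπ1 : ∀ p q, π p = p → π q = q → p = q) (hρ1 : ∀ p q, ρ p = p → ρ q = q → p = q)
    (hfix : ∀ x, π x = x ↔ ρ x = x)
    (hcard : 10 ≤ Fintype.card α) (hNB : NB π ρ) : ρ = π := by
  ext x
  by_contra hne
  by_cases hx : π x = x
  · apply hne
    rw [hx, (hfix x).1 hx]
  have hx' : ρ x ≠ x := fun h => hx ((hfix x).2 h)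
  obtain ⟨v, hv, hvS⟩ := exists_nonfixed_notMem ρ hρ1 {x, ρ x, π x, ρ (π x)}
    (by have := Finset.card_le_four (a := x) (b := ρ x) (c := π x) (d := ρ (π x)); omega)
  simp only [Finset.mem_insert, Finset.mem_singleton, not_or] at hvS
  obtain ⟨y, hy, hyS⟩ := exists_nonfixed_notMem π hπ1
    (insert x (insert (π x) {ρ x, π (ρ x), v, ρ v, π v, π (ρ v)}))
    (by
      have h6 := Finset.card_le_six (a := ρ x) (b := π (ρ x)) (c := v) (d := ρ v) (e := π v)
          (f := π (ρ v))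
      have h7 := Finset.card_insert_le (π x) {ρ x, π (ρ x), v, ρ v, π v, π (ρ v)}
      have h8 := Finset.card_insert_le x (insert (π x) {ρ x, π (ρ x), v, ρ v, π v, π (ρ v)})
      omega)
  simp only [Finset.mem_insert, Finset.mem_singleton, not_or] at hyS
  apply hNB x y v hx hy hyS.1 hyS.2.1 hx' hv hvS.1 hvS.2.1
  · exact fun h => hne h.symm
  · exact Ne.symm hvS.2.2.1
  · intro h
    apply hvS.2.2.2
    rw [h, hρ]
  · exact hyS.2.2.1
  · exact hyS.2.2.2.2.1
  · exact hyS.2.2.2.2.2.1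
  · intro h
    apply hyS.2.2.2.1
    rw [← h, hπ]
  · intro h
    apply hyS.2.2.2.2.2.2.1
    rw [← h, hπ]
  · intro h
    apply hyS.2.2.2.2.2.2.2
    rw [← h, hπ]

/-- the standard pairing on `Fin n`: `2i ↔ 2i+1`. -/
def pi0fun (n : ℕ) (i : Fin n) : Fin n :=
  if h : i.val % 2 = 1 then ⟨i.val - 1, by omega⟩
  else if h2 : i.val + 1 < n then ⟨i.val + 1, h2⟩ else i

theorem pi0fun_val (n : ℕ) (i : Fin n) :
    (pi0fun n i).val =
      if i.val % 2 = 1 then i.val - 1 else if i.val + 1 < n then i.val + 1 else i.val := by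
  unfold pi0fun
  split_ifs <;> rfl

theorem pi0fun_invol (n : ℕ) (i : Fin n) : pi0fun n (pi0fun n i) = i := by
  apply Fin.ext
  have h1 := pi0fun_val n i
  have h2 := pi0fun_val n (pi0fun n i)
  have h3 := i.isLt
  rw [h2]
  split_ifs at h1 ⊢ <;> omega

/-- the standard pairing as a permutation. -/
def pi0 (n : ℕ) : Perm (Fin n) := Function.Involutive.toPerm (pi0fun n) (pi0fun_invol n)

theorem pi0_invol (n : ℕ) (i : Fin n) : pi0 n (pi0 n i) = i := pi0fun_invol n i

theorem pi0_fix (n : ℕ) (p q : Fin n) (hp : pi0 n p = p) (hq : pi0 n q = q) : p = q := by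
  have h1 := pi0fun_val n p
  have h2 := pi0fun_val n q
  have h3 : (pi0fun n p).val = p.val := congrArg Fin.val hp
  have h4 : (pi0fun n q).val = q.val := congrArg Fin.val hq
  apply Fin.ext
  rw [h3] at h1
  rw [h4] at h2
  have h5 := p.isLt
  have h6 := q.isLt
  split_ifs at h1 h2 <;> omega

/-- a Sylow 2-subgroup of `A_n` contains all even permutations preserving the pairs of some
pairing `π` (an involution with at most one fixed point). -/
theorem exists_pairing (n : ℕ) (P : Sylow 2 (alternatingGroup (Fin n))) :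
    ∃ π : Perm (Fin n), (∀ x, π (π x) = x) ∧ (∀ p q, π p = p → π q = q → p = q) ∧
      (∀ g : Perm (Fin n), (∀ x, g x = x ∨ g x = π x) → Equiv.Perm.sign g = 1 →
        g ∈ (P : Subgroup (alternatingGroup (Fin n))).map (alternatingGroup (Fin n)).subtype) := by
  have : Fact (Nat.Prime 2) := ⟨Nat.prime_two⟩
  let B := pairGroup (pi0 n) (pi0_invol n)
  let Q₀ : Subgroup (alternatingGroup (Fin n)) := B.subgroupOf (alternatingGroup (Fin n))
  have hp : IsPGroup 2 Q₀ := by
    intro g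
    refine ⟨1, ?_⟩
    apply Subtype.ext
    apply Subtype.ext
    have hg : ((g : alternatingGroup (Fin n)) : Perm (Fin n)) ∈ B :=
      Subgroup.mem_subgroupOf.1 g.2
    have h2 := pairGroup_sq hg
    show (((g : alternatingGroup (Fin n)) : Perm (Fin n))) ^ 2 ^ 1 = 1
    rw [pow_one, pow_two]
    exact h2
  obtain ⟨Q, hQ⟩ := hp.exists_le_sylow
  obtain ⟨k, hk⟩ := MulAction.exists_smul_eq (alternatingGroup (Fin n)) Q P
  refine ⟨(k : Perm (Fin n)) * pi0 n * (k : Perm (Fin n))⁻¹, ?_, ?_, ?_⟩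
  · intro x
    simp only [Perm.mul_apply]
    rw [perm_inv_apply, pi0_invol, perm_apply_inv]
  · intro p q hp' hq'
    simp only [Perm.mul_apply] at hp' hq'
    have h1 : (k : Perm (Fin n))⁻¹ ((k : Perm (Fin n)) (pi0 n ((k : Perm (Fin n))⁻¹ p)))
        = (k : Perm (Fin n))⁻¹ p := congrArg _ hp'
    have h2 : (k : Perm (Fin n))⁻¹ ((k : Perm (Fin n)) (pi0 n ((k : Perm (Fin n))⁻¹ q)))
        = (k : Perm (Fin n))⁻¹ q := congrArg _ hq'
    rw [perm_inv_apply] at h1 h2
    exact (k : Perm (Fin n))⁻¹.injective (pi0_fix n _ _ h1 h2)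
  · intro g hg hsign
    have hg₀B : (k : Perm (Fin n))⁻¹ * g * (k : Perm (Fin n)) ∈ B := by
      intro x
      show (k : Perm (Fin n))⁻¹ (g ((k : Perm (Fin n)) x)) = x ∨
        (k : Perm (Fin n))⁻¹ (g ((k : Perm (Fin n)) x)) = pi0 n x
      rcases hg ((k : Perm (Fin n)) x) with h1 | h1
      · left; rw [h1, perm_inv_apply]
      · right
        rw [h1]
        simp only [Perm.mul_apply]
        rw [perm_inv_apply, perm_inv_apply]
    have hg₀A : (k : Perm (Fin n))⁻¹ * g * (k : Perm (Fin n)) ∈ alternatingGroup (Fin n) := by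
      rw [mem_alternatingGroup, map_mul, map_mul, map_inv, hsign, mul_one, inv_mul_cancel]
    have hmem : (⟨(k : Perm (Fin n))⁻¹ * g * (k : Perm (Fin n)), hg₀A⟩ :
        alternatingGroup (Fin n)) ∈ (Q : Subgroup (alternatingGroup (Fin n))) :=
      hQ (Subgroup.mem_subgroupOf.2 hg₀B)
    have hmem2 : k * ⟨(k : Perm (Fin n))⁻¹ * g * (k : Perm (Fin n)), hg₀A⟩ * k⁻¹ ∈
        (P : Subgroup (alternatingGroup (Fin n))) := by
      rw [← hk]
      show _ ∈ ((k • Q : Sylow 2 (alternatingGroup (Fin n))) :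
        Subgroup (alternatingGroup (Fin n)))
      rw [Sylow.smul_def, Sylow.pointwise_smul_def]
      have h2 := Subgroup.smul_mem_pointwise_smul _ (MulAut.conj k) _ hmem
      simpa [MulAut.smul_def] using h2
    refine ⟨k * ⟨(k : Perm (Fin n))⁻¹ * g * (k : Perm (Fin n)), hg₀A⟩ * k⁻¹, hmem2, ?_⟩
    show (k : Perm (Fin n)) * ((k : Perm (Fin n))⁻¹ * g * (k : Perm (Fin n))) *
      (k : Perm (Fin n))⁻¹ = g
    group

/-- an involution with at most one fixed point on 8 or 9 points is even. -/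
theorem sign_eq_one_of_card (π : Perm α) (hπ : ∀ x, π (π x) = x)
    (hπ1 : ∀ p q, π p = p → π q = q → p = q)
    (hcard : Fintype.card α = 8 ∨ Fintype.card α = 9) : Equiv.Perm.sign π = 1 := by
  have : Fact (Nat.Prime 2) := ⟨Nat.prime_two⟩
  have hsq : π ^ 2 = 1 := by
    ext x
    rw [pow_two]
    exact hπ x
  have hfixcard : π.supportᶜ.card ≤ 1 := by
    rw [Finset.card_le_one]
    intro a ha b hb
    rw [Finset.mem_compl, Equiv.Perm.mem_support, not_not] at ha hb
    exact hπ1 a b ha hb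
  have hsum := Finset.card_add_card_compl π.support
  have hmod := Equiv.Perm.card_compl_support_modEq (p := 2) (n := 1) (σ := π)
    (by rw [pow_one]; exact hsq)
  have hne1 : π ≠ 1 := by
    intro h
    have h0 : π.support.card = 0 := by
      rw [h, Equiv.Perm.support_one, Finset.card_empty]
    rcases hcard with h | h <;> omega
  have hord : orderOf π = 2 := orderOf_eq_prime hsq hne1
  obtain ⟨k, hk⟩ := Equiv.Perm.cycleType_prime_order (σ := π) (by rw [hord]; exact Nat.prime_two)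
  rw [hord] at hk
  have hs := Equiv.Perm.sum_cycleType π
  rw [hk, Multiset.sum_replicate, smul_eq_mul] at hs
  have hk4 : k + 1 = 4 := by
    unfold Nat.ModEq at hmod
    rcases hcard with h | h <;> omega
  rw [Equiv.Perm.sign_of_cycleType, hk, Multiset.sum_replicate, Multiset.card_replicate, hk4]
  rfl

/-- a group of permutations acting faithfully on an invariant finite set `D` has order dividing
`|D|!`. -/
theorem card_dvd_factorial (Q : Subgroup (Perm α)) (D : Finset α)
    (hinv : ∀ h ∈ Q, ∀ a, h a ∈ D ↔ a ∈ D) (hfaith : ∀ h ∈ Q, (∀ a ∈ D, h a = a) → h = 1) :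
    Nat.card Q ∣ D.card.factorial := by
  let ρ : ↥Q →* Perm ↥D :=
    { toFun := fun h => (h : Perm α).subtypePerm (fun a => hinv h h.2 a)
      map_one' := by ext; simp
      map_mul' := fun g h => by ext k; rfl }
  have hρ : Function.Injective ρ := by
    rw [injective_iff_map_eq_one]
    intro h hh
    apply Subtype.ext
    apply hfaith h h.2
    intro a ha
    have := congrArg (fun σ : Perm ↥D => ((σ ⟨a, ha⟩ : ↥D) : α)) hh
    simpa [ρ] using this
  have hdvd : Nat.card ↥Q ∣ Nat.card (Perm ↥D) := Subgroup.card_dvd_of_injective ρ hρ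
  rwa [Nat.card_perm, Nat.card_eq_fintype_card (α := ↥D), Fintype.card_coe] at hdvd

/-- counting: a Sylow 2-subgroup of `A_n` acting faithfully on an invariant set `D` forces
`|D| ≥ n - 3`. -/
theorem sylow2_bound (n : ℕ) (hn : 2 ≤ n) (P : Sylow 2 (alternatingGroup (Fin n)))
    (D : Finset (Fin n))
    (hinv : ∀ h ∈ (P : Subgroup (alternatingGroup (Fin n))).map
      (alternatingGroup (Fin n)).subtype, ∀ a, h a ∈ D ↔ a ∈ D)
    (hfaith : ∀ h ∈ (P : Subgroup (alternatingGroup (Fin n))).map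
      (alternatingGroup (Fin n)).subtype, (∀ a ∈ D, h a = a) → h = 1) :
    n ≤ D.card + 3 := by
  have : Fact (Nat.Prime 2) := ⟨Nat.prime_two⟩
  have : Nontrivial (Fin n) := Fin.nontrivial_iff_two_le.2 hn
  have hdvd := card_dvd_factorial _ D hinv hfaith
  rw [Subgroup.card_map_of_injective (alternatingGroup (Fin n)).subtype_injective,
    Sylow.card_eq_multiplicity] at hdvd
  have hc : 2 * Nat.card (alternatingGroup (Fin n)) = n.factorial := by
    rw [two_mul_nat_card_alternatingGroup, Nat.card_perm, Nat.card_fin]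
  by_contra hcon
  have hcon' := not_le.1 hcon
  have h1 : (D.card + 4).factorial ∣ n.factorial := Nat.factorial_dvd_factorial (by omega)
  have h2 : 8 * D.card.factorial ∣ (D.card + 4).factorial := by
    have e : (D.card + 4).factorial
        = ((D.card + 4) * (D.card + 3) * (D.card + 2) * (D.card + 1)) * D.card.factorial := by
      simp only [Nat.factorial_succ]; ring
    rw [e]
    have h3 : 8 ∣ (D.card + 4) * (D.card + 3) * (D.card + 2) * (D.card + 1) := by
      apply Nat.dvd_of_mod_eq_zero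
      rcases (by omega : D.card % 8 = 0 ∨ D.card % 8 = 1 ∨ D.card % 8 = 2 ∨ D.card % 8 = 3 ∨
          D.card % 8 = 4 ∨ D.card % 8 = 5 ∨ D.card % 8 = 6 ∨ D.card % 8 = 7)
        with h | h | h | h | h | h | h | h <;>
        simp [Nat.mul_mod, Nat.add_mod, h]
    exact Nat.mul_dvd_mul_right h3 _
  have h4 : 4 * D.card.factorial ∣ Nat.card (alternatingGroup (Fin n)) := by
    have h5 : 2 * (4 * D.card.factorial) ∣ 2 * Nat.card (alternatingGroup (Fin n)) := by
      rw [hc]
      have e : 2 * (4 * D.card.factorial) = 8 * D.card.factorial := by ring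
      rw [e]
      exact h2.trans h1
    exact (Nat.mul_dvd_mul_iff_left (by norm_num)).1 h5
  have hk0 : D.card.factorial ≠ 0 := Nat.factorial_ne_zero _
  have hc0 : Nat.card (alternatingGroup (Fin n)) ≠ 0 := by
    intro h
    rw [h] at hc
    exact (Nat.factorial_ne_zero n) hc.symm
  have hv : 2 ^ (D.card.factorial.factorization 2) ∣ D.card.factorial := Nat.ordProj_dvd _ _
  have h6 : 2 ^ (D.card.factorial.factorization 2 + 2) ∣ Nat.card (alternatingGroup (Fin n)) := by
    rw [pow_add, mul_comm]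
    have e4 : (2 : ℕ) ^ 2 = 4 := by norm_num
    rw [e4]
    exact (Nat.mul_dvd_mul_left 4 hv).trans h4
  have h7 := (Nat.prime_two.pow_dvd_iff_le_factorization hc0).1 h6
  have h8 := (Nat.prime_two.pow_dvd_iff_le_factorization hk0).1 hdvd
  omega

theorem perfect_not_abelian (L : Subgroup (Perm α)) (hperf : ⁅L, L⁆ = L) (hne : L ≠ ⊥)
    (hab : ∀ a ∈ L, ∀ b ∈ L, a * b = b * a) : False := by
  have h : ⁅L, L⁆ = ⊥ :=
    commutator_eq_bot_iff_le_centralizer.2
      (fun a ha => mem_centralizer_iff.2 (fun b hb => hab b hb a ha))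
  rw [hperf] at h
  exact hne h

/-- the facts about `L = F*(H)` (quasisimple) used for S2928/S2929, in permutation form. -/
theorem fstar_facts (H : Subgroup (Perm α))
    (hF : Cfsg.IsQuasisimple ↥(Cfsg.generalizedFittingSubgroup ↥H)) :
    ∃ L : Subgroup (Perm α), Nonempty (↥(Cfsg.generalizedFittingSubgroup ↥H) ≃* L) ∧ L ≤ H ∧
      (∀ h ∈ H, ∀ g ∈ L, h * g * h⁻¹ ∈ L) ∧ ⁅L, L⁆ = L ∧ L ≠ ⊥ ∧
      (∀ h ∈ H, (∀ g ∈ L, g * h = h * g) → h ∈ L) ∧
      (∀ T : Subgroup (Perm α), T ≤ H → (∀ g ∈ L, ∀ t ∈ T, g * t * g⁻¹ ∈ T) →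
        L ≤ T ∨ ∀ g ∈ L, ∀ t ∈ T, g * t = t * g) := by
  classical
  have hFn : (Cfsg.generalizedFittingSubgroup ↥H).Normal :=
    Cfsg.Agent.Lib.Helper21.FStar.gfs_normal
  have hcent : centralizer ((Cfsg.generalizedFittingSubgroup ↥H : Subgroup ↥H) : Set ↥H)
      ≤ Cfsg.generalizedFittingSubgroup ↥H :=
    Cfsg.Agent.Lib.Helper21.FStar.centralizer_gfs_le
  let L : Subgroup (Perm α) := (Cfsg.generalizedFittingSubgroup ↥H).map H.subtype
  have hLmem : ∀ g, g ∈ L ↔ ∃ k ∈ Cfsg.generalizedFittingSubgroup ↥H, (k : Perm α) = g := by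
    intro g; exact Subgroup.mem_map
  have hLH : L ≤ H := by
    intro g hg
    obtain ⟨k, _, rfl⟩ := (hLmem g).1 hg
    exact k.2
  have hnorm : ∀ h ∈ H, ∀ g ∈ L, h * g * h⁻¹ ∈ L := by
    intro h hh g hg
    obtain ⟨k, hk, rfl⟩ := (hLmem g).1 hg
    exact (hLmem _).2 ⟨⟨h, hh⟩ * k * ⟨h, hh⟩⁻¹, hFn.conj_mem k hk ⟨h, hh⟩, rfl⟩
  have hperfF : ⁅Cfsg.generalizedFittingSubgroup ↥H, Cfsg.generalizedFittingSubgroup ↥H⁆
      = Cfsg.generalizedFittingSubgroup ↥H :=
    Cfsg.Agent.Lib.Helper21.Comp.commutator_self hF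
  have hperf : ⁅L, L⁆ = L := by
    show ⁅(Cfsg.generalizedFittingSubgroup ↥H).map H.subtype,
      (Cfsg.generalizedFittingSubgroup ↥H).map H.subtype⁆ = _
    rw [← map_commutator, hperfF]
  have hneF : Cfsg.generalizedFittingSubgroup ↥H ≠ ⊥ :=
    Cfsg.Agent.Lib.Helper21.Comp.ne_bot_of_quasisimple hF
  have hne : L ≠ ⊥ := by
    intro h; apply hneF
    exact (map_eq_bot_iff_of_injective _ H.subtype_injective).1 h
  have hcomp : Cfsg.IsComponent (Cfsg.generalizedFittingSubgroup ↥H) := ⟨hFn.isSubnormal, hF⟩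
  have hcentL : ∀ h ∈ H, (∀ g ∈ L, g * h = h * g) → h ∈ L := by
    intro h hh hc
    have h1 : (⟨h, hh⟩ : ↥H) ∈
        centralizer ((Cfsg.generalizedFittingSubgroup ↥H : Subgroup ↥H) : Set ↥H) := by
      rw [mem_centralizer_iff]
      intro k hk
      apply Subtype.ext
      exact hc k.1 ((hLmem _).2 ⟨k, hk, rfl⟩)
    exact (hLmem _).2 ⟨⟨h, hh⟩, hcent h1, rfl⟩
  refine ⟨L, ⟨(Cfsg.generalizedFittingSubgroup ↥H).equivMapOfInjective H.subtype
    H.subtype_injective⟩, hLH, hnorm, hperf, hne, hcentL, ?_⟩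
  intro T hTH hLT
  have hFT : Cfsg.generalizedFittingSubgroup ↥H ≤
      normalizer ((T.subgroupOf H : Subgroup ↥H) : Set ↥H) := by
    intro k hk
    have hkL : (k : Perm α) ∈ L := (hLmem _).2 ⟨k, hk, rfl⟩
    rw [mem_normalizer_iff]
    intro t
    constructor
    · intro ht
      exact mem_subgroupOf.2 (hLT _ hkL _ (mem_subgroupOf.1 ht))
    · intro ht
      have h1 := hLT _ (L.inv_mem hkL) _ (mem_subgroupOf.1 ht)
      have e : (k : Perm α)⁻¹ * ((k * t * k⁻¹ : ↥H) : Perm α) * ((k : Perm α)⁻¹)⁻¹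
          = (t : Perm α) := by
        show (k : Perm α)⁻¹ * ((k : Perm α) * (t : Perm α) * (k : Perm α)⁻¹) *
          ((k : Perm α)⁻¹)⁻¹ = _
        group
      rw [e] at h1
      exact mem_subgroupOf.2 h1
  rcases Cfsg.Agent.Lib.Helper22.CompInv.component_le_or_commutator_eq_bot hcomp hFT with h | h
  · left
    intro g hg
    obtain ⟨k, hk, rfl⟩ := (hLmem g).1 hg
    exact mem_subgroupOf.1 (h hk)
  · right
    intro g hg t ht
    obtain ⟨k, hk, rfl⟩ := (hLmem g).1 hg
    have htT : (⟨t, hTH ht⟩ : ↥H) ∈ T.subgroupOf H := mem_subgroupOf.2 ht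
    have h1 := commutator_eq_bot_iff_le_centralizer.1 h hk
    have h2 := mem_centralizer_iff.1 h1 ⟨t, hTH ht⟩ htT
    exact (congrArg Subtype.val h2).symm

/-- the support `D` of `L`: `H`-invariant, and `H` acts faithfully on it. -/
theorem supp_facts (L H : Subgroup (Perm α)) (hLH : L ≤ H)
    (hnorm : ∀ h ∈ H, ∀ g ∈ L, h * g * h⁻¹ ∈ L)
    (hcentL : ∀ h ∈ H, (∀ g ∈ L, g * h = h * g) → h ∈ L) :
    ∃ D : Finset α, (∀ a, a ∈ D ↔ ∃ g ∈ L, g a ≠ a) ∧ (∀ h ∈ H, ∀ a, h a ∈ D ↔ a ∈ D) ∧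
      (∀ h ∈ H, (∀ a ∈ D, h a = a) → h = 1) := by
  classical
  let D : Finset α := Finset.univ.filter (fun a => ∃ g ∈ L, g a ≠ a)
  have hD : ∀ a, a ∈ D ↔ ∃ g ∈ L, g a ≠ a := by
    intro a; simp [D]
  have hDinv : ∀ h ∈ H, ∀ a, a ∈ D → h a ∈ D := by
    intro h hh a ha
    obtain ⟨g, hg, hga⟩ := (hD a).1 ha
    refine (hD _).2 ⟨h * g * h⁻¹, hnorm h hh g hg, ?_⟩
    intro h'
    have h2 : (h * g * h⁻¹) (h a) = h (g a) := by
      simp only [Perm.mul_apply]
      rw [perm_inv_apply]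
    rw [h2] at h'
    exact hga (h.injective h')
  have hDinv' : ∀ h ∈ H, ∀ a, h a ∈ D ↔ a ∈ D := by
    intro h hh a
    refine ⟨fun ha => ?_, hDinv h hh a⟩
    have := hDinv h⁻¹ (H.inv_mem hh) _ ha
    rwa [perm_inv_apply] at this
  refine ⟨D, hD, hDinv', ?_⟩
  intro h hh hfix
  have hc : ∀ g ∈ L, g * h = h * g := by
    intro g hg
    ext a
    simp only [Perm.mul_apply]
    by_cases ha : a ∈ D
    · rw [hfix a ha, hfix (g a) (hDinv g (hLH hg) a ha)]
    · have h1 : g a = a := by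
        by_contra h'; exact ha ((hD a).2 ⟨g, hg, h'⟩)
      have h2 : h a ∉ D := fun h' => ha ((hDinv' h hh a).1 h')
      have h3 : g (h a) = h a := by
        by_contra h'; exact h2 ((hD _).2 ⟨g, hg, h'⟩)
      rw [h1, h3]
  have hL' : h ∈ L := hcentL h hh hc
  ext a
  show h a = a
  by_cases ha : a ∈ D
  · exact hfix a ha
  · by_contra h'
    exact ha ((hD a).2 ⟨h, hL', h'⟩)

/-- if `H` contains a 3-cycle then `L ≅ Alt(Δ)`, `L` trivial off `Δ`. -/
theorem alt_of_threeCycle (L H : Subgroup (Perm α)) (hLH : L ≤ H)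
    (hnorm : ∀ h ∈ H, ∀ g ∈ L, h * g * h⁻¹ ∈ L) (hperf : ⁅L, L⁆ = L) (hne : L ≠ ⊥)
    (hcentL : ∀ h ∈ H, (∀ g ∈ L, g * h = h * g) → h ∈ L)
    (hdich : ∀ T : Subgroup (Perm α), T ≤ H → (∀ g ∈ L, ∀ t ∈ T, g * t * g⁻¹ ∈ T) →
        L ≤ T ∨ ∀ g ∈ L, ∀ t ∈ T, g * t = t * g)
    (z : Perm α) (hz : z.IsThreeCycle) (hzH : z ∈ H) :
    ∃ Δ : Finset α, (∀ g ∈ L, ∀ a, a ∉ Δ → g a = a) ∧
      Nonempty (L ≃* alternatingGroup ↥Δ) := by
  let S : Set (Perm α) := {s | ∃ g ∈ L, s = g * z * g⁻¹}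
  have hzS : z ∈ S := ⟨1, L.one_mem, by simp⟩
  have hSH : closure S ≤ H := (closure_le _).2 (by
    rintro s ⟨g, hg, rfl⟩
    exact H.mul_mem (H.mul_mem (hLH hg) hzH) (H.inv_mem (hLH hg)))
  have hLS : ∀ g ∈ L, ∀ s ∈ S, g * s * g⁻¹ ∈ S := by
    rintro g hg s ⟨k, hk, rfl⟩
    exact ⟨g * k, L.mul_mem hg hk, by group⟩
  have hLnS := Cfsg.Agent.Lib.Helper22.CompInv.le_normalizer_closure L S hLS
  have hLT : ∀ g ∈ L, ∀ t ∈ closure S, g * t * g⁻¹ ∈ closure S :=
    fun g hg t ht => (mem_normalizer_iff.1 (hLnS hg) t).1 ht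
  have hLM : L ≤ closure S := by
    rcases hdich (closure S) hSH hLT with h | h
    · exact h
    · exfalso
      have hzc : ∀ g ∈ L, g * z = z * g := fun g hg => h g hg z (subset_closure hzS)
      exact Cfsg.Agent.Lib.Helper20.ThreeCyc.false_of_central_threeCycle L hperf z hz
        (hcentL z hzH hzc) hzc
  exact Cfsg.Agent.Lib.Helper20.ThreeCyc.exists_alt_iso L H hLH hnorm hperf hne z hz hzH hLM

/-- **S2928, permutation form.** -/
theorem main_perm (n : ℕ) (hn : 8 ≤ n) (H L : Subgroup (Perm (Fin n))) (hLH : L ≤ H)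
    (hnorm : ∀ h ∈ H, ∀ g ∈ L, h * g * h⁻¹ ∈ L) (hperf : ⁅L, L⁆ = L) (hne : L ≠ ⊥)
    (hcentL : ∀ h ∈ H, (∀ g ∈ L, g * h = h * g) → h ∈ L)
    (hdich : ∀ T : Subgroup (Perm (Fin n)), T ≤ H → (∀ g ∈ L, ∀ t ∈ T, g * t * g⁻¹ ∈ T) →
        L ≤ T ∨ ∀ g ∈ L, ∀ t ∈ T, g * t = t * g)
    (P : Sylow 2 (alternatingGroup (Fin n)))
    (hP : (P : Subgroup (alternatingGroup (Fin n))).map (alternatingGroup (Fin n)).subtype ≤ H) :
    ∃ m : ℕ, (m = n - 3 ∨ m = n - 2 ∨ m = n - 1 ∨ m = n) ∧
      Nonempty (L ≃* alternatingGroup (Fin m)) := by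
  classical
  obtain ⟨D, hD, hDinv, hDfaith⟩ := supp_facts L H hLH hnorm hcentL
  have hb : n ≤ D.card + 3 :=
    sylow2_bound n (by omega) P D (fun h hh => hDinv h (hP hh)) (fun h hh => hDfaith h (hP hh))
  by_cases h3 : ∃ z ∈ H, z.IsThreeCycle
  · obtain ⟨z, hzH, hz⟩ := h3
    obtain ⟨Δ, hΔ, ⟨e⟩⟩ := alt_of_threeCycle L H hLH hnorm hperf hne hcentL hdich z hz hzH
    have hDΔ : D ⊆ Δ := by
      intro a ha
      obtain ⟨g, hg, hga⟩ := (hD a).1 ha
      by_contra h
      exact hga (hΔ g hg a h)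
    have hcardΔ : Δ.card ≤ n := by
      have := Finset.card_le_univ Δ
      simpa using this
    have hDc := Finset.card_le_card hDΔ
    exact ⟨Δ.card, by omega, ⟨e.trans (Equiv.altCongrHom Δ.equivFin)⟩⟩
  · exfalso
    have hno : ∀ z ∈ H, ¬ z.IsThreeCycle := fun z hz h => h3 ⟨z, hz, h⟩
    obtain ⟨π, hπ, hπ1, hπP⟩ := exists_pairing n P
    have hBH : ∀ g : Perm (Fin n), (∀ x, g x = x ∨ g x = π x) → Equiv.Perm.sign g = 1 → g ∈ H :=
      fun g h1 h2 => hP (hπP g h1 h2)
    have hdt : ∀ x y, Valid π x y → dt π x y ∈ H :=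
      fun x y h => hBH _ (dt_mem_pairGroup π hπ x y) (sign_dt π h)
    have hcardn : Fintype.card (Fin n) = n := Fintype.card_fin n
    have hconj : ∀ g ∈ H, (∀ x, (g * π * g⁻¹) ((g * π * g⁻¹) x) = x) ∧
        (∀ p q, (g * π * g⁻¹) p = p → (g * π * g⁻¹) q = q → p = q) ∧
        NB π (g * π * g⁻¹) := by
      intro g hg
      have hρ : ∀ x, (g * π * g⁻¹) ((g * π * g⁻¹) x) = x := by
        intro x
        simp only [Perm.mul_apply]
        rw [perm_inv_apply, hπ, perm_apply_inv]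
      have hρ1 : ∀ p q, (g * π * g⁻¹) p = p → (g * π * g⁻¹) q = q → p = q := by
        intro p q hp hq
        simp only [Perm.mul_apply] at hp hq
        have h1 : g⁻¹ (g (π (g⁻¹ p))) = g⁻¹ p := congrArg _ hp
        have h2 : g⁻¹ (g (π (g⁻¹ q))) = g⁻¹ q := congrArg _ hq
        rw [perm_inv_apply] at h1 h2
        exact g⁻¹.injective (hπ1 _ _ h1 h2)
      refine ⟨hρ, hρ1, nb_of_no_threeCycle H hno π _ hπ hρ hdt ?_⟩
      intro x v hv
      have hv' : Valid π (g⁻¹ x) (g⁻¹ v) := by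
        obtain ⟨h1, h2, h3, h4⟩ := hv
        simp only [Perm.mul_apply] at h1 h2 h4
        refine ⟨?_, ?_, ?_, ?_⟩
        · intro h; apply h1; rw [h, perm_apply_inv]
        · intro h; apply h2; rw [h, perm_apply_inv]
        · intro h; exact h3 (g⁻¹.injective h)
        · intro h; apply h4; rw [← h, perm_apply_inv]
      have key : ∀ p, swap p ((g * π * g⁻¹) p) = g * swap (g⁻¹ p) (π (g⁻¹ p)) * g⁻¹ := by
        intro p
        rw [← Equiv.swap_apply_apply, perm_apply_inv]
        rfl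
      have e : dt (g * π * g⁻¹) x v = g * dt π (g⁻¹ x) (g⁻¹ v) * g⁻¹ := by
        unfold dt
        rw [key x, key v]
        group
      rw [e]
      exact H.mul_mem (H.mul_mem hg (hdt _ _ hv')) (H.inv_mem hg)
    have hfix : ∀ g ∈ H, ∀ x, π x = x ↔ (g * π * g⁻¹) x = x := by
      intro g hg x
      obtain ⟨hρ, hρ1, hNB⟩ := hconj g hg
      exact ⟨cl_fix π _ hπ hρ hπ1 hρ1 (by omega) hNB x,
        cl_fix _ π hρ hπ hρ1 hπ1 (by omega) hNB.symm x⟩
    have hLπ : ∀ g ∈ L, g * π = π * g := by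
      rcases le_or_gt 10 n with h10 | h10
      · intro g hg
        obtain ⟨hρ, hρ1, hNB⟩ := hconj g (hLH hg)
        have h1 := cl_eq π _ hπ hρ hπ1 hρ1 (hfix g (hLH hg)) (by omega) hNB
        calc g * π = (g * π * g⁻¹) * g := by group
          _ = π * g := by rw [h1]
      · have hsign : Equiv.Perm.sign π = 1 := sign_eq_one_of_card π hπ hπ1 (by omega)
        have hπH : π ∈ H := hBH π (fun x => Or.inr rfl) hsign
        let SN : Set (Perm (Fin n)) := {s | ∃ g ∈ H, s = g * π * g⁻¹}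
        have hSNH : closure SN ≤ H := (closure_le _).2 (by
          rintro s ⟨g, hg, rfl⟩
          exact H.mul_mem (H.mul_mem hg hπH) (H.inv_mem hg))
        have hcomm0 : ∀ g ∈ H, π * (g * π * g⁻¹) = (g * π * g⁻¹) * π := by
          intro g hg
          obtain ⟨hρ, hρ1, hNB⟩ := hconj g hg
          have hc := cl_comm π _ hπ hρ hπ1 (hfix g hg) (by omega) hNB
          apply Equiv.ext
          intro k
          exact (hc k).symm
        have hSNcomm : ∀ s ∈ SN, ∀ t ∈ SN, s * t = t * s := by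
          rintro s ⟨g, hg, rfl⟩ t ⟨k, hk, rfl⟩
          have h1 := hcomm0 (g⁻¹ * k) (H.mul_mem (H.inv_mem hg) hk)
          calc g * π * g⁻¹ * (k * π * k⁻¹)
              = g * (π * ((g⁻¹ * k) * π * (g⁻¹ * k)⁻¹)) * g⁻¹ := by group
            _ = g * (((g⁻¹ * k) * π * (g⁻¹ * k)⁻¹) * π) * g⁻¹ := by rw [h1]
            _ = k * π * k⁻¹ * (g * π * g⁻¹) := by group
        have hNcomm : ∀ s ∈ closure SN, ∀ t ∈ closure SN, s * t = t * s := by
          have h1 : closure SN ≤ centralizer SN :=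
            (closure_le _).2 (fun s hs => mem_centralizer_iff.2 (fun t ht => hSNcomm t ht s hs))
          have h2 : closure SN ≤ centralizer ((closure SN : Subgroup (Perm (Fin n))) :
              Set (Perm (Fin n))) :=
            (closure_le _).2 (fun s hs => mem_centralizer_iff.2
              (fun t ht => ((mem_centralizer_iff.1 (h1 ht)) s hs).symm))
          intro s hs t ht
          exact mem_centralizer_iff.1 (h2 ht) s hs
        have hLN : ∀ g ∈ L, ∀ t ∈ closure SN, g * t * g⁻¹ ∈ closure SN := by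
          have h1 := Cfsg.Agent.Lib.Helper22.CompInv.le_normalizer_closure H SN (by
            rintro h hh s ⟨g, hg, rfl⟩
            exact ⟨h * g, H.mul_mem hh hg, by group⟩)
          intro g hg t ht
          exact (mem_normalizer_iff.1 (h1 (hLH hg)) t).1 ht
        rcases hdich (closure SN) hSNH hLN with h | h
        · exfalso
          exact perfect_not_abelian L hperf hne (fun a ha b hb => hNcomm a (h ha) b (h hb))
        · intro g hg
          exact h g hg π (subset_closure ⟨1, H.one_mem, by simp⟩)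
    have hLT : ∀ g ∈ L, ∀ t ∈ pairGroup π hπ ⊓ H, g * t * g⁻¹ ∈ pairGroup π hπ ⊓ H := by
      intro g hg t ht
      refine ⟨?_, H.mul_mem (H.mul_mem (hLH hg) ht.2) (H.inv_mem (hLH hg))⟩
      intro x
      show g (t (g⁻¹ x)) = x ∨ g (t (g⁻¹ x)) = π x
      rcases ht.1 (g⁻¹ x) with h1 | h1
      · left; rw [h1, perm_apply_inv]
      · right
        rw [h1]
        have h2 := congrArg (fun p : Perm (Fin n) => p (g⁻¹ x)) (hLπ g hg)
        simp only [Perm.mul_apply] at h2
        rw [h2, perm_apply_inv]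
    have hLcT : ∀ g ∈ L, ∀ t ∈ pairGroup π hπ ⊓ H, g * t = t * g := by
      rcases hdich (pairGroup π hπ ⊓ H) inf_le_right hLT with h | h
      · exfalso
        exact perfect_not_abelian L hperf hne
          (fun a ha b hb => pairGroup_comm (h ha).1 (h hb).1)
      · exact h
    have key : ∀ g ∈ L, ∀ x, π x ≠ x → g x = x ∨ g x = π x := by
      intro g hg x hx
      by_contra hcon
      rw [not_or] at hcon
      obtain ⟨y, hy, hyS⟩ := exists_nonfixed_notMem π hπ1 {x, π x, g x, π (g x)}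
        (by have := Finset.card_le_four (a := x) (b := π x) (c := g x) (d := π (g x)); omega)
      simp only [Finset.mem_insert, Finset.mem_singleton, not_or] at hyS
      have hv : Valid π x y := ⟨hx, hy, hyS.1, hyS.2.1⟩
      have hc := hLcT g hg (dt π x y) ⟨dt_mem_pairGroup π hπ x y, hdt x y hv⟩
      have h1 := congrArg (fun p : Perm (Fin n) => p x) hc
      simp only [Perm.mul_apply] at h1
      have h4 : g x ≠ π y := by
        intro h
        apply hyS.2.2.2
        rw [h, hπ]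
      rw [dt_apply_left π hπ hv, dt_apply_of_ne π hcon.1 hcon.2 (Ne.symm hyS.2.2.1) h4] at h1
      exact hx (g.injective h1)
    have hLB : ∀ g ∈ L, g ∈ pairGroup π hπ := by
      intro g hg x
      by_cases hx : π x = x
      · left
        by_contra hgx
        have hw : π (g x) ≠ g x := fun h => hgx (hπ1 _ _ h hx)
        rcases key g⁻¹ (L.inv_mem hg) (g x) hw with h1 | h1
        · rw [perm_inv_apply] at h1
          exact hgx h1.symm
        · rw [perm_inv_apply] at h1
          apply hgx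
          have h2 := congrArg π h1
          rw [hπ, hx] at h2
          exact h2.symm
      · exact key g hg x hx
    exact perfect_not_abelian L hperf hne (fun a ha b hb => pairGroup_comm (hLB a ha) (hLB b hb))

/-- **S2928.** `H ≤ S_n` (`n ≥ 8`) containing a Sylow 2-subgroup of `A_n`, with `F*(H)`
quasisimple: `F*(H) ≅ A_m` with `n - 3 ≤ m ≤ n`. -/
theorem main (n : ℕ) (hn : 8 ≤ n) (H : Subgroup (Perm (Fin n)))
    (hF : Cfsg.IsQuasisimple ↥(Cfsg.generalizedFittingSubgroup ↥H))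
    (hS : ∃ P : Sylow 2 ↥(alternatingGroup (Fin n)),
      ((P : Subgroup ↥(alternatingGroup (Fin n))).map (alternatingGroup (Fin n)).subtype) ≤ H) :
    ∃ m : ℕ, (m = n - 3 ∨ m = n - 2 ∨ m = n - 1 ∨ m = n) ∧
      Nonempty (↥(Cfsg.generalizedFittingSubgroup ↥H) ≃* ↥(alternatingGroup (Fin m))) := by
  obtain ⟨P, hP⟩ := hS
  obtain ⟨L, ⟨e⟩, hLH, hnorm, hperf, hne, hcentL, hdich⟩ := fstar_facts H hF
  obtain ⟨m, hm, ⟨e2⟩⟩ := main_perm n hn H L hLH hnorm hperf hne hcentL hdich P hP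
  exact ⟨m, hm, ⟨e.trans e2⟩⟩

end Cfsg.Agent.Lib.Helper20.DoubleTr
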