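import Mathlib

set_option autoImplicit false

namespace Cfsg.Agent.Lib.Helper20.Gl1

variable {Γ : Type*} [Group Γ]

/-- elements of a finite subgroup are killed by its order -/
theorem pow_card_of_mem {H : Subgroup Γ} [Finite H] {h : Γ} (hh : h ∈ H) :
    h ^ Nat.card H = 1 := by
  have := pow_card_eq_one' (G := ↥H) (x := ⟨h, hh⟩)
  have h2 := congrArg Subtype.val this
  rw [Subgroup.coe_pow] at h2
  exact h2

/-- the centralizer of the `p'`-elements of `K`, as a subgroup -/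
def cR (p : ℕ) (K : Subgroup Γ) : Subgroup Γ where
  carrier := {x | ∀ k ∈ K, (orderOf k).Coprime p → k * x = x * k}
  one_mem' := by intro k _ _; simp
  mul_mem' := by
    intro x y hx hy k hk hc
    rw [← mul_assoc, hx k hk hc, mul_assoc, hy k hk hc, mul_assoc]
  inv_mem' := by
    intro x hx k hk hc
    exact (Commute.inv_right (show Commute k x from hx k hk hc)).eq

theorem mem_cR {p : ℕ} {K : Subgroup Γ} {x : Γ} :
    x ∈ cR p K ↔ ∀ k ∈ K, (orderOf k).Coprime p → k * x = x * k := Iff.rfl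

theorem cR_normal (p : ℕ) (K : Subgroup Γ) [hK : K.Normal] : (cR p K).Normal := by
  constructor
  intro x hx g
  rw [mem_cR]
  intro k hk hc
  have hk' : g⁻¹ * k * g ∈ K := by
    have := hK.conj_mem k hk g⁻¹
    simpa using this
  have hc' : (orderOf (g⁻¹ * k * g)).Coprime p := by
    have h1 : orderOf (g⁻¹ * k * g) = orderOf k := by
      have := (MulAut.conj g⁻¹).orderOf_eq k
      rw [MulAut.conj_apply, inv_inv] at this
      exact this
    rw [h1]; exact hc
  have h := (mem_cR.mp hx) (g⁻¹ * k * g) hk' hc'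
  calc k * (g * x * g⁻¹) = g * ((g⁻¹ * k * g) * x) * g⁻¹ := by group
    _ = g * (x * (g⁻¹ * k * g)) * g⁻¹ := by rw [h]
    _ = g * x * g⁻¹ * k := by group

/-- a nontrivial normal subgroup inside a `p`-subgroup contains a nontrivial element
centralized by the `p`-subgroup -/
theorem exists_central_of_normal_le_pgroup {G : Type*} [Group G] [Finite G] (p : ℕ)
    [Fact p.Prime] (V P : Subgroup G) [hVn : V.Normal] (hP : IsPGroup p P) (hVP : V ≤ P)
    (hV : V ≠ ⊥) : ∃ v ∈ V, v ≠ 1 ∧ ∀ h ∈ P, h * v = v * h := by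
  classical
  let act : MulAction P V :=
    { smul := fun h v => ⟨(h : G) * v * (h : G)⁻¹, hVn.conj_mem v v.2 h⟩
      one_smul := by intro v; apply Subtype.ext; show (1 : G) * v * (1 : G)⁻¹ = v; simp
      mul_smul := by
        intro a b v; apply Subtype.ext
        show ((a * b : P) : G) * v * ((a * b : P) : G)⁻¹ = (a : G) * ((b : G) * v * (b : G)⁻¹) * (a : G)⁻¹
        simp [mul_assoc] }
  have hVp : IsPGroup p V := hP.to_le hVP
  have hdvd : p ∣ Nat.card V := by
    obtain ⟨n, hn⟩ := IsPGroup.iff_card.mp hVp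
    have hn0 : n ≠ 0 := by
      rintro rfl
      rw [pow_zero] at hn
      exact hV (Subgroup.card_eq_one.mp hn)
    rw [hn]; exact dvd_pow_self p hn0
  have h1fix : (1 : V) ∈ MulAction.fixedPoints P V := by
    rw [MulAction.mem_fixedPoints]
    intro h
    apply Subtype.ext
    show (h : G) * ((1 : V) : G) * (h : G)⁻¹ = ((1 : V) : G)
    simp
  obtain ⟨b, hbfix, hb1⟩ := hP.exists_fixed_point_of_prime_dvd_card_of_fixed_point V hdvd h1fix
  refine ⟨b, b.2, ?_, ?_⟩
  · intro hb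
    apply hb1
    apply Subtype.ext
    simp [hb]
  · intro h hh
    rw [MulAction.mem_fixedPoints] at hbfix
    have := congrArg Subtype.val (hbfix ⟨h, hh⟩)
    have h2 : h * (b : G) * h⁻¹ = b := this
    calc h * (b : G) = h * b * h⁻¹ * h := by group
      _ = b * h := by rw [h2]

theorem exists_BY [Finite Γ] (p : ℕ) [Fact p.Prime] (H K : Subgroup Γ) [H.Normal] [K.Normal]
    (hH : IsPGroup p H) (hHK : H ≤ K) (hcop : (H.relIndex K).Coprime p) (hne : ¬ K ≤ H)
    (hCK : ∀ k ∈ K, (∀ h ∈ H, k * h = h * k) → k ∈ H) :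
    ∃ B Y : Subgroup Γ, B.Normal ∧ Y.Normal ∧ Y ≤ B ∧ B ≤ H ∧
      (∀ y ∈ Y, ∀ b ∈ B, y * b = b * y) ∧
      (∀ b ∈ B, ∀ h ∈ H, b⁻¹ * h⁻¹ * b * h ∈ Y) ∧ (∀ b ∈ B, b ^ p ∈ Y) ∧
      (∃ k ∈ K, ∃ b ∈ B, b⁻¹ * k⁻¹ * b * k ∉ Y) := by
  classical
  have hp : p.Prime := Fact.out
  -- Step 1: some p'-element of K does not centralize H
  have step1 : ∃ k ∈ K, (orderOf k).Coprime p ∧ ∃ h ∈ H, k * h ≠ h * k := by
    obtain ⟨k0, hk0K, hk0H⟩ := SetLike.not_le_iff_exists.mp hne
    obtain ⟨e, he⟩ := IsPGroup.iff_card.mp hH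
    have hkm : ∀ k ∈ K, k ^ H.relIndex K ∈ H := fun k hk => H.pow_relIndex_mem hk
    have hk1m : (k0 ^ Nat.card H) ^ H.relIndex K = 1 := by
      rw [← pow_mul, mul_comm, pow_mul]
      exact pow_card_of_mem (hkm k0 hk0K)
    have hk1c : (orderOf (k0 ^ Nat.card H)).Coprime p :=
      Nat.Coprime.coprime_dvd_left (orderOf_dvd_of_pow_eq_one hk1m) hcop
    have hk1H : k0 ^ Nat.card H ∉ H := by
      intro hmem
      apply hk0H
      have hcop2 : Nat.Coprime (Nat.card H) (H.relIndex K) := by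
        rw [he]; exact Nat.Coprime.pow_left _ (Nat.Coprime.symm hcop)
      have hb := Nat.gcd_eq_gcd_ab (Nat.card H) (H.relIndex K)
      rw [Nat.Coprime.gcd_eq_one hcop2] at hb
      have h1 : (k0 ^ Nat.card H) ^ (Nat.gcdA (Nat.card H) (H.relIndex K))
          = k0 ^ ((Nat.card H : ℤ) * Nat.gcdA (Nat.card H) (H.relIndex K)) := by
        rw [zpow_mul, zpow_natCast]
      have h2 : (k0 ^ H.relIndex K) ^ (Nat.gcdB (Nat.card H) (H.relIndex K))
          = k0 ^ ((H.relIndex K : ℤ) * Nat.gcdB (Nat.card H) (H.relIndex K)) := by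
        rw [zpow_mul, zpow_natCast]
      have h3 : k0 = (k0 ^ Nat.card H) ^ (Nat.gcdA (Nat.card H) (H.relIndex K))
          * (k0 ^ H.relIndex K) ^ (Nat.gcdB (Nat.card H) (H.relIndex K)) := by
        rw [h1, h2, ← zpow_add, ← hb]; simp
      rw [h3]
      exact H.mul_mem (H.zpow_mem hmem _) (H.zpow_mem (hkm k0 hk0K) _)
    have hk1K : k0 ^ Nat.card H ∈ K := K.pow_mem hk0K _
    refine ⟨_, hk1K, hk1c, ?_⟩
    by_contra hcon
    apply hk1H
    apply hCK _ hk1K
    intro h hh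
    by_contra hne'
    exact hcon ⟨h, hh, hne'⟩
  -- Step 2: minimal B
  let P : Subgroup Γ → Prop := fun N => N.Normal ∧ N ≤ H ∧
      ∃ k ∈ K, (orderOf k).Coprime p ∧ ∃ b ∈ N, k * b ≠ b * k
  have hPH : P H := ⟨inferInstance, le_rfl, step1⟩
  have hex : ∃ n, ∃ N, P N ∧ Nat.card N = n := ⟨_, H, hPH, rfl⟩
  obtain ⟨B, hPB, hBcard⟩ := Nat.find_spec hex
  have hBmin : ∀ N, P N → Nat.card B ≤ Nat.card N := by
    intro N hN
    rw [hBcard]
    exact Nat.find_min' hex ⟨N, hN, rfl⟩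
  obtain ⟨hBn, hBH, k1, hk1K, hk1c, b1, hb1B, hk1b1⟩ := hPB
  have := hBn
  have hcRn : (cR p K).Normal := cR_normal p K
  have hYn : (B ⊓ cR p K).Normal := inferInstance
  have hYB : B ⊓ cR p K ≤ B := inf_le_left
  -- (M)
  have hM : ∀ N : Subgroup Γ, N.Normal → N ≤ B → N ≤ B ⊓ cR p K ∨ N = B := by
    intro N hNn hNB
    by_cases hPN : ∃ k ∈ K, (orderOf k).Coprime p ∧ ∃ b ∈ N, k * b ≠ b * k
    · right
      exact Subgroup.eq_of_le_of_card_ge hNB (hBmin N ⟨hNn, hNB.trans hBH, hPN⟩)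
    · left
      intro x hx
      refine Subgroup.mem_inf.mpr ⟨hNB hx, ?_⟩
      rw [mem_cR]
      intro k hk hc
      by_contra hne'
      exact hPN ⟨k, hk, hc, x, hx, hne'⟩
  have hb1Y : b1 ∉ B ⊓ cR p K := fun h =>
    hk1b1 ((mem_cR.mp (Subgroup.mem_inf.mp h).2) k1 hk1K hk1c)
  -- (M'): a normal subgroup of B not inside Y is B
  have hM' : ∀ N : Subgroup Γ, N.Normal → N ≤ B → ¬ N ≤ B ⊓ cR p K → N = B := by
    intro N hNn hNB hNY
    rcases hM N hNn hNB with h | h
    · exact absurd h hNY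
    · exact h
  -- (P)
  have hPp : ∀ N : Subgroup Γ, N.Normal → N ≤ B →
      (∀ b ∈ B, ∀ k ∈ K, (orderOf k).Coprime p → b⁻¹ * k⁻¹ * b * k ∈ N) → N = B := by
    intro N hNn hNB hcomm
    rcases hM N hNn hNB with hNY | h
    · exfalso
      apply hk1b1
      have hcN := hcomm b1 hb1B k1 hk1K hk1c
      have hcY := hNY hcN
      have hcC : k1 * (b1⁻¹ * k1⁻¹ * b1 * k1) = (b1⁻¹ * k1⁻¹ * b1 * k1) * k1 :=
        (mem_cR.mp (Subgroup.mem_inf.mp hcY).2) k1 hk1K hk1c
      obtain ⟨j, hj⟩ := hH ⟨b1⁻¹ * k1⁻¹ * b1 * k1, hBH (hNB hcN)⟩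
      have hj' : (b1⁻¹ * k1⁻¹ * b1 * k1) ^ p ^ j = 1 := by
        have := congrArg Subtype.val hj
        simpa using this
      generalize hc : b1⁻¹ * k1⁻¹ * b1 * k1 = c at hcC hj'
      have hb1c : k1⁻¹ * b1 * k1 = b1 * c := by rw [← hc]; group
      have hconj : ∀ n : ℕ, k1⁻¹ ^ n * b1 * k1 ^ n = b1 * c ^ n := by
        intro n
        induction n with
        | zero => simp
        | succ n ih =>
          have hcomm' : Commute k1 (c ^ n) := (show Commute k1 c from hcC).pow_right n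
          have hcn : k1⁻¹ * c ^ n * k1 = c ^ n := by
            rw [mul_assoc, ← hcomm'.eq, ← mul_assoc, inv_mul_cancel, one_mul]
          calc k1⁻¹ ^ (n + 1) * b1 * k1 ^ (n + 1)
              = k1⁻¹ * (k1⁻¹ ^ n * b1 * k1 ^ n) * k1 := by
                rw [pow_succ' k1⁻¹ n, pow_succ k1 n]; simp only [mul_assoc]
            _ = k1⁻¹ * (b1 * c ^ n) * k1 := by rw [ih]
            _ = (k1⁻¹ * b1 * k1) * (k1⁻¹ * c ^ n * k1) := by group
            _ = b1 * c * c ^ n := by rw [hcn, hb1c]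
            _ = b1 * c ^ (n + 1) := by rw [pow_succ' c n, mul_assoc]
      have hcn1 : c ^ orderOf k1 = 1 := by
        have h := hconj (orderOf k1)
        rw [inv_pow, pow_orderOf_eq_one, inv_one, one_mul, mul_one] at h
        have h' : b1 * c ^ orderOf k1 = b1 * 1 := by rw [mul_one]; exact h.symm
        exact mul_left_cancel h'
      have hc1 : c = 1 := by
        have hd1 : orderOf c ∣ orderOf k1 := orderOf_dvd_of_pow_eq_one hcn1
        have hd2 : orderOf c ∣ p ^ j := orderOf_dvd_of_pow_eq_one hj'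
        have hcp : Nat.Coprime (orderOf c) (p ^ j) :=
          Nat.Coprime.pow_right j (Nat.Coprime.coprime_dvd_left hd1 hk1c)
        exact orderOf_eq_one_iff.mp (Nat.Coprime.eq_one_of_dvd hcp hd2)
      rw [hc1] at hc
      calc k1 * b1 = k1 * b1 * (b1⁻¹ * k1⁻¹ * b1 * k1) := by rw [hc, mul_one]
        _ = b1 * k1 := by group
    · exact h
  -- Y central in B, via the three subgroups lemma
  have hYRt : ∀ y ∈ B ⊓ cR p K,
      ∀ x ∈ Subgroup.closure {k | k ∈ K ∧ (orderOf k).Coprime p}, x * y = y * x := by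
    intro y hy x hx
    have hle : Subgroup.closure {k | k ∈ K ∧ (orderOf k).Coprime p}
        ≤ Subgroup.centralizer {y} := by
      apply (Subgroup.closure_le _).mpr
      intro k hk
      rw [SetLike.mem_coe, Subgroup.mem_centralizer_iff]
      intro z hz
      rw [Set.mem_singleton_iff] at hz
      subst hz
      exact ((mem_cR.mp (Subgroup.mem_inf.mp hy).2) k hk.1 hk.2).symm
    have := Subgroup.mem_centralizer_iff.mp (hle hx) y (Set.mem_singleton y)
    exact this.symm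
  have h3 : ⁅⁅Subgroup.closure {k | k ∈ K ∧ (orderOf k).Coprime p}, B⁆, B ⊓ cR p K⁆ = ⊥ := by
    apply Subgroup.commutator_commutator_eq_bot_of_rotate
    · rw [Subgroup.commutator_eq_bot_iff_le_centralizer]
      intro x hx
      have hxY : x ∈ B ⊓ cR p K := Subgroup.commutator_le_right B (B ⊓ cR p K) hx
      rw [Subgroup.mem_centralizer_iff]
      intro r hr
      exact hYRt x hxY r hr
    · have h0 : ⁅B ⊓ cR p K, Subgroup.closure {k | k ∈ K ∧ (orderOf k).Coprime p}⁆ = ⊥ := by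
        rw [Subgroup.commutator_eq_bot_iff_le_centralizer]
        intro y hy
        rw [Subgroup.mem_centralizer_iff]
        intro r hr
        exact hYRt y hy r hr
      rw [h0, Subgroup.commutator_bot_left]
  have hcentY : ∀ y ∈ B ⊓ cR p K, ∀ b ∈ B, y * b = b * y := by
    have hN : B ⊓ Subgroup.centralizer ((B ⊓ cR p K : Subgroup Γ) : Set Γ) = B := by
      apply hPp _ inferInstance inf_le_left
      intro b hb k hk hc
      refine Subgroup.mem_inf.mpr ⟨?_, ?_⟩
      · have h1 : k⁻¹ * b * k ∈ B := by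
          have := hBn.conj_mem b hb k⁻¹
          simpa using this
        have h2 : b⁻¹ * (k⁻¹ * b * k) ∈ B := B.mul_mem (B.inv_mem hb) h1
        simpa [mul_assoc] using h2
      · have hkRt : k⁻¹ ∈ Subgroup.closure {k | k ∈ K ∧ (orderOf k).Coprime p} :=
          Subgroup.inv_mem _ (Subgroup.subset_closure ⟨hk, hc⟩)
        have hmem : k⁻¹ * b⁻¹ * k⁻¹⁻¹ * b⁻¹⁻¹
            ∈ ⁅Subgroup.closure {k | k ∈ K ∧ (orderOf k).Coprime p}, B⁆ :=
          Subgroup.commutator_mem_commutator hkRt (B.inv_mem hb)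
        have hle := Subgroup.commutator_eq_bot_iff_le_centralizer.mp h3
        have h4 := hle (Subgroup.inv_mem _ hmem)
        have heq : (k⁻¹ * b⁻¹ * k⁻¹⁻¹ * b⁻¹⁻¹)⁻¹ = b⁻¹ * k⁻¹ * b * k := by
          group
        rwa [heq] at h4
    intro y hy b hb
    have hb' : b ∈ B ⊓ Subgroup.centralizer ((B ⊓ cR p K : Subgroup Γ) : Set Γ) := by
      rw [hN]; exact hb
    exact Subgroup.mem_centralizer_iff.mp (Subgroup.mem_inf.mp hb').2 y hy
  -- last conjunct
  have hlast : ∃ k ∈ K, ∃ b ∈ B, b⁻¹ * k⁻¹ * b * k ∉ B ⊓ cR p K := by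
    by_contra hcon
    have hYeq : B ⊓ cR p K = B := by
      apply hPp _ hYn hYB
      intro b hb k hk _
      by_contra hn
      exact hcon ⟨k, hk, b, hb, hn⟩
    exact hb1Y (by rw [hYeq]; exact hb1B)
  -- [B, H] ≤ Y
  have hBHY : ∀ b ∈ B, ∀ h ∈ H, b⁻¹ * h⁻¹ * b * h ∈ B ⊓ cR p K := by
    have hVn : (B.map (QuotientGroup.mk' (B ⊓ cR p K))).Normal :=
      Subgroup.Normal.map hBn _ (QuotientGroup.mk'_surjective _)
    have hHbn : (H.map (QuotientGroup.mk' (B ⊓ cR p K))).Normal :=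
      Subgroup.Normal.map inferInstance _ (QuotientGroup.mk'_surjective _)
    have hHbp : IsPGroup p (H.map (QuotientGroup.mk' (B ⊓ cR p K))) := hH.map _
    have hVne : B.map (QuotientGroup.mk' (B ⊓ cR p K)) ≠ ⊥ := by
      intro hbot
      have h1 : QuotientGroup.mk' (B ⊓ cR p K) b1 ∈ B.map (QuotientGroup.mk' (B ⊓ cR p K)) :=
        Subgroup.mem_map_of_mem _ hb1B
      rw [hbot, Subgroup.mem_bot] at h1
      exact hb1Y ((QuotientGroup.eq_one_iff b1).mp h1)
    obtain ⟨v, hvV, hv1, hvc⟩ := exists_central_of_normal_le_pgroup p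
      (B.map (QuotientGroup.mk' (B ⊓ cR p K))) (H.map (QuotientGroup.mk' (B ⊓ cR p K)))
      hHbp (Subgroup.map_mono hBH) hVne
    obtain ⟨b0, hb0B, rfl⟩ := Subgroup.mem_map.mp hvV
    have hb0Y : b0 ∉ B ⊓ cR p K := fun h => hv1 ((QuotientGroup.eq_one_iff b0).mpr h)
    have hN1 : B ⊓ (Subgroup.centralizer
        ((H.map (QuotientGroup.mk' (B ⊓ cR p K)) : Subgroup (Γ ⧸ (B ⊓ cR p K))) :
          Set (Γ ⧸ (B ⊓ cR p K)))).comap (QuotientGroup.mk' (B ⊓ cR p K)) = B := by
      apply hM' _ inferInstance inf_le_left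
      intro hle
      apply hb0Y
      apply hle
      refine Subgroup.mem_inf.mpr ⟨hb0B, ?_⟩
      rw [Subgroup.mem_comap, Subgroup.mem_centralizer_iff]
      intro h hh
      exact hvc h hh
    intro b hb h hh
    have hb' : b ∈ B ⊓ (Subgroup.centralizer
        ((H.map (QuotientGroup.mk' (B ⊓ cR p K)) : Subgroup (Γ ⧸ (B ⊓ cR p K))) :
          Set (Γ ⧸ (B ⊓ cR p K)))).comap (QuotientGroup.mk' (B ⊓ cR p K)) := by
      rw [hN1]; exact hb
    have hc := Subgroup.mem_centralizer_iff.mp (Subgroup.mem_comap.mp (Subgroup.mem_inf.mp hb').2)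
      (QuotientGroup.mk' (B ⊓ cR p K) h) (Subgroup.mem_map_of_mem _ hh)
    have h1 : QuotientGroup.mk' (B ⊓ cR p K) (b⁻¹ * h⁻¹ * b * h) = 1 := by
      simp only [map_mul, map_inv]
      rw [mul_assoc, ← hc]
      group
    exact (QuotientGroup.eq_one_iff _).mp h1
  -- B^p ≤ Y
  have hBpY : ∀ b ∈ B, b ^ p ∈ B ⊓ cR p K := by
    have hcommq : ∀ b ∈ B, ∀ c ∈ B, Commute (QuotientGroup.mk' (B ⊓ cR p K) b)
        (QuotientGroup.mk' (B ⊓ cR p K) c) := by
      intro b hb c hc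
      have h1 : QuotientGroup.mk' (B ⊓ cR p K) (b⁻¹ * c⁻¹ * b * c) = 1 :=
        (QuotientGroup.eq_one_iff _).mpr (hBHY b hb c (hBH hc))
      simp only [map_mul, map_inv] at h1
      show _ * _ = _ * _
      calc QuotientGroup.mk' (B ⊓ cR p K) b * QuotientGroup.mk' (B ⊓ cR p K) c
          = QuotientGroup.mk' (B ⊓ cR p K) c * QuotientGroup.mk' (B ⊓ cR p K) b *
            ((QuotientGroup.mk' (B ⊓ cR p K) b)⁻¹ * (QuotientGroup.mk' (B ⊓ cR p K) c)⁻¹ *
              QuotientGroup.mk' (B ⊓ cR p K) b * QuotientGroup.mk' (B ⊓ cR p K) c) := by group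
        _ = QuotientGroup.mk' (B ⊓ cR p K) c * QuotientGroup.mk' (B ⊓ cR p K) b := by
            rw [h1, mul_one]
    let N2 : Subgroup Γ :=
      { carrier := {b | b ∈ B ∧ b ^ p ∈ B ⊓ cR p K}
        one_mem' := ⟨B.one_mem, by rw [one_pow]; exact Subgroup.one_mem _⟩
        mul_mem' := by
          rintro b c ⟨hb, hbp⟩ ⟨hc, hcp⟩
          refine ⟨B.mul_mem hb hc, ?_⟩
          apply (QuotientGroup.eq_one_iff _).mp
          have e1 : QuotientGroup.mk' (B ⊓ cR p K) (b ^ p) = 1 :=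
            (QuotientGroup.eq_one_iff _).mpr hbp
          have e2 : QuotientGroup.mk' (B ⊓ cR p K) (c ^ p) = 1 :=
            (QuotientGroup.eq_one_iff _).mpr hcp
          have h1 : QuotientGroup.mk' (B ⊓ cR p K) ((b * c) ^ p) = 1 := by
            rw [map_pow, map_mul, (hcommq b hb c hc).mul_pow, ← map_pow, ← map_pow,
              e1, e2, one_mul]
          exact h1
        inv_mem' := by
          rintro b ⟨hb, hbp⟩
          refine ⟨B.inv_mem hb, ?_⟩
          rw [inv_pow]; exact Subgroup.inv_mem _ hbp }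
    have hN2n : N2.Normal := by
      constructor
      rintro b ⟨hb, hbp⟩ g
      refine ⟨hBn.conj_mem b hb g, ?_⟩
      rw [conj_pow]
      exact hYn.conj_mem _ hbp g
    have hN2B : N2 ≤ B := fun b hb => hb.1
    -- an element of B outside Y with p-th power in Y
    have hexj : ∃ j : ℕ, b1 ^ p ^ j ∈ B ⊓ cR p K := by
      obtain ⟨j, hj⟩ := hH ⟨b1, hBH hb1B⟩
      refine ⟨j, ?_⟩
      have h1 : b1 ^ p ^ j = 1 := by
        have := congrArg Subtype.val hj
        simpa using this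
      rw [h1]; exact Subgroup.one_mem _
    have hj0 : Nat.find hexj ≠ 0 := by
      intro h0
      have := Nat.find_spec hexj
      rw [h0, pow_zero, pow_one] at this
      exact hb1Y this
    obtain ⟨j', hj'⟩ := Nat.exists_eq_succ_of_ne_zero hj0
    have hnot : b1 ^ p ^ j' ∉ B ⊓ cR p K :=
      Nat.find_min hexj (by rw [hj']; exact Nat.lt_succ_self j')
    have hin : (b1 ^ p ^ j') ^ p ∈ B ⊓ cR p K := by
      have := Nat.find_spec hexj
      rw [hj', pow_succ, pow_mul] at this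
      exact this
    have hN2 : N2 = B := by
      apply hM' N2 hN2n hN2B
      intro hle
      exact hnot (hle ⟨B.pow_mem hb1B _, hin⟩)
    intro b hb
    have hb' : b ∈ N2 := by rw [hN2]; exact hb
    exact hb'.2
  exact ⟨B, B ⊓ cR p K, hBn, hYn, hYB, hBH, hcentY, hBHY, hBpY, hlast⟩

end Cfsg.Agent.Lib.Helper20.Gl1
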