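import Mathlib

set_option autoImplicit false

namespace Cfsg.Agent.Lib.Helper20.Gl4

variable {G : Type*} [Group G]

theorem closure_centralized (S : Set G) (c : G) (h : ∀ s ∈ S, s * c = c * s) :
    ∀ t ∈ Subgroup.closure S, t * c = c * t := by
  intro t ht
  induction ht using Subgroup.closure_induction with
  | mem z hz => exact h z hz
  | one => simp
  | mul z w _ _ ihz ihw => rw [mul_assoc, ihw, ← mul_assoc, ihz, mul_assoc]
  | inv z _ ihz => exact (Commute.inv_left (show Commute z c from ihz)).eq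

theorem closure_comm (S : Set G) (h : ∀ s ∈ S, ∀ t ∈ S, s * t = t * s) :
    ∀ s ∈ Subgroup.closure S, ∀ t ∈ Subgroup.closure S, s * t = t * s := by
  intro s hs t ht
  have h1 : ∀ u ∈ S, ∀ v ∈ Subgroup.closure S, v * u = u * v := by
    intro u hu v hv
    exact closure_centralized S u (fun w hw => h w hw u hu) v hv
  exact closure_centralized S t (fun w hw => (h1 w hw t ht).symm) s hs

theorem sup_comm_of (C M : Subgroup G) (hC : ∀ s ∈ C, ∀ t ∈ C, s * t = t * s)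
    (hM : ∀ s ∈ M, ∀ t ∈ M, s * t = t * s) (hCM : ∀ c ∈ C, ∀ s ∈ M, c * s = s * c) :
    ∀ s ∈ C ⊔ M, ∀ t ∈ C ⊔ M, s * t = t * s := by
  have hT1 : C ⊔ M ≤ Subgroup.centralizer (C : Set G) := by
    apply sup_le
    · intro c hc
      rw [Subgroup.mem_centralizer_iff]
      intro d hd
      exact hC d hd c hc
    · intro s hs
      rw [Subgroup.mem_centralizer_iff]
      intro d hd
      exact hCM d hd s hs
  have hT2 : C ⊔ M ≤ Subgroup.centralizer (M : Set G) := by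
    apply sup_le
    · intro c hc
      rw [Subgroup.mem_centralizer_iff]
      intro s hs
      exact (hCM c hc s hs).symm
    · intro s hs
      rw [Subgroup.mem_centralizer_iff]
      intro t ht
      exact hM t ht s hs
  have h3 : C ⊔ M ≤ Subgroup.centralizer ((C ⊔ M : Subgroup G) : Set G) := by
    apply sup_le
    · intro c hc
      rw [Subgroup.mem_centralizer_iff]
      intro t ht
      exact (Subgroup.mem_centralizer_iff.mp (hT1 ht) c hc).symm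
    · intro s hs
      rw [Subgroup.mem_centralizer_iff]
      intro t ht
      exact (Subgroup.mem_centralizer_iff.mp (hT2 ht) s hs).symm
  intro s hs t ht
  exact (Subgroup.mem_centralizer_iff.mp (h3 hs) t ht).symm

theorem exists_larger_of_cube [Finite G] (p : ℕ) [Fact p.Prime] (hp2 : p ≠ 2)
    (A A₀ : Subgroup G) (hAab : ∀ x ∈ A, ∀ y ∈ A, x * y = y * x) (a : G) (ha : a ∈ A)
    (hA₀ : A₀ ≤ A) (hgen : ∀ g ∈ A, ∃ i : ℕ, ∃ u ∈ A₀, g = a ^ i * u)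
    (y y₁ y₂ : G) (hy0 : ∀ u ∈ A₀, u * y = y * u) (hyp : y ^ p = 1)
    (h1 : y₁ = y⁻¹ * a⁻¹ * y * a) (h2 : y₂ = y₁⁻¹ * a⁻¹ * y₁ * a) (h3 : y₂ * a = a * y₂)
    (c01 : y * y₁ = y₁ * y) (c02 : y * y₂ = y₂ * y) (c12 : y₁ * y₂ = y₂ * y₁) (hne : y₂ ≠ 1) :
    ∃ T : Subgroup G, (∀ s ∈ T, ∀ t ∈ T, s * t = t * s) ∧
      T ≤ A ⊔ Subgroup.closure {y, y₁, y₂} ∧ Nat.card A < Nat.card T := by
  classical
  have hp : p.Prime := Fact.out
  have C01 : Commute y y₁ := c01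
  have C02 : Commute y y₂ := c02
  have C12 : Commute y₁ y₂ := c12
  obtain ⟨α, hαdef⟩ : ∃ α : MulAut G, α = MulAut.conj a⁻¹ := ⟨_, rfl⟩
  have hα : ∀ g, α g = a⁻¹ * g * a := by
    intro g; rw [hαdef, MulAut.conj_apply, inv_inv]
  have hαy : α y = y * y₁ := by rw [hα, h1]; group
  have hαy1 : α y₁ = y₁ * y₂ := by rw [hα, h2]; group
  have hαy2 : α y₂ = y₂ := by
    rw [hα, mul_assoc, h3, ← mul_assoc, inv_mul_cancel, one_mul]
  have hy1p : y₁ ^ p = 1 := by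
    have h := map_pow α y p
    rw [hyp, map_one, hαy, C01.mul_pow, hyp, one_mul] at h
    exact h.symm
  have hy2p : y₂ ^ p = 1 := by
    have h := map_pow α y₁ p
    rw [hy1p, map_one, hαy1, C12.mul_pow, hy1p, one_mul] at h
    exact h.symm
  have ho2 : orderOf y₂ = p := orderOf_eq_prime hy2p hne
  -- iterates
  have hit2 : ∀ n : ℕ, (α ^ n) y₂ = y₂ := by
    intro n
    induction n with
    | zero => simp
    | succ n ih => rw [pow_succ' α n, MulAut.mul_apply, ih, hαy2]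
  have hit1 : ∀ n : ℕ, (α ^ n) y₁ = y₁ * y₂ ^ n := by
    intro n
    induction n with
    | zero => simp
    | succ n ih =>
      rw [pow_succ' α n, MulAut.mul_apply, ih, map_mul, map_pow, hαy1, hαy2, pow_succ' y₂ n,
        mul_assoc]
  have hit0 : ∀ n : ℕ, (α ^ n) y = y * y₁ ^ n * y₂ ^ (n.choose 2) := by
    intro n
    induction n with
    | zero => simp
    | succ n ih =>
      rw [pow_succ' α n, MulAut.mul_apply, ih, map_mul, map_mul, map_pow, map_pow, hαy, hαy1,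
        hαy2, C12.mul_pow]
      have hch : (n + 1).choose 2 = n + n.choose 2 := by
        rw [show (2 : ℕ) = 1 + 1 from rfl, Nat.choose_succ_succ', Nat.choose_one_right]
      rw [hch, pow_add y₂ n (n.choose 2), pow_succ' y₁ n]
      simp only [mul_assoc]
  have h2p : 2 < p := lt_of_le_of_ne hp.two_le (Ne.symm hp2)
  have hpy : (α ^ p) y = y := by
    rw [hit0, hy1p, mul_one]
    obtain ⟨k, hk⟩ := hp.dvd_choose_self (by norm_num : (2 : ℕ) ≠ 0) h2p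
    rw [hk, pow_mul, hy2p, one_pow, mul_one]
  have hpy1 : (α ^ p) y₁ = y₁ := by rw [hit1, hy2p, mul_one]
  have hpy2 : (α ^ p) y₂ = y₂ := hit2 p
  have hαp : ∀ g : G, (α ^ p) g = g → a ^ p * g = g * a ^ p := by
    intro g hg
    have e : (α ^ p) g = (a ^ p)⁻¹ * g * a ^ p := by
      rw [hαdef, ← map_pow, MulAut.conj_apply, inv_pow, inv_inv]
    rw [e] at hg
    calc a ^ p * g = a ^ p * ((a ^ p)⁻¹ * g * a ^ p) := by rw [hg]
      _ = g * a ^ p := by group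
  -- the key lemma
  have hK : ∀ e f : ℤ, a * (y ^ e * y₁ ^ f) = (y ^ e * y₁ ^ f) * a →
      (p : ℤ) ∣ e ∧ (p : ℤ) ∣ f := by
    intro e f hcomm
    have hαw : α (y ^ e * y₁ ^ f) = y ^ e * y₁ ^ f := by
      rw [hα, mul_assoc, ← hcomm, ← mul_assoc, inv_mul_cancel, one_mul]
    have h4 : α (y ^ e * y₁ ^ f) = y ^ e * y₁ ^ e * (y₁ ^ f * y₂ ^ f) := by
      rw [map_mul, map_zpow, map_zpow, hαy, hαy1, C01.mul_zpow, C12.mul_zpow]
    have h5 : y₁ ^ e * y₂ ^ f = 1 := by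
      rw [h4] at hαw
      have h6 : y₁ ^ e * (y₁ ^ f * y₂ ^ f) = y₁ ^ f := by
        apply mul_left_cancel (a := y ^ e); rw [← mul_assoc]; exact hαw
      have h7 : y₁ ^ f * (y₁ ^ e * y₂ ^ f) = y₁ ^ f * 1 := by
        rw [mul_one, ← mul_assoc, ← zpow_add, add_comm, zpow_add, mul_assoc]; exact h6
      exact mul_left_cancel h7
    have h8 : α (y₁ ^ e * y₂ ^ f) = y₁ ^ e * y₂ ^ e * y₂ ^ f := by
      rw [map_mul, map_zpow, map_zpow, hαy1, hαy2, C12.mul_zpow]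
    have h9 : y₂ ^ e = 1 := by
      rw [h5, map_one] at h8
      have hc : y₁ ^ e * y₂ ^ e = y₂ ^ e * y₁ ^ e := (C12.zpow_zpow e e).eq
      rw [hc, mul_assoc, h5, mul_one] at h8
      exact h8.symm
    have hpe : (p : ℤ) ∣ e := by
      rw [← ho2]; exact orderOf_dvd_iff_zpow_eq_one.mpr h9
    have h10 : y₁ ^ e = 1 := by
      obtain ⟨k, rfl⟩ := hpe
      rw [zpow_mul, zpow_natCast, hy1p, one_zpow]
    have h11 : y₂ ^ f = 1 := by rw [h10, one_mul] at h5; exact h5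
    exact ⟨hpe, by rw [← ho2]; exact orderOf_dvd_iff_zpow_eq_one.mpr h11⟩
  have hWadd : ∀ e f e' f' : ℤ,
      y ^ (e + e') * y₁ ^ (f + f') = (y ^ e * y₁ ^ f) * (y ^ e' * y₁ ^ f') := by
    intro e f e' f'
    have hc : y ^ e' * y₁ ^ f = y₁ ^ f * y ^ e' := (C01.zpow_zpow e' f).eq
    calc y ^ (e + e') * y₁ ^ (f + f') = y ^ e * (y ^ e' * y₁ ^ f) * y₁ ^ f' := by
          rw [zpow_add, zpow_add]; simp only [mul_assoc]
      _ = y ^ e * (y₁ ^ f * y ^ e') * y₁ ^ f' := by rw [hc]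
      _ = (y ^ e * y₁ ^ f) * (y ^ e' * y₁ ^ f') := by simp only [mul_assoc]
  -- the subgroups
  obtain ⟨Y, hYdef⟩ : ∃ Y : Subgroup G, Y = Subgroup.closure {y, y₁, y₂} := ⟨_, rfl⟩
  rw [← hYdef]
  have hyY : y ∈ Y := by rw [hYdef]; exact Subgroup.subset_closure (by simp)
  have hy1Y : y₁ ∈ Y := by rw [hYdef]; exact Subgroup.subset_closure (by simp)
  have hYab : ∀ s ∈ Y, ∀ t ∈ Y, s * t = t * s := by
    rw [hYdef]
    apply closure_comm
    have key : ∀ s ∈ ({y, y₁, y₂} : Set G), Commute s y ∧ Commute s y₁ ∧ Commute s y₂ := by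
      intro s hs
      simp only [Set.mem_insert_iff, Set.mem_singleton_iff] at hs
      rcases hs with h | h | h
      · rw [h]; exact ⟨Commute.refl _, C01, C02⟩
      · rw [h]; exact ⟨C01.symm, Commute.refl _, C12⟩
      · rw [h]; exact ⟨C02.symm, C12.symm, Commute.refl _⟩
    intro s hs t ht
    simp only [Set.mem_insert_iff, Set.mem_singleton_iff] at ht
    rcases ht with h | h | h
    · rw [h]; exact (key s hs).1.eq
    · rw [h]; exact (key s hs).2.1.eq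
    · rw [h]; exact (key s hs).2.2.eq
  obtain ⟨A₁, hA₁def⟩ : ∃ A₁ : Subgroup G,
      A₁ = A ⊓ Subgroup.centralizer ({y, y₁, y₂} : Set G) := ⟨_, rfl⟩
  have hA₁A : A₁ ≤ A := by rw [hA₁def]; exact inf_le_left
  have hA₁mem : ∀ g ∈ A, y * g = g * y → y₁ * g = g * y₁ → y₂ * g = g * y₂ → g ∈ A₁ := by
    intro g hg e0 e1 e2
    rw [hA₁def]
    refine Subgroup.mem_inf.mpr ⟨hg, ?_⟩
    rw [Subgroup.mem_centralizer_iff]
    intro h hh
    simp only [Set.mem_insert_iff, Set.mem_singleton_iff] at hh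
    rcases hh with rfl | rfl | rfl
    · exact e0
    · exact e1
    · exact e2
  have hA₁Y : ∀ c ∈ A₁, ∀ s ∈ Y, c * s = s * c := by
    intro c hc s hs
    rw [hA₁def] at hc
    rw [hYdef] at hs
    have hcen := Subgroup.mem_centralizer_iff.mp (Subgroup.mem_inf.mp hc).2
    exact (closure_centralized _ c (fun w hw => hcen w hw) s hs).symm
  have hA₀A₁ : A₀ ≤ A₁ := by
    intro u hu
    have cu : Commute u y := hy0 u hu
    have ca : Commute u a := hAab u (hA₀ hu) a ha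
    have cu1 : Commute u y₁ := by
      rw [h1]
      exact ((cu.inv_right.mul_right ca.inv_right).mul_right cu).mul_right ca
    have cu2 : Commute u y₂ := by
      rw [h2]
      exact ((cu1.inv_right.mul_right ca.inv_right).mul_right cu1).mul_right ca
    exact hA₁mem u (hA₀ hu) cu.eq.symm cu1.eq.symm cu2.eq.symm
  have hapA₁ : a ^ p ∈ A₁ :=
    hA₁mem _ (A.pow_mem ha p) (hαp y hpy).symm (hαp y₁ hpy1).symm (hαp y₂ hpy2).symm
  have hTab : ∀ s ∈ A₁ ⊔ Y, ∀ t ∈ A₁ ⊔ Y, s * t = t * s :=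
    sup_comm_of A₁ Y (fun s hs t ht => hAab s (hA₁A hs) t (hA₁A ht)) hYab hA₁Y
  refine ⟨A₁ ⊔ Y, hTab, sup_le_sup_right hA₁A Y, ?_⟩
  -- |A| ≤ p |A₁|
  have hcard1 : Nat.card A ≤ p * Nat.card A₁ := by
    let f : Fin p × A₁ → A := fun rc =>
      ⟨a ^ (rc.1 : ℕ) * (rc.2 : G), A.mul_mem (A.pow_mem ha _) (hA₁A rc.2.2)⟩
    have hf : Function.Surjective f := by
      rintro ⟨g, hg⟩
      obtain ⟨i, u, hu, rfl⟩ := hgen g hg
      refine ⟨(⟨i % p, Nat.mod_lt _ hp.pos⟩, ⟨a ^ (p * (i / p)) * u, ?_⟩), ?_⟩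
      · exact A₁.mul_mem (by rw [pow_mul]; exact A₁.pow_mem hapA₁ _) (hA₀A₁ hu)
      · apply Subtype.ext
        show a ^ (i % p) * (a ^ (p * (i / p)) * u) = a ^ i * u
        rw [← mul_assoc, ← pow_add, Nat.mod_add_div]
    have := Nat.card_le_card_of_surjective f hf
    rwa [Nat.card_prod, Nat.card_fin] at this
  -- p² |A₁| ≤ |T|
  have hcard2 : p * (p * Nat.card A₁) ≤ Nat.card (A₁ ⊔ Y : Subgroup G) := by
    let f : Fin p × Fin p × A₁ → (A₁ ⊔ Y : Subgroup G) := fun rsc =>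
      ⟨y ^ (rsc.1 : ℕ) * y₁ ^ (rsc.2.1 : ℕ) * (rsc.2.2 : G),
        Subgroup.mul_mem _ (Subgroup.mem_sup_right (Y.mul_mem (Y.pow_mem hyY _) (Y.pow_mem hy1Y _)))
          (Subgroup.mem_sup_left rsc.2.2.2)⟩
    have hf : Function.Injective f := by
      rintro ⟨r, s, c⟩ ⟨r', s', c'⟩ h
      have hv : y ^ (r : ℕ) * y₁ ^ (s : ℕ) * (c : G) = y ^ (r' : ℕ) * y₁ ^ (s' : ℕ) * (c' : G) :=
        congrArg Subtype.val h
      have hv' : y ^ ((r : ℕ) : ℤ) * y₁ ^ ((s : ℕ) : ℤ) * (c : G)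
          = y ^ ((r' : ℕ) : ℤ) * y₁ ^ ((s' : ℕ) : ℤ) * (c' : G) := by
        simp only [zpow_natCast]; exact hv
      have e1 := hWadd (-((r' : ℕ) : ℤ)) (-((s' : ℕ) : ℤ)) ((r : ℕ) : ℤ) ((s : ℕ) : ℤ)
      have e2 := hWadd (-((r' : ℕ) : ℤ)) (-((s' : ℕ) : ℤ)) ((r' : ℕ) : ℤ) ((s' : ℕ) : ℤ)
      rw [neg_add_cancel, neg_add_cancel, zpow_zero, zpow_zero, one_mul] at e2
      have e3 : y ^ (-((r' : ℕ) : ℤ)) * y₁ ^ (-((s' : ℕ) : ℤ))
          = (y ^ ((r' : ℕ) : ℤ) * y₁ ^ ((s' : ℕ) : ℤ))⁻¹ := eq_inv_of_mul_eq_one_left e2.symm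
      rw [e3] at e1
      have e4 : (y ^ ((r' : ℕ) : ℤ) * y₁ ^ ((s' : ℕ) : ℤ))⁻¹ * (y ^ ((r : ℕ) : ℤ) * y₁ ^ ((s : ℕ) : ℤ))
          = (c' : G) * (c : G)⁻¹ := by
        calc (y ^ ((r' : ℕ) : ℤ) * y₁ ^ ((s' : ℕ) : ℤ))⁻¹ * (y ^ ((r : ℕ) : ℤ) * y₁ ^ ((s : ℕ) : ℤ))
            = (y ^ ((r' : ℕ) : ℤ) * y₁ ^ ((s' : ℕ) : ℤ))⁻¹
              * (y ^ ((r : ℕ) : ℤ) * y₁ ^ ((s : ℕ) : ℤ) * (c : G)) * (c : G)⁻¹ := by group
          _ = (y ^ ((r' : ℕ) : ℤ) * y₁ ^ ((s' : ℕ) : ℤ))⁻¹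
              * (y ^ ((r' : ℕ) : ℤ) * y₁ ^ ((s' : ℕ) : ℤ) * (c' : G)) * (c : G)⁻¹ := by rw [hv']
          _ = (c' : G) * (c : G)⁻¹ := by group
      rw [e4] at e1
      have hwA : y ^ (-((r' : ℕ) : ℤ) + ((r : ℕ) : ℤ)) * y₁ ^ (-((s' : ℕ) : ℤ) + ((s : ℕ) : ℤ)) ∈ A := by
        rw [e1]; exact A.mul_mem (hA₁A c'.2) (A.inv_mem (hA₁A c.2))
      obtain ⟨hd1, hd2⟩ := hK _ _ (hAab a ha _ hwA)
      rw [neg_add_eq_sub] at hd1 hd2
      have hr : (r' : ℕ) = r := (Nat.modEq_iff_dvd.mpr hd1).eq_of_lt_of_lt r'.2 r.2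
      have hs : (s' : ℕ) = s := (Nat.modEq_iff_dvd.mpr hd2).eq_of_lt_of_lt s'.2 s.2
      obtain rfl : r' = r := Fin.ext hr
      obtain rfl : s' = s := Fin.ext hs
      have hc : (c : G) = c' := mul_left_cancel hv
      obtain rfl : c = c' := Subtype.ext hc
      rfl
    have := Nat.card_le_card_of_injective f hf
    rwa [Nat.card_prod, Nat.card_prod, Nat.card_fin] at this
  have hn : 0 < Nat.card A₁ := Nat.card_pos
  have hp2' : 2 ≤ p := hp.two_le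
  calc Nat.card A ≤ p * Nat.card A₁ := hcard1
    _ < p * (p * Nat.card A₁) := by nlinarith
    _ ≤ Nat.card (A₁ ⊔ Y : Subgroup G) := hcard2

end Cfsg.Agent.Lib.Helper20.Gl4
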