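import Mathlib
import Cfsg.Agent.Lib.Helper42.G2Base

set_option autoImplicit false

namespace Cfsg.Agent.Lib.Helper20.IdemCard

open Cfsg.Agent.Lib.Helper42.G2Base

variable {F : Type*} [Field F]

theorem isIdem_iff (e : Fin 8 → F) :
    IsIdem F e ↔ e 0 + e 7 = 1 ∧ e 1 * e 4 + e 2 * e 5 + e 3 * e 6 = e 0 * e 7 := by
  have c0 : Cfsg.Lie.zornMul e e 0 = e 0 * e 0 + (e 1 * e 4 + e 2 * e 5 + e 3 * e 6) := by
    simp [Cfsg.Lie.zornMul, Cfsg.Lie.dot3]
  have c1 : Cfsg.Lie.zornMul e e 1 = (e 0 + e 7) * e 1 := by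
    simp [Cfsg.Lie.zornMul, Cfsg.Lie.cross3]; ring
  have c2 : Cfsg.Lie.zornMul e e 2 = (e 0 + e 7) * e 2 := by
    simp [Cfsg.Lie.zornMul, Cfsg.Lie.cross3]; ring
  have c3 : Cfsg.Lie.zornMul e e 3 = (e 0 + e 7) * e 3 := by
    simp [Cfsg.Lie.zornMul, Cfsg.Lie.cross3]; ring
  have c4 : Cfsg.Lie.zornMul e e 4 = (e 0 + e 7) * e 4 := by
    simp [Cfsg.Lie.zornMul, Cfsg.Lie.cross3]; ring
  have c5 : Cfsg.Lie.zornMul e e 5 = (e 0 + e 7) * e 5 := by
    simp [Cfsg.Lie.zornMul, Cfsg.Lie.cross3]; ring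
  have c6 : Cfsg.Lie.zornMul e e 6 = (e 0 + e 7) * e 6 := by
    simp [Cfsg.Lie.zornMul, Cfsg.Lie.cross3]; ring
  have c7 : Cfsg.Lie.zornMul e e 7 = (e 4 * e 1 + e 5 * e 2 + e 6 * e 3) + e 7 * e 7 := by
    simp [Cfsg.Lie.zornMul, Cfsg.Lie.dot3]
  constructor
  · rintro ⟨h, hne0, hne1⟩
    have h0 := congrFun h 0; rw [c0] at h0
    have h1 := congrFun h 1; rw [c1] at h1
    have h2 := congrFun h 2; rw [c2] at h2
    have h3 := congrFun h 3; rw [c3] at h3
    have h4 := congrFun h 4; rw [c4] at h4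
    have h5 := congrFun h 5; rw [c5] at h5
    have h6 := congrFun h 6; rw [c6] at h6
    have h7 := congrFun h 7; rw [c7] at h7
    by_cases hs : e 0 + e 7 = 1
    · refine ⟨hs, ?_⟩
      linear_combination h0 - e 0 * hs
    · exfalso
      have hs' : e 0 + e 7 - 1 ≠ 0 := sub_ne_zero.2 hs
      have kz : ∀ x : F, (e 0 + e 7) * x = x → x = 0 := by
        intro x hx
        have : (e 0 + e 7 - 1) * x = 0 := by linear_combination hx
        exact (mul_eq_zero.1 this).resolve_left hs'
      have z1 := kz _ h1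
      have z2 := kz _ h2
      have z3 := kz _ h3
      have z4 := kz _ h4
      have z5 := kz _ h5
      have z6 := kz _ h6
      have ha : e 0 * (e 0 - 1) = 0 := by
        rw [z1, z2, z3] at h0; linear_combination h0
      have hb : e 7 * (e 7 - 1) = 0 := by
        rw [z1, z2, z3] at h7; linear_combination h7
      rcases mul_eq_zero.1 ha with a0 | a1 <;> rcases mul_eq_zero.1 hb with b0 | b1
      · apply hne0
        funext i
        fin_cases i <;> simp [a0, z1, z2, z3, z4, z5, z6, b0]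
      · exact hs (by rw [a0, sub_eq_zero.1 b1]; ring)
      · exact hs (by rw [sub_eq_zero.1 a1, b0]; ring)
      · apply hne1
        funext i
        fin_cases i <;> simp [one8, sub_eq_zero.1 a1, z1, z2, z3, z4, z5, z6, sub_eq_zero.1 b1]
  · rintro ⟨hs, hd⟩
    refine ⟨?_, ?_, ?_⟩
    · funext i
      fin_cases i
      · show Cfsg.Lie.zornMul e e 0 = e 0
        rw [c0]; linear_combination hd + e 0 * hs
      · show Cfsg.Lie.zornMul e e 1 = e 1
        rw [c1, hs, one_mul]
      · show Cfsg.Lie.zornMul e e 2 = e 2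
        rw [c2, hs, one_mul]
      · show Cfsg.Lie.zornMul e e 3 = e 3
        rw [c3, hs, one_mul]
      · show Cfsg.Lie.zornMul e e 4 = e 4
        rw [c4, hs, one_mul]
      · show Cfsg.Lie.zornMul e e 5 = e 5
        rw [c5, hs, one_mul]
      · show Cfsg.Lie.zornMul e e 6 = e 6
        rw [c6, hs, one_mul]
      · show Cfsg.Lie.zornMul e e 7 = e 7
        rw [c7]; linear_combination hd + e 7 * hs
    · intro h; rw [h] at hs; simp at hs
    · intro h; rw [h] at hs; simp [one8] at hs

theorem fiber_card [Fintype F] [DecidableEq F] (a : Fin 3 → F) (ha : a ≠ 0) (c : F) :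
    (∑ b : Fin 3 → F, if a ⬝ᵥ b = c then 1 else 0) = Fintype.card F ^ 2 := by
  classical
  let φ : (Fin 3 → F) →+ F :=
    { toFun := fun b => a ⬝ᵥ b, map_zero' := dotProduct_zero a, map_add' := dotProduct_add a }
  have hsurj : ∀ c : F, c ∈ Set.range φ := by
    intro c
    obtain ⟨i, hi⟩ : ∃ i, a i ≠ 0 := by
      by_contra h
      exact ha (funext fun i => by by_contra h'; exact h ⟨i, h'⟩)
    refine ⟨Pi.single i (c / a i), ?_⟩
    show a ⬝ᵥ Pi.single i (c / a i) = c
    rw [dotProduct_single]; field_simp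
  have heq : ∀ c : F, (Finset.univ.filter (fun b => φ b = c)).card
      = (Finset.univ.filter (fun b => φ b = 0)).card :=
    fun c => AddMonoidHom.card_fiber_eq_of_mem_range φ (hsurj c) (hsurj 0)
  have htot : ∑ c : F, (Finset.univ.filter (fun b : Fin 3 → F => φ b = c)).card
      = Fintype.card (Fin 3 → F) := by
    rw [← Finset.card_univ (α := Fin 3 → F)]
    exact (Finset.card_eq_sum_card_fiberwise (f := φ) (s := Finset.univ) (t := Finset.univ)
      (fun _ _ => Finset.mem_coe.2 (Finset.mem_univ _))).symm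
  simp_rw [heq] at htot
  rw [Finset.sum_const, Finset.card_univ, smul_eq_mul, Fintype.card_fun, Fintype.card_fin] at htot
  have hq : 0 < Fintype.card F := Fintype.card_pos
  have hN : (Finset.univ.filter (fun b : Fin 3 → F => φ b = 0)).card = Fintype.card F ^ 2 := by
    apply Nat.eq_of_mul_eq_mul_left hq
    rw [htot]; ring
  rw [← hN, ← heq c, Finset.card_filter]
  rfl

theorem sum_a [Fintype F] [DecidableEq F] (c : F) :
    (∑ a : Fin 3 → F, ∑ b : Fin 3 → F, if a ⬝ᵥ b = c then 1 else 0)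
      = (Fintype.card F ^ 3 - 1) * Fintype.card F ^ 2
        + (if c = 0 then Fintype.card F ^ 3 else 0) := by
  rw [← Finset.add_sum_erase Finset.univ _ (Finset.mem_univ (0 : Fin 3 → F))]
  have h0 : (∑ b : Fin 3 → F, if (0 : Fin 3 → F) ⬝ᵥ b = c then 1 else 0)
      = if c = 0 then Fintype.card F ^ 3 else 0 := by
    simp only [zero_dotProduct]
    by_cases hc : c = 0
    · simp [hc]
    · simp [hc, Ne.symm hc]
  have h1 : ∑ a ∈ Finset.univ.erase (0 : Fin 3 → F),
      (∑ b : Fin 3 → F, if a ⬝ᵥ b = c then 1 else 0)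
      = (Fintype.card F ^ 3 - 1) * Fintype.card F ^ 2 := by
    rw [Finset.sum_congr rfl (fun a ha => fiber_card a (Finset.ne_of_mem_erase ha) c),
      Finset.sum_const, Finset.card_erase_of_mem (Finset.mem_univ _), Finset.card_univ,
      Fintype.card_fun, Fintype.card_fin, smul_eq_mul]
  rw [h0, h1, add_comm]

/-- C1 of S4632 (helper42): the number of idempotents `≠ 0, 1` of the Zorn algebra over `F_q`
is `q^3 (q^3 + 1)`. -/
theorem idem_card {F : Type*} [Field F] [Fintype F] :
    Nat.card {e : Fin 8 → F // IsIdem F e} = Fintype.card F ^ 3 * (Fintype.card F ^ 3 + 1) := by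
  classical
  let T := {p : F × (Fin 3 → F) × (Fin 3 → F) // p.2.1 ⬝ᵥ p.2.2 = p.1 * (1 - p.1)}
  have hequiv : {e : Fin 8 → F // IsIdem F e} ≃ T :=
    { toFun := fun e => ⟨(e.1 0, ![e.1 1, e.1 2, e.1 3], ![e.1 4, e.1 5, e.1 6]), by
        obtain ⟨hs, hd⟩ := (isIdem_iff e.1).1 e.2
        simp only [dotProduct, Fin.sum_univ_three]
        simp
        linear_combination hd + e.1 0 * hs⟩
      invFun := fun p => ⟨![p.1.1, p.1.2.1 0, p.1.2.1 1, p.1.2.1 2, p.1.2.2 0, p.1.2.2 1,
          p.1.2.2 2, 1 - p.1.1], by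
        rw [isIdem_iff]
        have := p.2
        simp only [dotProduct, Fin.sum_univ_three] at this
        refine ⟨by simp, ?_⟩
        simpa using this⟩
      left_inv := fun e => by
        obtain ⟨hs, hd⟩ := (isIdem_iff e.1).1 e.2
        apply Subtype.ext
        funext i
        fin_cases i <;> simp
        linear_combination (-1 : F) * hs
      right_inv := fun p => by
        apply Subtype.ext
        refine Prod.ext rfl (Prod.ext ?_ ?_)
        · funext i; fin_cases i <;> rfl
        · funext i; fin_cases i <;> rfl }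
  rw [Nat.card_congr hequiv, Nat.card_eq_fintype_card, Fintype.card_subtype, Finset.card_filter,
    Fintype.sum_prod_type]
  simp_rw [Fintype.sum_prod_type]
  simp_rw [sum_a]
  rw [Finset.sum_add_distrib, Finset.sum_const, Finset.card_univ, smul_eq_mul, Finset.sum_ite,
    Finset.sum_const_zero, add_zero, Finset.sum_const, smul_eq_mul]
  have hfil : Finset.filter (fun α : F => α * (1 - α) = 0) Finset.univ = {0, 1} := by
    ext α
    simp only [Finset.mem_filter, Finset.mem_univ, true_and, Finset.mem_insert,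
      Finset.mem_singleton, mul_eq_zero, sub_eq_zero]
    constructor
    · rintro (h | h)
      · exact Or.inl h
      · exact Or.inr h.symm
    · rintro (h | h)
      · exact Or.inl h
      · exact Or.inr h.symm
  rw [hfil, Finset.card_pair zero_ne_one]
  have hq : 1 ≤ Fintype.card F ^ 3 := Nat.one_le_pow _ _ Fintype.card_pos
  obtain ⟨k, hk⟩ : ∃ k, Fintype.card F ^ 3 = k + 1 := ⟨Fintype.card F ^ 3 - 1, by omega⟩
  have e1 : Fintype.card F * ((Fintype.card F ^ 3 - 1) * Fintype.card F ^ 2)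
      = (Fintype.card F ^ 3 - 1) * Fintype.card F ^ 3 := by ring
  rw [e1, hk, Nat.add_sub_cancel]
  ring

end Cfsg.Agent.Lib.Helper20.IdemCard
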