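import Mathlib
import Cfsg.Agent.Lib.Lead.MaxStmt

/-!
# S2245 piece CYC: in degree `2 ^ k + 1` a Sylow 2-subgroup fixes a point and is transitive
on the others
-/

set_option autoImplicit false

namespace Cfsg.Agent.Lib.Helper20.MaxCYC

open Equiv MulAction Cfsg.Agent.Lib.Lead.MaxStmt Cfsg.Agent.Lib.Lead.SylTwoSym
open scoped Pointwise

theorem main : Cfsg.Agent.Lib.Lead.MaxStmt.Cyc := by
  intro Ω _ _ Q k hk hcard
  have h2k : 2 ≤ 2 ^ k := by
    calc 2 = 2 ^ 1 := rfl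
      _ ≤ 2 ^ k := Nat.pow_le_pow_right (by norm_num) hk
  obtain ⟨c0, hc0⟩ : ∃ g : Perm Ω, g.cycleType = {2 ^ k} := by
    rw [Equiv.Perm.exists_with_cycleType_iff]
    refine ⟨by simp [hcard], ?_⟩
    intro a ha
    rw [Multiset.mem_singleton] at ha
    rw [ha]; exact h2k
  have hord0 : orderOf c0 = 2 ^ k := by
    rw [← Equiv.Perm.lcm_cycleType, hc0, Multiset.lcm_singleton]; simp
  have hP0 : IsPGroup 2 (Subgroup.zpowers c0) :=
    IsPGroup.of_card (n := k) (by rw [Nat.card_zpowers, hord0])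
  obtain ⟨Q', hQ'⟩ := hP0.exists_le_sylow
  obtain ⟨g, hg⟩ := MulAction.exists_smul_eq (Perm Ω) Q' Q
  have hcQ : g * c0 * g⁻¹ ∈ (Q : Subgroup (Perm Ω)) := by
    rw [← hg]
    have h1 : c0 ∈ (Q' : Subgroup (Perm Ω)) := hQ' (Subgroup.mem_zpowers c0)
    rw [Sylow.smul_def, Sylow.pointwise_smul_def]
    exact Subgroup.smul_mem_pointwise_smul c0 (MulAut.conj g) _ h1
  obtain ⟨c, hc⟩ : ∃ c, c = g * c0 * g⁻¹ := ⟨_, rfl⟩
  rw [← hc] at hcQ
  have hct : c.cycleType = {2 ^ k} := by rw [hc, Equiv.Perm.cycleType_conj, hc0]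
  have hcyc : c.IsCycle := by rw [← Equiv.Perm.card_cycleType_eq_one, hct]; simp
  have hsupp : c.support.card = 2 ^ k := by rw [← Equiv.Perm.sum_cycleType, hct]; simp
  obtain ⟨u, -, hu⟩ : ∃ u ∈ (Finset.univ : Finset Ω), u ∉ c.support :=
    Finset.exists_mem_notMem_of_card_lt_card (by rw [Finset.card_univ, hsupp, hcard]; omega)
  have hall : ∀ p, p ≠ u → p ∈ c.support := by
    intro p hp
    by_contra hps
    have h1 : (insert u (insert p c.support)).card = 2 ^ k + 2 := by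
      rw [Finset.card_insert_of_notMem, Finset.card_insert_of_notMem hps, hsupp]
      simp only [Finset.mem_insert, not_or]
      exact ⟨Ne.symm hp, hu⟩
    have h2 := Finset.card_le_univ (insert u (insert p c.support))
    rw [h1, hcard] at h2
    omega
  have htrans : ∀ p q, p ≠ u → q ≠ u → ∃ g ∈ (Q : Subgroup (Perm Ω)), g p = q := by
    intro p q hp hq
    obtain ⟨i, hi⟩ := hcyc.exists_zpow_eq (Equiv.Perm.mem_support.mp (hall p hp))
      (Equiv.Perm.mem_support.mp (hall q hq))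
    exact ⟨c ^ i, Subgroup.zpow_mem _ hcQ i, hi⟩
  refine ⟨u, ?_, htrans⟩
  by_contra hfix
  have hex : ∃ g ∈ (Q : Subgroup (Perm Ω)), g u ≠ u := by
    by_contra h
    exact hfix (fun g hg => by by_contra h'; exact h ⟨g, hg, h'⟩)
  obtain ⟨g1, hg1, hg1u⟩ := hex
  have horb : MulAction.orbit (↥(Q : Subgroup (Perm Ω))) u = Set.univ := by
    ext y
    simp only [Set.mem_univ, iff_true]
    by_cases hy : y = u
    · rw [hy]; exact MulAction.mem_orbit_self u
    · obtain ⟨h, hh, hhy⟩ := htrans (g1 u) y hg1u hy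
      exact ⟨⟨h * g1, Subgroup.mul_mem _ hh hg1⟩, by simpa [Subgroup.smul_def] using hhy⟩
  obtain ⟨n, hn⟩ := Q.isPGroup'.card_orbit u
  rw [horb, Nat.card_coe_set_eq, Set.ncard_univ, Nat.card_eq_fintype_card, hcard] at hn
  have h2k' : 2 ∣ 2 ^ k := dvd_pow_self 2 (by omega)
  rcases Nat.eq_zero_or_pos n with hn0 | hn0
  · rw [hn0] at hn
    omega
  · have : 2 ∣ 2 ^ n := dvd_pow_self 2 (by omega)
    omega

end Cfsg.Agent.Lib.Helper20.MaxCYC
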