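import Mathlib
import Cfsg.Agent.Lib.Lead.MaxStmt

/-!
# S2245 piece TCI: a 3-cycle from double transpositions of the pairing
-/

set_option autoImplicit false

namespace Cfsg.Agent.Lib.Helper20.MaxTCI

open Equiv MulAction Cfsg.Agent.Lib.Lead.MaxStmt Cfsg.Agent.Lib.Lead.SylTwoSym
open scoped Pointwise

theorem exists_avoid {Ω : Type} [DecidableEq Ω] [Fintype Ω] (l : List Ω)
    (h : l.length < Fintype.card Ω) : ∃ q, q ∉ l := by
  have h1 : l.toFinset.card < (Finset.univ : Finset Ω).card := by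
    rw [Finset.card_univ]
    exact lt_of_le_of_lt (List.toFinset_card_le l) h
  obtain ⟨q, -, hq⟩ := Finset.exists_mem_notMem_of_card_lt_card h1
  exact ⟨q, fun hq' => hq (List.mem_toFinset.mpr hq')⟩

theorem generic (hTCS : ThreeCycleSq) {Ω : Type} [DecidableEq Ω] [Fintype Ω]
    (M : Subgroup (Perm Ω)) (ι : Ω → Ω) (u : Ω)
    (hinv : ∀ x, ι (ι x) = x) (hfix : ∀ x, ι x = x ↔ x = u)
    (hM : ∀ p q, p ≠ u → q ≠ u → q ≠ p → q ≠ ι p → swap p (ι p) * swap q (ι q) ∈ M)
    (z c d₁ d₂ q : Ω) (hz : z ≠ u)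
    (hzc : z ≠ c) (hzd₁ : z ≠ d₁) (hzd₂ : z ≠ d₂) (hcd₁ : c ≠ d₁) (hcd₂ : c ≠ d₂) (hd : d₁ ≠ d₂)
    (hzc' : ι z ≠ c) (hzd₁' : ι z ≠ d₁) (hzd₂' : ι z ≠ d₂)
    (hqu : q ≠ u) (hqz : q ≠ z) (hqz' : q ≠ ι z) (hqc : q ≠ c) (hqd₁ : q ≠ d₁) (hqd₂ : q ≠ d₂)
    (hqc' : ι q ≠ c) (hqd₁' : ι q ≠ d₁) (hqd₂' : ι q ≠ d₂)
    (ht2 : swap z c * swap d₁ d₂ ∈ M) : ∃ g ∈ M, g.IsThreeCycle := by
  have hinj : ∀ x y, ι x = ι y → x = y := fun x y h => by rw [← hinv x, ← hinv y, h]
  have hne : ∀ x, x ≠ u → ι x ≠ x := fun x hx h => hx ((hfix x).mp h)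
  have ht1 : swap z (ι z) * swap q (ι q) ∈ M := hM z q hz hqu hqz hqz'
  refine ⟨((swap z (ι z) * swap q (ι q)) * (swap z c * swap d₁ d₂)) ^ 2,
    M.pow_mem (M.mul_mem ht1 ht2) 2, ?_⟩
  apply hTCS Ω z (ι z) q (ι q) c d₁ d₂
  have e1 : z ≠ ι z := (hne z hz).symm
  have e2 : z ≠ q := Ne.symm hqz
  have e3 : z ≠ ι q := fun h => hqz' (by rw [h, hinv])
  have e7 : ι z ≠ q := Ne.symm hqz'
  have e8 : ι z ≠ ι q := fun h => hqz (hinj _ _ h).symm
  have e12 : q ≠ ι q := (hne q hqu).symm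
  simp only [List.nodup_cons, List.mem_cons, List.not_mem_nil, or_false, not_or, List.nodup_nil,
    and_true, not_false_eq_true]
  tauto

theorem main : Cfsg.Agent.Lib.Lead.MaxStmt.ThreeCycleIn := by
  intro hTCS Ω _ _ M ι u hinv hfix hcard hM hm
  obtain ⟨m, hmM, hmu⟩ := hm
  have hinj : ∀ x y, ι x = ι y → x = y := fun x y h => by rw [← hinv x, ← hinv y, h]
  have hne : ∀ x, x ≠ u → ι x ≠ x := fun x hx h => hx ((hfix x).mp h)
  have hιu : ι u = u := (hfix u).mpr rfl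
  have hne' : ∀ x, x ≠ u → ι x ≠ u := fun x hx h => hx (by rw [← hinv x, h, hιu])
  obtain ⟨w, hw⟩ : ∃ w, w = m⁻¹ u := ⟨_, rfl⟩
  have hmw : m w = u := by rw [hw]; simp
  have hwu : w ≠ u := fun h => hmu (by rw [h] at hmw; exact hmw)
  obtain ⟨q0, hq0⟩ := exists_avoid [u, w, ι w] (by simp only [List.length_cons, List.length_nil]; omega)
  simp only [List.mem_cons, List.not_mem_nil, or_false, not_or] at hq0
  obtain ⟨hq0u, hq0w, hq0w'⟩ := hq0
  have ht0 : swap w (ι w) * swap q0 (ι q0) ∈ M := hM w q0 hwu hq0u hq0w hq0w'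
  have ht2 : swap u (m (ι w)) * swap (m q0) (m (ι q0)) ∈ M := by
    have h1 : m * (swap w (ι w) * swap q0 (ι q0)) * m⁻¹ ∈ M :=
      M.mul_mem (M.mul_mem hmM ht0) (M.inv_mem hmM)
    have h2 : m * (swap w (ι w) * swap q0 (ι q0)) * m⁻¹
        = swap (m w) (m (ι w)) * swap (m q0) (m (ι q0)) := by
      rw [Equiv.swap_apply_apply, Equiv.swap_apply_apply]; group
    rw [h2, hmw] at h1
    exact h1
  obtain ⟨c, hc⟩ : ∃ c, c = m (ι w) := ⟨_, rfl⟩
  obtain ⟨d, hd⟩ : ∃ d, d = m q0 := ⟨_, rfl⟩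
  obtain ⟨e, he⟩ : ∃ e, e = m (ι q0) := ⟨_, rfl⟩
  rw [← hc, ← hd, ← he] at ht2
  have hcu : c ≠ u := by
    rw [hc, ← hmw]; exact fun h => hne w hwu (m.injective h)
  have hdu : d ≠ u := by
    rw [hd, ← hmw]; exact fun h => hq0w (m.injective h)
  have heu : e ≠ u := by
    rw [he, ← hmw]; exact fun h => hq0w' (by rw [← m.injective h, hinv])
  have hcd : c ≠ d := by
    rw [hc, hd]; exact fun h => hq0w' (m.injective h).symm
  have hce : c ≠ e := by
    rw [hc, he]; exact fun h => hq0w (hinj _ _ (m.injective h)).symm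
  have hde : d ≠ e := by
    rw [hd, he]; exact fun h => hne q0 hq0u (m.injective h).symm
  by_cases h1 : ι c = d
  · -- pivot e
    have h1' : ι d = c := by rw [← h1, hinv]
    obtain ⟨q, hq⟩ := exists_avoid [u, c, d, e, ι e]
      (by simp only [List.length_cons, List.length_nil]; omega)
    simp only [List.mem_cons, List.not_mem_nil, or_false, not_or] at hq
    obtain ⟨hqu, hqc, hqd, hqe, hqe'⟩ := hq
    have ht2' : swap e d * swap u c ∈ M := by
      have : swap e d * swap u c = swap u c * swap d e := by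
        rw [Equiv.swap_comm e d]
        exact ((Equiv.Perm.disjoint_swap_swap (by
          simp only [List.nodup_cons, List.mem_cons, List.not_mem_nil, or_false, not_or,
            List.nodup_nil, and_true, not_false_eq_true]
          exact ⟨⟨hde, hdu, Ne.symm hcd⟩, ⟨heu, Ne.symm hce⟩, Ne.symm hcu⟩)).commute).eq
      rw [this]; exact ht2
    exact generic hTCS M ι u hinv hfix hM e d u c q heu (Ne.symm hde) heu (Ne.symm hce) hdu
      (Ne.symm hcd) (Ne.symm hcu)
      (fun h => hce (by rw [← h1', ← h, hinv])) (hne' e heu)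
      (fun h => hde (by rw [← h1, ← h, hinv]))
      hqu hqe hqe' hqd hqu hqc
      (fun h => hqc (hinj _ _ (h.trans h1.symm))) (hne' q hqu)
      (fun h => hqd (by rw [← h1, ← h, hinv])) ht2'
  by_cases h2 : ι c = e
  · -- pivot d
    have h2' : ι e = c := by rw [← h2, hinv]
    obtain ⟨q, hq⟩ := exists_avoid [u, c, d, e, ι d]
      (by simp only [List.length_cons, List.length_nil]; omega)
    simp only [List.mem_cons, List.not_mem_nil, or_false, not_or] at hq
    obtain ⟨hqu, hqc, hqd, hqe, hqd'⟩ := hq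
    have ht2' : swap d e * swap u c ∈ M := by
      have : swap d e * swap u c = swap u c * swap d e := by
        exact ((Equiv.Perm.disjoint_swap_swap (by
          simp only [List.nodup_cons, List.mem_cons, List.not_mem_nil, or_false, not_or,
            List.nodup_nil, and_true, not_false_eq_true]
          exact ⟨⟨hde, hdu, Ne.symm hcd⟩, ⟨heu, Ne.symm hce⟩, Ne.symm hcu⟩)).commute).eq
      rw [this]; exact ht2
    exact generic hTCS M ι u hinv hfix hM d e u c q hdu hde hdu (Ne.symm hcd) heu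
      (Ne.symm hce) (Ne.symm hcu)
      (fun h => hcd (by rw [← h2', ← h, hinv])) (hne' d hdu)
      (fun h => hde (by rw [← h2, ← h, hinv]))
      hqu hqd hqd' hqe hqu hqc
      (fun h => hqc (hinj _ _ (h.trans h2.symm))) (hne' q hqu)
      (fun h => hqe (by rw [← h2, ← h, hinv])) ht2'
  · -- pivot c
    obtain ⟨q, hq⟩ := exists_avoid [u, c, ι c, d, e, ι d, ι e]
      (by simp only [List.length_cons, List.length_nil]; omega)
    simp only [List.mem_cons, List.not_mem_nil, or_false, not_or] at hq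
    obtain ⟨hqu, hqc, hqc', hqd, hqe, hqd', hqe'⟩ := hq
    have ht2' : swap c u * swap d e ∈ M := by
      rw [Equiv.swap_comm c u]; exact ht2
    exact generic hTCS M ι u hinv hfix hM c u d e q hcu hcu hcd hce (Ne.symm hdu)
      (Ne.symm heu) hde
      (hne' c hcu) h1 h2
      hqu hqc hqc' hqu hqd hqe
      (hne' q hqu) (fun h => hqd' (by rw [← h, hinv])) (fun h => hqe' (by rw [← h, hinv])) ht2'

end Cfsg.Agent.Lib.Helper20.MaxTCI
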