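import Mathlib
import Cfsg.Agent.Lib.Helper89.NCStmt

set_option autoImplicit false

namespace Cfsg.Agent.Lib.Helper20.NCARITH

theorem odd_dvd_two_pow {S : ℤ} {k : ℕ} (hS : Odd S) (h : S ∣ 2 ^ k) : S = 1 ∨ S = -1 := by
  have h1 : S.natAbs ∣ 2 ^ k := by
    have := Int.natAbs_dvd_natAbs.mpr h
    simpa [Int.natAbs_pow] using this
  obtain ⟨a, -, ha⟩ := (Nat.dvd_prime_pow Nat.prime_two).mp h1
  have hodd : Odd S.natAbs := Int.natAbs_odd.mpr hS
  rcases Nat.eq_zero_or_pos a with rfl | hpos
  · rw [pow_zero] at ha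
    have := Int.natAbs_eq_iff.mp ha
    simpa using this
  · exfalso
    rw [ha] at hodd
    exact (Nat.not_even_iff_odd.mpr hodd) (Nat.even_pow.mpr ⟨even_two, hpos.ne'⟩)

theorem geom_minus (p : ℤ) (hp : Odd p) (j : ℕ) :
    ∃ S : ℤ, Odd S ∧ p ^ (2 * j + 1) - 1 = (p - 1) * S := by
  induction j with
  | zero => exact ⟨1, odd_one, by ring⟩
  | succ j ih =>
    obtain ⟨S, hS, h⟩ := ih
    refine ⟨p ^ 2 * S + (p + 1), ?_, ?_⟩
    · have h1 : Odd (p ^ 2 * S) := (hp.pow).mul hS
      have h2 : Even (p + 1) := hp.add_one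
      exact h1.add_even h2
    · have e : p ^ (2 * (j + 1) + 1) = p ^ 2 * p ^ (2 * j + 1) := by ring
      rw [e]
      have h' : p ^ (2 * j + 1) = (p - 1) * S + 1 := by linarith
      rw [h']; ring

theorem geom_plus (p : ℤ) (hp : Odd p) (j : ℕ) :
    ∃ S : ℤ, Odd S ∧ p ^ (2 * j + 1) + 1 = (p + 1) * S := by
  induction j with
  | zero => exact ⟨1, odd_one, by ring⟩
  | succ j ih =>
    obtain ⟨S, hS, h⟩ := ih
    refine ⟨p ^ 2 * S - (p - 1), ?_, ?_⟩
    · have h1 : Odd (p ^ 2 * S) := (hp.pow).mul hS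
      have h2 : Even (p - 1) := hp.sub_odd odd_one
      exact h1.sub_even h2
    · have e : p ^ (2 * (j + 1) + 1) = p ^ 2 * p ^ (2 * j + 1) := by ring
      rw [e]
      have h' : p ^ (2 * j + 1) = (p + 1) * S - 1 := by linarith
      rw [h']; ring

theorem four_dvd_two_pow {a : ℕ} (ha : 2 ≤ a) : 4 ∣ 2 ^ a := by
  obtain ⟨c, rfl⟩ : ∃ c, a = c + 2 := ⟨a - 2, by omega⟩
  exact ⟨2 ^ c, by ring⟩

theorem main : Cfsg.Agent.Lib.Helper89.NCStmt.Arith := by
  intro q k hq hk
  obtain ⟨p, n, hp, hn, rfl⟩ := (isPrimePow_nat_iff q).mp hq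
  by_cases hn1 : n = 1
  · right; subst hn1; simpa using hp
  have hn2 : 2 ≤ n := by omega
  rcases hp.eq_two_or_odd' with rfl | hpo
  · exfalso
    have h4 : 4 ∣ 2 ^ n := four_dvd_two_pow hn2
    have hpos : 0 < 2 ^ n := Nat.pos_of_ne_zero (by positivity)
    rcases Nat.eq_zero_or_pos k with rfl | hk0
    · norm_num at hk
      omega
    · have h2 : 2 ∣ 2 ^ k := dvd_pow_self 2 hk0.ne'
      have hposk : 0 < 2 ^ k := Nat.pos_of_ne_zero (by positivity)
      rcases hk with hk | hk <;> omega
  · have hp3 : 3 ≤ p := by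
      have := hp.two_le
      rcases hpo with ⟨c, hc⟩
      omega
    rcases Nat.even_or_odd n with ⟨m, hm⟩ | ⟨j, hj⟩
    · have hm1 : 1 ≤ m := by omega
      obtain ⟨x, hx⟩ : ∃ x, x = p ^ m := ⟨_, rfl⟩
      have hxx : p ^ n = x * x := by rw [hm, pow_add, hx]
      have hxodd : Odd x := hx ▸ hpo.pow
      have hx3 : 3 ≤ x := by
        rw [hx]
        calc 3 ≤ p := hp3
          _ = p ^ 1 := (pow_one p).symm
          _ ≤ p ^ m := Nat.pow_le_pow_right (by omega) hm1
      have hxx9 : 9 ≤ x * x := by nlinarith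
      rw [hxx] at hk ⊢
      rcases hk with hk | hk
      · left
        have h1 : (x - 1) * (x + 1) = 2 ^ k := by
          obtain ⟨y, rfl⟩ : ∃ y, x = y + 1 := ⟨x - 1, by omega⟩
          simp only [Nat.add_sub_cancel]
          nlinarith [hk]
        obtain ⟨a, -, ha⟩ := (Nat.dvd_prime_pow Nat.prime_two).mp (Dvd.intro _ h1)
        obtain ⟨b, -, hb⟩ := (Nat.dvd_prime_pow Nat.prime_two).mp (Dvd.intro_left _ h1)
        have hab : 2 ^ b = 2 ^ a + 2 := by omega
        have ha1 : a = 1 := by
          by_contra hne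
          have ha2 : 2 ≤ a := by
            rcases Nat.lt_or_ge a 2 with h | h
            · interval_cases a
              · simp at ha; omega
              · exact absurd rfl hne
            · exact h
          have h4a : 4 ∣ 2 ^ a := four_dvd_two_pow ha2
          have hb2 : 2 ≤ b := by
            by_contra hb2
            have hposa : 0 < 2 ^ a := Nat.pos_of_ne_zero (by positivity)
            have : b = 0 ∨ b = 1 := by omega
            rcases this with rfl | rfl <;> simp at hab <;> omega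
          have h4b : 4 ∣ 2 ^ b := four_dvd_two_pow hb2
          omega
        subst ha1
        have : x = 3 := by simp at ha; omega
        rw [this]
      · exfalso
        obtain ⟨c, hc⟩ := hxodd
        have hmod : x * x % 4 = 1 := by
          have h13 : x % 4 = 1 ∨ x % 4 = 3 := by omega
          rcases h13 with h | h <;> rw [Nat.mul_mod, h]
        rcases Nat.lt_or_ge k 2 with hk2 | hk2
        · interval_cases k
          · simp at hk; omega
          · simp at hk; omega
        · have h4k : 4 ∣ 2 ^ k := four_dvd_two_pow hk2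
          have hposk : 0 < 2 ^ k := Nat.pos_of_ne_zero (by positivity)
          omega
    · exfalso
      have hj1 : 1 ≤ j := by omega
      have hpZ : Odd (p : ℤ) := by exact_mod_cast hpo
      have hp3Z : (3 : ℤ) ≤ p := by exact_mod_cast hp3
      have hposZ : (0 : ℤ) < (p : ℤ) ^ (2 * j + 1) := by positivity
      have h3 : p ^ 3 ≤ p ^ (2 * j + 1) := Nat.pow_le_pow_right (by omega) (by omega)
      have hp3' : p < p ^ 3 := by nlinarith [Nat.mul_le_mul hp3 hp3, sq_nonneg p]
      rw [hj] at hk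
      rcases hk with hk | hk
      · obtain ⟨S, hS, h⟩ := geom_minus p hpZ j
        have hkZ : ((p : ℤ) ^ (2 * j + 1)) = 2 ^ k + 1 := by exact_mod_cast hk
        have hdvd : S ∣ 2 ^ k := ⟨(p : ℤ) - 1, by linarith⟩
        rcases odd_dvd_two_pow hS hdvd with rfl | rfl
        · have e : (p : ℤ) ^ (2 * j + 1) = p := by linarith
          have e' : p ^ (2 * j + 1) = p := by exact_mod_cast e
          omega
        · linarith
      · obtain ⟨S, hS, h⟩ := geom_plus p hpZ j
        have hposk : 0 < 2 ^ k := Nat.pos_of_ne_zero (by positivity)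
        have hposn : 0 < p ^ (2 * j + 1) := Nat.pos_of_ne_zero (by positivity)
        have hk' : p ^ (2 * j + 1) + 1 = 2 ^ k := by omega
        have hkZ : ((p : ℤ) ^ (2 * j + 1)) + 1 = 2 ^ k := by exact_mod_cast hk'
        have hdvd : S ∣ 2 ^ k := ⟨(p : ℤ) + 1, by linarith⟩
        rcases odd_dvd_two_pow hS hdvd with rfl | rfl
        · have e : (p : ℤ) ^ (2 * j + 1) = p := by linarith
          have e' : p ^ (2 * j + 1) = p := by exact_mod_cast e
          omega
        · linarith

end Cfsg.Agent.Lib.Helper20.NCARITH
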