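import Mathlib
import Cfsg.Agent.Lib.Helper89.NCStmt
import Cfsg.Agent.S1230

set_option autoImplicit false

namespace Cfsg.Agent.Lib.Helper20.NCCASE4

universe u

theorem main : Cfsg.Agent.Lib.Helper89.NCStmt.Case4.{u} := by
  intro G _ _ _ hnab hInv hCIT S hS4
  classical
  haveI : Fact (Nat.Prime 2) := ⟨Nat.prime_two⟩
  have hSyl : ∀ Q : Sylow 2 G, Nat.card ↥(Q : Subgroup G) = 4 := by
    intro Q
    rw [← hS4, Sylow.card_eq_multiplicity Q, Sylow.card_eq_multiplicity S]
  have L : ∀ t : G, orderOf t = 2 → ∃ y : G, orderOf y = 2 ∧ y ≠ t ∧ y * t = t * y ∧ t * t = 1 ∧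
      y * y = 1 ∧
      ((Subgroup.centralizer ({t} : Set G) : Subgroup G) : Set G) = {1, t, y, t * y} := by
    intro t ht
    obtain ⟨y, hy, hyt, hc⟩ := hInv t ht
    have ht1 : t ≠ 1 := by rintro rfl; simp at ht
    have hy1 : y ≠ 1 := by rintro rfl; simp at hy
    have ht2 : t * t = 1 := by have := pow_orderOf_eq_one t; rwa [ht, pow_two] at this
    have hy2 : y * y = 1 := by have := pow_orderOf_eq_one y; rwa [hy, pow_two] at this
    refine ⟨y, hy, hyt, hc, ht2, hy2, ?_⟩
    have hP := hCIT t ht
    obtain ⟨Q, hQ⟩ := hP.exists_le_sylow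
    have hsub1 : ({1, t, y, t * y} : Set G) ⊆ (Subgroup.centralizer ({t} : Set G) : Set G) := by
      intro x hx
      simp only [Set.mem_insert_iff, Set.mem_singleton_iff] at hx
      rw [SetLike.mem_coe, Subgroup.mem_centralizer_iff]
      intro h hh
      rw [Set.mem_singleton_iff] at hh
      subst hh
      rcases hx with rfl | rfl | rfl | rfl
      · simp
      · rfl
      · exact hc.symm
      · rw [mul_assoc, hc]
    have hsub2 : (Subgroup.centralizer ({t} : Set G) : Set G) ⊆ ((Q : Subgroup G) : Set G) := hQ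
    have hcardQ : Set.ncard ((Q : Subgroup G) : Set G) = 4 := by
      rw [← hSyl Q]; exact (Nat.card_coe_set_eq _).symm
    have n1 : y ≠ t * y := by
      intro h; apply ht1
      calc t = t * y * y⁻¹ := by group
        _ = y * y⁻¹ := by rw [← h]
        _ = 1 := mul_inv_cancel y
    have n2 : t ≠ t * y := by
      intro h; apply hy1
      calc y = t⁻¹ * (t * y) := by group
        _ = t⁻¹ * t := by rw [← h]
        _ = 1 := inv_mul_cancel t
    have n3 : (1 : G) ≠ t * y := by
      intro h; apply hyt
      calc y = (t * t) * y := by rw [ht2, one_mul]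
        _ = t * (t * y) := by group
        _ = t := by rw [← h, mul_one]
    have hcard4 : Set.ncard ({1, t, y, t * y} : Set G) = 4 := by
      have e : ({1, t, y, t * y} : Set G) = ((({1, t, y, t * y} : Finset G)) : Set G) := by simp
      rw [e, Set.ncard_coe_finset]
      have c1 : ({t * y} : Finset G).card = 1 := Finset.card_singleton _
      have c2 : ({y, t * y} : Finset G).card = 2 := by
        rw [Finset.card_insert_of_notMem (by simpa using n1), c1]
      have c3 : ({t, y, t * y} : Finset G).card = 3 := by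
        rw [Finset.card_insert_of_notMem (by
          simp only [Finset.mem_insert, Finset.mem_singleton, not_or]
          exact ⟨fun h => hyt h.symm, n2⟩), c2]
      rw [Finset.card_insert_of_notMem (by
          simp only [Finset.mem_insert, Finset.mem_singleton, not_or]
          exact ⟨fun h => ht1 h.symm, fun h => hy1 h.symm, n3⟩), c3]
    have hfin : ((Q : Subgroup G) : Set G).Finite := Set.toFinite _
    have hEq : ({1, t, y, t * y} : Set G) = ((Q : Subgroup G) : Set G) :=
      Set.eq_of_subset_of_ncard_le (hsub1.trans hsub2) (by rw [hcardQ, hcard4]) hfin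
    exact Set.Subset.antisymm (by rw [hEq]; exact hsub2) hsub1
  have hC : ∀ t : G, orderOf t = 2 → IsMulCommutative ↥(Subgroup.centralizer ({t} : Set G)) ∧
      ∀ c ∈ Subgroup.centralizer ({t} : Set G), c ^ 2 = 1 := by
    intro t ht
    obtain ⟨y, hy, hyt, hc, ht2, hy2, hset⟩ := L t ht
    have hc' : ∀ x : G, y * (t * x) = t * (y * x) := by
      intro x; rw [← mul_assoc, hc, mul_assoc]
    have hmem : ∀ c ∈ Subgroup.centralizer ({t} : Set G), c = 1 ∨ c = t ∨ c = y ∨ c = t * y := by
      intro c hcm
      have : c ∈ ((Subgroup.centralizer ({t} : Set G) : Subgroup G) : Set G) := hcm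
      rw [hset] at this
      simpa using this
    constructor
    · refine ⟨⟨?_⟩⟩
      rintro ⟨a, ha⟩ ⟨b, hb⟩
      apply Subtype.ext
      show a * b = b * a
      rcases hmem a ha with h1 | h1 | h1 | h1 <;> rcases hmem b hb with h2 | h2 | h2 | h2 <;>
        rw [h1, h2] <;> simp only [mul_assoc, hc, hc', mul_one, one_mul]
    · intro c hcm
      rcases hmem c hcm with h1 | h1 | h1 | h1
      · rw [h1]; simp
      · rw [h1, pow_two]; exact ht2
      · rw [h1, pow_two]; exact hy2
      · rw [h1, pow_two]
        calc t * y * (t * y) = t * (y * t) * y := by group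
          _ = t * (t * y) * y := by rw [hc]
          _ = (t * t) * (y * y) := by group
          _ = 1 := by rw [ht2, hy2, one_mul]
  have hncyc : ¬ IsCyclic ↥(S : Subgroup G) := by
    intro hcyc
    obtain ⟨g, hg⟩ := hcyc.exists_generator
    have hog : orderOf g = 4 := by rw [orderOf_eq_card_of_forall_mem_zpowers hg, hS4]
    have hog' : orderOf (g : G) = 4 := by rw [← hog]; exact Subgroup.orderOf_coe g
    obtain ⟨u, hu⟩ : ∃ u : G, u = (g : G) ^ 2 := ⟨_, rfl⟩
    have hu2 : orderOf u = 2 := by
      apply orderOf_eq_prime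
      · rw [hu, ← pow_mul]
        have := pow_orderOf_eq_one (g : G)
        rwa [hog'] at this
      · rw [hu]
        intro h1
        have := orderOf_dvd_of_pow_eq_one h1
        rw [hog'] at this
        omega
    obtain ⟨_, hC2⟩ := hC u hu2
    have hgC : (g : G) ∈ Subgroup.centralizer ({u} : Set G) := by
      rw [Subgroup.mem_centralizer_iff]
      intro h hh
      rw [Set.mem_singleton_iff] at hh
      subst hh
      rw [hu, ← pow_succ, ← pow_succ']
    have h2 := hC2 _ hgC
    have := orderOf_dvd_of_pow_eq_one h2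
    rw [hog'] at this
    omega
  have hnn : ¬ (S : Subgroup G).Normal := by
    intro hn
    rcases hn.eq_bot_or_eq_top with h | h
    · rw [h] at hS4; simp at hS4
    · rw [h] at hS4
      have hG4 : Nat.card G = 2 ^ 2 := by
        rw [← Subgroup.card_top (G := G)]; exact hS4
      exact hnab (IsPGroup.isMulCommutative_of_card_eq_prime_sq hG4)
  obtain ⟨F, i1, i2, hF, hiso⟩ := Cfsg.Agent.S1230.result S hncyc hnn hC
  exact ⟨F, i1, i2, by rw [hF, hS4], hiso⟩

end Cfsg.Agent.Lib.Helper20.NCCASE4
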