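import Mathlib
import Cfsg.Agent.Lib.Helper89.NCStmt

set_option autoImplicit false

namespace Cfsg.Agent.Lib.Helper20.NCCITA

universe u

theorem main : Cfsg.Agent.Lib.Helper89.NCStmt.CitA.{u} := by
  intro G _ _ hNC u y h hu hy hyu hyu' hhu hh1 hodd hinv
  -- h has odd order, so h * h ≠ 1
  have hsq : h * h ≠ 1 := by
    intro h2
    have hd : orderOf h ∣ 2 := orderOf_dvd_of_pow_eq_one (by rw [pow_two]; exact h2)
    have h12 : orderOf h = 1 ∨ orderOf h = 2 := (Nat.dvd_prime Nat.prime_two).mp hd
    rcases h12 with h1 | h2'
    · exact hh1 (orderOf_eq_one_iff.mp h1)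
    · rw [h2'] at hodd; exact absurd hodd (by decide)
  -- y does not commute with h
  have hnc : y * h ≠ h * y := by
    intro hc
    apply hsq
    have : y * h * y⁻¹ = h := by rw [hc]; group
    rw [this] at hinv
    calc h * h = h * h⁻¹ := by rw [← hinv]
      _ = 1 := mul_inv_cancel h
  have hy2 : y * y = 1 := by
    have := pow_orderOf_eq_one y
    rw [hy, pow_two] at this
    exact this
  have hyinv : y⁻¹ = y := inv_eq_of_mul_eq_one_left hy2
  obtain ⟨H, hH⟩ : ∃ H : Subgroup G, H = Subgroup.closure {y, h} := ⟨_, rfl⟩
  have hyH : y ∈ H := hH ▸ Subgroup.subset_closure (by simp)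
  have hhH : h ∈ H := hH ▸ Subgroup.subset_closure (by simp)
  have hncyc : ¬ IsCyclic ↥H := by
    intro hcyc
    have hcomm : IsMulCommutative ↥H := hcyc.isMulCommutative
    have := hcomm.is_comm.comm ⟨y, hyH⟩ ⟨h, hhH⟩
    exact hnc (congrArg Subtype.val this)
  have hcen := hNC H hncyc
  have huC : u ∈ Subgroup.centralizer (H : Set G) := by
    rw [Subgroup.mem_centralizer_iff]
    intro g hg
    rw [hH] at hg
    induction hg using Subgroup.closure_induction with
    | mem x hx =>
      rcases hx with rfl | rfl
      · exact hyu'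
      · exact hhu
    | one => simp
    | mul a b _ _ ha hb => rw [mul_assoc, hb, ← mul_assoc, ha, mul_assoc]
    | inv a _ ha =>
      calc a⁻¹ * u = a⁻¹ * (u * a) * a⁻¹ := by group
        _ = a⁻¹ * (a * u) * a⁻¹ := by rw [ha]
        _ = u * a⁻¹ := by group
  have huH : u ∈ H := hcen huC
  -- structure of H: every element is in zpowers h or (zpowers h) * y
  have hnorm : ∀ a ∈ Subgroup.zpowers h, y * a * y ∈ Subgroup.zpowers h := by
    intro a ha
    obtain ⟨k, rfl⟩ := Subgroup.mem_zpowers_iff.mp ha
    have e : y * h ^ k * y = (y * h * y⁻¹) ^ k := by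
      rw [hyinv]
      have := map_zpow (MulAut.conj y) h k
      simp only [MulAut.conj_apply, hyinv] at this
      exact this
    rw [e, hinv]
    exact Subgroup.zpow_mem _ (Subgroup.inv_mem _ (Subgroup.mem_zpowers h)) k
  have hstruct : ∀ g ∈ H, g ∈ Subgroup.zpowers h ∨ g * y ∈ Subgroup.zpowers h := by
    intro g hg
    rw [hH] at hg
    induction hg using Subgroup.closure_induction with
    | mem x hx =>
      rcases hx with rfl | rfl
      · right; rw [hy2]; exact Subgroup.one_mem _
      · left; exact Subgroup.mem_zpowers _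
    | one => left; exact Subgroup.one_mem _
    | mul a b _ _ ha hb =>
      rcases ha with ha | ha <;> rcases hb with hb | hb
      · left; exact Subgroup.mul_mem _ ha hb
      · right; rw [mul_assoc]; exact Subgroup.mul_mem _ ha hb
      · right
        have e : a * b * y = (a * y) * (y * b * y) := by
          calc a * b * y = a * (y * y) * b * y := by rw [hy2, mul_one]
            _ = (a * y) * (y * b * y) := by group
        rw [e]
        exact Subgroup.mul_mem _ ha (hnorm b hb)
      · left
        have e : a * b = (a * y) * (y * (b * y) * y) := by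
          calc a * b = a * (y * y) * b * (y * y) := by rw [hy2, mul_one, mul_one]
            _ = (a * y) * (y * (b * y) * y) := by group
        rw [e]
        exact Subgroup.mul_mem _ ha (hnorm _ hb)
    | inv a _ ha =>
      rcases ha with ha | ha
      · left; exact Subgroup.inv_mem _ ha
      · right
        have e : a⁻¹ * y = y * (a * y)⁻¹ * y := by
          calc a⁻¹ * y = (y * y) * a⁻¹ * y := by rw [hy2, one_mul]
            _ = y * (y⁻¹)⁻¹ * a⁻¹ * y := by rw [inv_inv]
            _ = y * (a * y)⁻¹ * y := by rw [hyinv]; group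
        rw [e]
        exact hnorm _ (Subgroup.inv_mem _ ha)
  rcases hstruct u huH with hu1 | hu1
  · -- u ∈ zpowers h: order 2 divides odd order
    have hd : orderOf u ∣ orderOf h := orderOf_dvd_of_mem_zpowers hu1
    rw [hu] at hd
    rcases hodd with ⟨c, hc⟩
    omega
  · -- u * y ∈ zpowers h: commutes with h
    obtain ⟨k, hk⟩ := Subgroup.mem_zpowers_iff.mp hu1
    have hc : (u * y) * h = h * (u * y) := by
      rw [← hk]
      exact ((Commute.refl h).zpow_left k).eq
    apply hnc
    have : u * (y * h) = u * (h * y) := by
      calc u * (y * h) = (u * y) * h := by group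
        _ = h * (u * y) := hc
        _ = (h * u) * y := by group
        _ = (u * h) * y := by rw [hhu]
        _ = u * (h * y) := by group
    exact mul_left_cancel this

end Cfsg.Agent.Lib.Helper20.NCCITA
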