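import Mathlib
import Cfsg.Agent.Lib.Helper89.NCStmt
import Cfsg.Agent.S2429

set_option autoImplicit false

namespace Cfsg.Agent.Lib.Helper20.NCCNS

theorem main : Cfsg.Agent.Lib.Helper89.NCStmt.CNs := by
  intro F _ _ hodd c hc
  classical
  obtain ⟨T', hcyc, hcard, -, hcen, hconj, -, -, -⟩ := Cfsg.Agent.S2429.result (F := F) hodd
  obtain ⟨h, hh⟩ := hconj c hc
  have hv0 : (fun _ => 1 : Fin 2 → F) ≠ 0 := by
    intro h0
    have := congrFun h0 0
    simp at this
  have hne1 : ((h * c * h⁻¹ : Matrix.SpecialLinearGroup (Fin 2) F) : Matrix (Fin 2) (Fin 2) F) ≠ 1 := by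
    intro h1
    have h1' : h * c * h⁻¹ = 1 := by
      apply Subtype.ext
      exact h1
    have hc1 : c = 1 := by
      have e : c = h⁻¹ * (h * c * h⁻¹) * h := by group
      rw [e, h1']; group
    apply hc 1 (fun _ => 1) hv0
    rw [hc1]; simp
  have hne2 : ((h * c * h⁻¹ : Matrix.SpecialLinearGroup (Fin 2) F) : Matrix (Fin 2) (Fin 2) F) ≠ -1 := by
    intro h1
    have hcm : (c : Matrix (Fin 2) (Fin 2) F) = -1 := by
      have e : c = h⁻¹ * (h * c * h⁻¹) * h := by group
      have e2 : (c : Matrix (Fin 2) (Fin 2) F) =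
          ((h⁻¹ : Matrix.SpecialLinearGroup (Fin 2) F) : Matrix (Fin 2) (Fin 2) F) *
            ((h * c * h⁻¹ : Matrix.SpecialLinearGroup (Fin 2) F) : Matrix (Fin 2) (Fin 2) F) *
            (h : Matrix (Fin 2) (Fin 2) F) := by
        conv_lhs => rw [e]
        simp only [Matrix.SpecialLinearGroup.coe_mul]
      have e3 : ((h⁻¹ : Matrix.SpecialLinearGroup (Fin 2) F) : Matrix (Fin 2) (Fin 2) F) *
          (h : Matrix (Fin 2) (Fin 2) F) = 1 := by
        rw [← Matrix.SpecialLinearGroup.coe_mul, inv_mul_cancel]; rfl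
      rw [e2, h1, Matrix.mul_neg, Matrix.mul_one, Matrix.neg_mul, e3]
    apply hc (-1) (fun _ => 1) hv0
    rw [hcm, Matrix.neg_mulVec, Matrix.one_mulVec, neg_smul, one_smul]
  have hCg := hcen _ hh hne1 hne2
  have hEq : Subgroup.centralizer ({c} : Set (Matrix.SpecialLinearGroup (Fin 2) F)) =
      T'.map ((MulAut.conj h⁻¹ : MulAut (Matrix.SpecialLinearGroup (Fin 2) F)) :
        Matrix.SpecialLinearGroup (Fin 2) F →* Matrix.SpecialLinearGroup (Fin 2) F) := by
    ext x
    rw [Subgroup.mem_map]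
    constructor
    · intro hx
      rw [Subgroup.mem_centralizer_iff] at hx
      have hx' : c * x = x * c := hx c rfl
      refine ⟨h * x * h⁻¹, ?_, ?_⟩
      · rw [← hCg, Subgroup.mem_centralizer_iff]
        intro y hy
        rw [Set.mem_singleton_iff] at hy
        subst hy
        calc h * c * h⁻¹ * (h * x * h⁻¹) = h * (c * x) * h⁻¹ := by group
          _ = h * (x * c) * h⁻¹ := by rw [hx']
          _ = h * x * h⁻¹ * (h * c * h⁻¹) := by group
      · show (MulAut.conj h⁻¹) (h * x * h⁻¹) = x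
        rw [MulAut.conj_apply]; group
    · rintro ⟨y, hy, rfl⟩
      rw [← hCg, Subgroup.mem_centralizer_iff] at hy
      have hy' : h * c * h⁻¹ * y = y * (h * c * h⁻¹) := hy _ rfl
      rw [Subgroup.mem_centralizer_iff]
      intro z hz
      rw [Set.mem_singleton_iff] at hz
      subst hz
      show z * (MulAut.conj h⁻¹) y = (MulAut.conj h⁻¹) y * z
      rw [MulAut.conj_apply]
      calc z * (h⁻¹ * y * h⁻¹⁻¹) = h⁻¹ * (h * z * h⁻¹ * y) * h := by group
        _ = h⁻¹ * (y * (h * z * h⁻¹)) * h := by rw [hy']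
        _ = h⁻¹ * y * h⁻¹⁻¹ * z := by group
  have eqv : ↥T' ≃* ↥(Subgroup.centralizer ({c} : Set (Matrix.SpecialLinearGroup (Fin 2) F))) := by
    rw [hEq]
    exact MulEquiv.subgroupMap (MulAut.conj h⁻¹) T'
  exact ⟨eqv.isCyclic.mp hcyc, by rw [← hcard]; exact (Nat.card_congr eqv.toEquiv).symm⟩

end Cfsg.Agent.Lib.Helper20.NCCNS
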