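import Mathlib
import Cfsg.Agent.Lib.Helper89.NCStmt

set_option autoImplicit false

namespace Cfsg.Agent.Lib.Helper20.NCZSEMI

universe u

theorem main : Cfsg.Agent.Lib.Helper89.NCStmt.ZSemi.{u} := by
  intro G _ _ Q D hBSW g hg x hx hz
  obtain ⟨hcard, hcen, -, -, -⟩ := hBSW
  by_contra hx1
  apply hg
  obtain ⟨z, hzdef⟩ : ∃ z, z = g * x * g⁻¹ := ⟨_, rfl⟩
  rw [← hzdef] at hz
  obtain ⟨q, hq⟩ : ∃ q, q = Nat.card ↥Q := ⟨_, rfl⟩
  rw [← hq] at hcard
  have hqpos : 0 < q := hq ▸ Nat.card_pos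
  -- the order of z divides q
  have hzx : orderOf z = orderOf x := by
    rw [hzdef]
    have := orderOf_injective (MulAut.conj g).toMonoidHom (MulAut.conj g).injective x
    simpa using this
  have hxq : orderOf x ∣ q := by
    have h1 : orderOf (⟨x, hx⟩ : ↥Q) ∣ Nat.card ↥Q := orderOf_dvd_natCard _
    rw [Subgroup.orderOf_mk] at h1
    rw [hq]; exact h1
  -- the index of Q in its normalizer is prime to q
  obtain ⟨N, hN⟩ : ∃ N : Subgroup G, N = Subgroup.normalizer (Q : Set G) := ⟨_, rfl⟩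
  rw [← hN] at hz ⊢
  have hQN : Q ≤ N := hN ▸ Subgroup.le_normalizer
  haveI hnorm : (Q.subgroupOf N).Normal := by
    rw [hN]; exact Subgroup.normal_in_normalizer
  obtain ⟨m, hm⟩ : ∃ m, m = Nat.card (↥N ⧸ Q.subgroupOf N) := ⟨_, rfl⟩
  have hNcard : Nat.card ↥N = m * q := by
    rw [hm, hq, Subgroup.card_eq_card_quotient_mul_card_subgroup (Q.subgroupOf N)]
    congr 1
    exact Nat.card_congr (Subgroup.subgroupOfEquivOfLe hQN).toEquiv
  have hdvd : m * q ∣ q * ((q + 1) * (q - 1)) := by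
    rw [← hNcard, ← mul_assoc, ← hcard]
    exact Dvd.dvd.mul_left (Subgroup.card_subgroup_dvd_card N) 2
  have hdvd' : m ∣ (q + 1) * (q - 1) := by
    rw [mul_comm m q] at hdvd
    exact Nat.dvd_of_mul_dvd_mul_left hqpos hdvd
  have hcop : Nat.Coprime ((q + 1) * (q - 1)) q := by
    apply Nat.Coprime.mul_left
    · simp
    · obtain ⟨c, rfl⟩ : ∃ c, q = c + 1 := ⟨q - 1, by omega⟩
      simp
  have hcop' : Nat.Coprime m q := Nat.Coprime.coprime_dvd_left hdvd' hcop
  -- so z lies in Q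
  have hzQ : z ∈ Q := by
    have h1 : orderOf (QuotientGroup.mk' (Q.subgroupOf N) ⟨z, hz⟩) ∣ m := by
      rw [hm]; exact orderOf_dvd_natCard _
    have h2 : orderOf (QuotientGroup.mk' (Q.subgroupOf N) ⟨z, hz⟩) ∣ q := by
      refine (orderOf_map_dvd _ _).trans ?_
      rw [Subgroup.orderOf_mk, hzx]
      exact hxq
    have h3 : orderOf (QuotientGroup.mk' (Q.subgroupOf N) ⟨z, hz⟩) = 1 :=
      Nat.eq_one_of_dvd_coprimes hcop' h1 h2
    have h4 := orderOf_eq_one_iff.mp h3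
    rw [QuotientGroup.mk'_apply, QuotientGroup.eq_one_iff, Subgroup.mem_subgroupOf] at h4
    exact h4
  have hz1 : z ≠ 1 := by
    intro h1
    apply hx1
    rw [hzdef] at h1
    have : x = g⁻¹ * (g * x * g⁻¹) * g := by group
    rw [this, h1]; group
  have hCz := hcen z hzQ hz1
  have hCx := hcen x hx hx1
  rw [hN, Subgroup.mem_normalizer_iff]
  intro h
  have e1 : h ∈ Q ↔ x * h = h * x := by
    rw [← hCx, Subgroup.mem_centralizer_iff]
    simp
  have e2 : g * h * g⁻¹ ∈ Q ↔ z * (g * h * g⁻¹) = (g * h * g⁻¹) * z := by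
    rw [← hCz, Subgroup.mem_centralizer_iff]
    simp
  rw [e1, e2, hzdef]
  constructor
  · intro hc
    calc g * x * g⁻¹ * (g * h * g⁻¹) = g * (x * h) * g⁻¹ := by group
      _ = g * (h * x) * g⁻¹ := by rw [hc]
      _ = g * h * g⁻¹ * (g * x * g⁻¹) := by group
  · intro hc
    calc x * h = g⁻¹ * (g * x * g⁻¹ * (g * h * g⁻¹)) * g := by group
      _ = g⁻¹ * (g * h * g⁻¹ * (g * x * g⁻¹)) * g := by rw [hc]
      _ = h * x := by group

end Cfsg.Agent.Lib.Helper20.NCZSEMI
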