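import Mathlib
import Cfsg.Agent.Lib.Helper53.RUStmt

/-!
# S2522 piece DET: the child operator has the same determinant
-/

set_option autoImplicit false

namespace Cfsg.Agent.Lib.Helper20.RUDET

open Cfsg.Agent.Lib.Helper53.RUStmt

universe u v

theorem main : DetChildStmt.{u, v} := by
  intro K _ V _ _ _ g e φ he hge
  obtain ⟨ψ, hψ⟩ : ∃ ψ : Module.Dual K V, ψ = φ - φ ∘ₗ g := ⟨_, rfl⟩
  have hψe : ψ e = 0 := by
    rw [hψ, LinearMap.sub_apply, LinearMap.comp_apply, he, hge, sub_self]
  obtain ⟨T, hT⟩ : ∃ T : Module.End K V, T = g ∘ₗ LinearMap.transvection ψ e := ⟨_, rfl⟩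
  have hTapp : ∀ v, T v = g v + (φ v - φ (g v)) • g e := by
    intro v
    rw [hT, LinearMap.comp_apply, LinearMap.transvection.apply, map_add, map_smul, hψ,
      LinearMap.sub_apply, LinearMap.comp_apply]
  have hdetT : LinearMap.det T = LinearMap.det g := by
    rw [hT, LinearMap.det_comp, LinearMap.transvection.det, hψe, add_zero, mul_one]
  have hφT : ∀ v, φ (T v) = φ v := by
    intro v
    rw [hTapp, map_add, map_smul, hge, smul_eq_mul, mul_one]
    ring
  have hW : LinearMap.ker φ ≤ (LinearMap.ker φ).comap T := by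
    intro w hw
    rw [Submodule.mem_comap, LinearMap.mem_ker, hφT]
    exact LinearMap.mem_ker.mp hw
  have h1 := LinearMap.det_eq_det_mul_det (LinearMap.ker φ) T hW
  have h2 : T.restrict hW = child g e φ hge := by
    apply LinearMap.ext
    intro w
    apply Subtype.ext
    have hw0 : φ (w : V) = 0 := LinearMap.mem_ker.mp w.2
    rw [LinearMap.restrict_coe_apply, child_apply, hTapp, hw0, zero_sub, neg_smul,
      sub_eq_add_neg]
  have h3 : (LinearMap.ker φ).mapQ (LinearMap.ker φ) T hW = LinearMap.id := by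
    apply LinearMap.ext
    intro x
    obtain ⟨v, rfl⟩ := Submodule.Quotient.mk_surjective _ x
    rw [Submodule.mapQ_apply, LinearMap.id_apply, Submodule.Quotient.eq, LinearMap.mem_ker,
      map_sub, hφT, sub_self]
  rw [h2, h3, LinearMap.det_id, mul_one] at h1
  rw [← hdetT, h1]

end Cfsg.Agent.Lib.Helper20.RUDET
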