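import Mathlib
import Cfsg.Agent.Lib.Helper53.RUStmt

/-!
# S2522 piece NSC: the child operator is not a scalar `c ≠ 1`
-/

set_option autoImplicit false

namespace Cfsg.Agent.Lib.Helper20.RUNSC

open Cfsg.Agent.Lib.Helper53.RUStmt

universe u v

theorem span_le1 {K : Type u} [Field K] {V : Type v} [AddCommGroup V] [Module K V] (x : V) :
    Module.finrank K (Submodule.span K {x}) ≤ 1 := by
  by_cases hx : x = 0
  · rw [hx, Submodule.span_zero_singleton, finrank_bot]
    exact Nat.zero_le 1
  · rw [finrank_span_singleton hx]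

theorem main : NonScalarStmt.{u, v} := by
  intro K _ V _ _ _ hn g e φ he hge hAe hbad hdet c hc1 hch
  have hφ0 : φ ≠ 0 := by
    intro h
    rw [h, LinearMap.zero_apply] at he
    exact zero_ne_one he
  have hW : Module.finrank K (LinearMap.ker φ) + 1 = Module.finrank K V :=
    Module.Dual.finrank_ker_add_one_of_ne_zero hφ0
  have hcn : c ^ (Module.finrank K V - 1) = 1 := by
    have h1 : LinearMap.det (c • (1 : Module.End K (LinearMap.ker φ)))
        = c ^ Module.finrank K (LinearMap.ker φ) := by
      rw [LinearMap.det_smul, map_one, mul_one]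
    rw [← hch, hdet] at h1
    have h2 : Module.finrank K V - 1 = Module.finrank K (LinearMap.ker φ) := by omega
    rw [h2, ← h1]
  have hc0 : c ≠ 0 := by
    intro h0
    rw [h0, zero_pow (by omega)] at hcn
    exact zero_ne_one hcn
  have hw : ∀ w : V, φ w = 0 → g w - φ (g w) • g e = c • w := by
    intro w hw0
    have h1 := congrArg (fun f : Module.End K (LinearMap.ker φ) =>
      ((f ⟨w, LinearMap.mem_ker.mpr hw0⟩ : LinearMap.ker φ) : V)) hch
    simpa using h1
  have hdim : Module.finrank K V
      ≤ Module.finrank K (LinearMap.ker (g - c • (1 : Module.End K V))) + 2 := by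
    obtain ⟨h, hh⟩ : ∃ h : LinearMap.ker φ →ₗ[K] V,
        h = (g - c • (1 : Module.End K V)) ∘ₗ (LinearMap.ker φ).subtype := ⟨_, rfl⟩
    have happ : ∀ w : LinearMap.ker φ, h w = g (w : V) - c • (w : V) := by
      intro w
      rw [hh]
      rfl
    have hrn := LinearMap.finrank_range_add_finrank_ker h
    have hr1 : Module.finrank K (LinearMap.range h) ≤ 1 := by
      have hle : LinearMap.range h ≤ Submodule.span K {g e} := by
        rintro _ ⟨w, rfl⟩
        have h3 := hw (w : V) (LinearMap.mem_ker.mp w.2)
        have e1 : h w = φ (g (w : V)) • g e := by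
          rw [happ, ← h3]
          abel
        rw [e1]
        exact Submodule.smul_mem _ _ (Submodule.mem_span_singleton_self _)
      exact (Submodule.finrank_mono hle).trans (span_le1 _)
    have hk : Module.finrank K (LinearMap.ker h)
        ≤ Module.finrank K (LinearMap.ker (g - c • (1 : Module.End K V))) := by
      have hle : (LinearMap.ker h).map (LinearMap.ker φ).subtype
          ≤ LinearMap.ker (g - c • (1 : Module.End K V)) := by
        rintro _ ⟨w, hw', rfl⟩
        have h4 : h w = 0 := LinearMap.mem_ker.mp hw'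
        rw [happ] at h4
        rw [LinearMap.mem_ker]
        exact h4
      calc Module.finrank K (LinearMap.ker h)
          = Module.finrank K ((LinearMap.ker h).map (LinearMap.ker φ).subtype) :=
            (Submodule.finrank_map_subtype_eq _ _).symm
        _ ≤ _ := Submodule.finrank_mono hle
    omega
  obtain ⟨x, hx, hφx⟩ := hbad c hc1 hcn hdim
  obtain ⟨l, hl⟩ : ∃ l : K, l = (φ x)⁻¹ := ⟨_, rfl⟩
  have hlx : l * φ x = 1 := by rw [hl, inv_mul_cancel₀ hφx]
  have hw0 : φ (e - l • x) = 0 := by
    rw [map_sub, map_smul, he, smul_eq_mul, hlx, sub_self]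
  have h0 := hw (e - l • x) hw0
  have hg : g (e - l • x) = g e - l • c • x := by rw [map_sub, map_smul, hx]
  have hφg : φ (g (e - l • x)) = 1 - c := by
    rw [hg, map_sub, map_smul, map_smul, hge, smul_eq_mul, smul_eq_mul]
    have h5 : l * (c * φ x) = c := by rw [mul_comm c, ← mul_assoc, hlx, one_mul]
    rw [h5]
  rw [hφg, hg] at h0
  apply hAe
  have h1 : c • (g e - e) = 0 := by
    calc c • (g e - e) = (g e - l • c • x - (1 - c) • g e) - c • (e - l • x) := by module
      _ = 0 := by rw [h0, sub_self]
  rcases smul_eq_zero.mp h1 with h | h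
  · exact absurd h hc0
  · rw [LinearMap.sub_apply, Module.End.one_apply]
    exact h

end Cfsg.Agent.Lib.Helper20.RUNSC
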