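import Mathlib
import Cfsg.Agent.Lib.Helper53.RUStmt

/-!
# S2522 piece RANK: the child operator has `rank (child - 1) ≥ 2`
-/

set_option autoImplicit false

namespace Cfsg.Agent.Lib.Helper20.RURANK

open Cfsg.Agent.Lib.Helper53.RUStmt

universe u v

theorem span_le1 {K : Type u} [Field K] {V : Type v} [AddCommGroup V] [Module K V] (x : V) :
    Module.finrank K (Submodule.span K {x}) ≤ 1 := by
  by_cases hx : x = 0
  · rw [hx, Submodule.span_zero_singleton, finrank_bot]
    exact Nat.zero_le 1
  · rw [finrank_span_singleton hx]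

theorem main : RankStmt.{u, v} := by
  intro K _ V _ _ _ hn g hr e φ he hge H1 H2 H3
  obtain ⟨A, hA⟩ : ∃ A : Module.End K V, A = g - 1 := ⟨_, rfl⟩
  rw [← hA] at hr H1 H2 H3
  have hAapp : ∀ v, A v = g v - v := by
    intro v
    rw [hA]
    rfl
  have hφ0 : φ ≠ 0 := by
    intro h
    rw [h, LinearMap.zero_apply] at he
    exact zero_ne_one he
  have hW : Module.finrank K (LinearMap.ker φ) + 1 = Module.finrank K V :=
    Module.Dual.finrank_ker_add_one_of_ne_zero hφ0
  obtain ⟨Q, hQ⟩ : ∃ Q : Module.End K V, Q = LinearMap.id - φ.smulRight (g e) := ⟨_, rfl⟩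
  have hQapp : ∀ v, Q v = v - φ v • g e := by
    intro v
    rw [hQ]
    rfl
  obtain ⟨M, hM⟩ : ∃ M : LinearMap.ker φ →ₗ[K] V, M = A ∘ₗ (LinearMap.ker φ).subtype :=
    ⟨_, rfl⟩
  have hMapp : ∀ w : LinearMap.ker φ, M w = A (w : V) := by
    intro w
    rw [hM]
    rfl
  have hcomp : (LinearMap.ker φ).subtype ∘ₗ (child g e φ hge - 1) = Q ∘ₗ M := by
    apply LinearMap.ext
    intro w
    have hw0 : φ (w : V) = 0 := LinearMap.mem_ker.mp w.2
    rw [LinearMap.comp_apply, LinearMap.comp_apply, Submodule.subtype_apply,
      LinearMap.sub_apply, Module.End.one_apply, Submodule.coe_sub, child_apply, hQapp, hMapp,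
      hAapp, map_sub, hw0, sub_zero]
    abel
  have hrk : Module.finrank K (LinearMap.range (child g e φ hge - 1))
      = Module.finrank K ((LinearMap.range M).map Q) := by
    calc Module.finrank K (LinearMap.range (child g e φ hge - 1))
        = Module.finrank K ((LinearMap.range (child g e φ hge - 1)).map
            (LinearMap.ker φ).subtype) := (Submodule.finrank_map_subtype_eq _ _).symm
      _ = Module.finrank K (LinearMap.range
            ((LinearMap.ker φ).subtype ∘ₗ (child g e φ hge - 1))) := by
          rw [LinearMap.range_comp]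
      _ = Module.finrank K (LinearMap.range (Q ∘ₗ M)) := by rw [hcomp]
      _ = Module.finrank K ((LinearMap.range M).map Q) := by rw [LinearMap.range_comp]
  rw [hrk]
  have hrnM := LinearMap.finrank_range_add_finrank_ker M
  obtain ⟨U, hU⟩ : ∃ U : Submodule K V, U = LinearMap.range M := ⟨_, rfl⟩
  rw [← hU] at hrnM ⊢
  have hrnQ := LinearMap.finrank_range_add_finrank_ker (Q.domRestrict U)
  rw [LinearMap.range_domRestrict] at hrnQ
  have hker_le : Module.finrank K (LinearMap.ker (Q.domRestrict U)) ≤ 1 := by
    have hle : (LinearMap.ker (Q.domRestrict U)).map U.subtype ≤ Submodule.span K {g e} := by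
      rintro _ ⟨u, hu, rfl⟩
      have hu2 : Q.domRestrict U u = 0 := LinearMap.mem_ker.mp hu
      rw [LinearMap.domRestrict_apply, hQapp] at hu2
      have hu3 : (u : V) = φ (u : V) • g e := sub_eq_zero.mp hu2
      rw [Submodule.subtype_apply, hu3]
      exact Submodule.smul_mem _ _ (Submodule.mem_span_singleton_self _)
    calc Module.finrank K (LinearMap.ker (Q.domRestrict U))
        = Module.finrank K ((LinearMap.ker (Q.domRestrict U)).map U.subtype) :=
          (Submodule.finrank_map_subtype_eq _ _).symm
      _ ≤ Module.finrank K (Submodule.span K {g e}) := Submodule.finrank_mono hle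
      _ ≤ 1 := span_le1 _
  have hker_zero : ∀ U' : Submodule K V, g e ∉ U' →
      Module.finrank K (LinearMap.ker (Q.domRestrict U')) = 0 := by
    intro U' hgeU
    have hbot : LinearMap.ker (Q.domRestrict U') = ⊥ := by
      rw [LinearMap.ker_eq_bot']
      intro u hu
      rw [LinearMap.domRestrict_apply, hQapp] at hu
      have hu' : (u : V) = φ (u : V) • g e := sub_eq_zero.mp hu
      by_cases hφu : φ (u : V) = 0
      · have hu0 : (u : V) = 0 := by rw [hu', hφu, zero_smul]
        apply Subtype.ext
        rw [Submodule.coe_zero]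
        exact hu0
      · exfalso
        apply hgeU
        have hge' : g e = (φ (u : V))⁻¹ • (u : V) := by
          calc g e = (φ (u : V))⁻¹ • (φ (u : V) • g e) := by
                rw [smul_smul, inv_mul_cancel₀ hφu, one_smul]
            _ = (φ (u : V))⁻¹ • (u : V) := by rw [← hu']
        rw [hge']
        exact U'.smul_mem _ u.2
    rw [hbot, finrank_bot]
  by_cases hkA : LinearMap.ker A = ⊥
  · have hkM : LinearMap.ker M = ⊥ := by
      rw [LinearMap.ker_eq_bot']
      intro w hw
      rw [hMapp] at hw
      have hmem : (w : V) ∈ LinearMap.ker A := LinearMap.mem_ker.mpr hw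
      rw [hkA, Submodule.mem_bot] at hmem
      apply Subtype.ext
      rw [Submodule.coe_zero]
      exact hmem
    rw [hkM, finrank_bot, add_zero] at hrnM
    by_cases hn3 : Module.finrank K V = 3
    · have hgeU : g e ∉ U := by
        intro hmem
        rw [hU] at hmem
        obtain ⟨w, hw⟩ := hmem
        rw [hMapp] at hw
        exact H3 hkA hn3 (w : V) (LinearMap.mem_ker.mp w.2) hw.symm
      have h0 := hker_zero U hgeU
      omega
    · omega
  · obtain ⟨k, hk0, hφk⟩ := H1 hkA
    have hUA : U = LinearMap.range A := by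
      apply le_antisymm
      · rw [hU]
        rintro _ ⟨w, rfl⟩
        rw [hMapp]
        exact LinearMap.mem_range_self A _
      · rintro _ ⟨v, rfl⟩
        rw [hU]
        have hw0 : φ (v - (φ v / φ k) • k) = 0 := by
          rw [map_sub, map_smul, smul_eq_mul, div_mul_cancel₀ _ hφk, sub_self]
        refine ⟨⟨v - (φ v / φ k) • k, LinearMap.mem_ker.mpr hw0⟩, ?_⟩
        rw [hMapp]
        show A (v - (φ v / φ k) • k) = A v
        rw [map_sub, map_smul, hk0, smul_zero, sub_zero]
    rw [hUA] at hrnQ hker_le ⊢
    by_cases hr2 : Module.finrank K (LinearMap.range A) = 2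
    · have hgeU : g e ∉ LinearMap.range A := by
        intro hmem
        apply H2 hr2
        have he' : e = g e - A e := by
          rw [hAapp]
          abel
        rw [he']
        exact Submodule.sub_mem _ hmem (LinearMap.mem_range_self A e)
      have h0 := hker_zero _ hgeU
      omega
    · omega

end Cfsg.Agent.Lib.Helper20.RURANK
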