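import Mathlib
import Cfsg.Agent.Lib.Helper44.SMStmt

set_option autoImplicit false

namespace Cfsg.Agent.Lib.Helper20.SMALT

open Matrix

universe u

theorem main : Cfsg.Agent.Lib.Helper44.SMStmt.Darboux.{u} →
    Cfsg.Agent.Lib.Helper44.SMStmt.SympSimDet.{u} →
    Cfsg.Agent.Lib.Helper44.SMStmt.AltSimDet.{u} := by
  intro hDar hSPD F _ ι _ _ A D ν k h2 hA hAdet hν hcard hD
  obtain ⟨e, P, hP, hJ⟩ := hDar F ι A k h2 hA hAdet hcard
  have hPu : IsUnit P.det := isUnit_iff_ne_zero.mpr hP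
  have hPP : P * P⁻¹ = 1 := Matrix.mul_nonsing_inv P hPu
  have hPP' : P⁻¹ * P = 1 := Matrix.nonsing_inv_mul P hPu
  obtain ⟨D₁, hD₁⟩ : ∃ D₁, D₁ = P⁻¹ * D * P := ⟨_, rfl⟩
  have key : D₁ᵀ * (Pᵀ * A * P) * D₁ = ν • (Pᵀ * A * P) := by
    rw [hD₁]
    simp only [Matrix.transpose_mul]
    have hPT : (P⁻¹)ᵀ * Pᵀ = 1 := by rw [← Matrix.transpose_mul, hPP, Matrix.transpose_one]
    calc Pᵀ * (Dᵀ * (P⁻¹)ᵀ) * (Pᵀ * A * P) * (P⁻¹ * D * P)
        = Pᵀ * Dᵀ * ((P⁻¹)ᵀ * Pᵀ) * A * (P * P⁻¹) * D * P := by simp only [Matrix.mul_assoc]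
      _ = Pᵀ * (Dᵀ * A * D) * P := by
          rw [hPT, hPP]; simp only [Matrix.mul_one, Matrix.mul_assoc]
      _ = ν • (Pᵀ * A * P) := by
          rw [hD]; simp only [Matrix.mul_smul, Matrix.smul_mul, Matrix.mul_assoc]
  have key2 : (D₁.submatrix e.symm e.symm)ᵀ * Matrix.J (Fin k) F * (D₁.submatrix e.symm e.symm)
      = ν • Matrix.J (Fin k) F := by
    rw [← hJ, Matrix.transpose_submatrix, Matrix.submatrix_mul_equiv, Matrix.submatrix_mul_equiv,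
      key]
    rfl
  have h1 := hSPD F k _ ν hν key2
  rw [Matrix.det_submatrix_equiv_self, hD₁, Matrix.det_mul, Matrix.det_mul] at h1
  have h3 : (P⁻¹).det * P.det = 1 := by rw [← Matrix.det_mul, hPP', Matrix.det_one]
  rw [← h1]
  calc D.det = (P⁻¹).det * P.det * D.det := by rw [h3, one_mul]
    _ = (P⁻¹).det * D.det * P.det := by ring

end Cfsg.Agent.Lib.Helper20.SMALT
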