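import Mathlib
import Cfsg.Agent.Lib.Helper44.SMStmt

set_option autoImplicit false

namespace Cfsg.Agent.Lib.Helper20.SMSPD

open Matrix

universe u

theorem main : Cfsg.Agent.Lib.Helper44.SMStmt.SympSimDet.{u} := by
  intro F _ k D ν hν h
  classical
  obtain ⟨d, hd⟩ : ∃ d : Matrix (Fin k ⊕ Fin k) (Fin k ⊕ Fin k) F,
      d = Matrix.fromBlocks (ν⁻¹ • (1 : Matrix (Fin k) (Fin k) F)) 0 0 1 := ⟨_, rfl⟩
  have hdT : dᵀ = d := by
    rw [hd, Matrix.fromBlocks_transpose]; simp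
  have hdJd : d * Matrix.J (Fin k) F * d = ν⁻¹ • Matrix.J (Fin k) F := by
    rw [hd, Matrix.J, Matrix.fromBlocks_multiply, Matrix.fromBlocks_multiply,
      Matrix.fromBlocks_smul]
    simp
  have hM : D * d ∈ Matrix.symplecticGroup (Fin k) F := by
    rw [SymplecticGroup.mem_iff', Matrix.transpose_mul, hdT]
    calc d * Dᵀ * Matrix.J (Fin k) F * (D * d)
        = d * (Dᵀ * Matrix.J (Fin k) F * D) * d := by simp only [Matrix.mul_assoc]
      _ = d * (ν • Matrix.J (Fin k) F) * d := by rw [h]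
      _ = ν • (d * Matrix.J (Fin k) F * d) := by
          rw [Matrix.mul_smul, Matrix.smul_mul]
      _ = Matrix.J (Fin k) F := by rw [hdJd, smul_smul, mul_inv_cancel₀ hν, one_smul]
  have hdet := SymplecticGroup.det_eq_one hM
  rw [Matrix.det_mul] at hdet
  have hdd : d.det = (ν ^ k)⁻¹ := by
    rw [hd, Matrix.det_fromBlocks_zero₂₁, Matrix.det_smul, Matrix.det_one]
    simp
  rw [hdd] at hdet
  exact (mul_inv_eq_one₀ (pow_ne_zero k hν)).mp hdet

end Cfsg.Agent.Lib.Helper20.SMSPD
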