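import Mathlib
import Cfsg.Agent.Lib.Helper79.SNStmt
import Cfsg.Agent.Lib.CT.Kernel
import Cfsg.Agent.Lib.CT.Orth

set_option autoImplicit false

/-! S4931/SEP: the irreducible characters of `H ⧸ D` separate `D` from its complement. -/

namespace Cfsg.Agent.Lib.Helper20.SNSEP

open Cfsg Cfsg.Agent.Lib.Helper79.SNStmt

universe u

theorem main : Sep.{u} := by
  intro H _ _ D hD x hx
  haveI := hD
  have hx1 : ((x : H) : H ⧸ D) ≠ 1 := by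
    intro h
    exact hx ((QuotientGroup.eq_one_iff x).mp h)
  have hex : ∃ ψ : IrrCharacter (H ⧸ D), (ψ : H ⧸ D → ℂ) (x : H ⧸ D) ≠ (ψ : H ⧸ D → ℂ) 1 := by
    by_contra hcon
    push_neg at hcon
    have hc := Cfsg.Agent.Lib.CT.Orth.isConj_of_irr_eq ((x : H) : H ⧸ D) 1 hcon
    exact hx1 (isConj_one_left.mp hc)
  obtain ⟨ψ, hψ⟩ := hex
  refine ⟨⟨fun g : H => (ψ : H ⧸ D → ℂ) (g : H ⧸ D),
    Cfsg.Agent.Lib.CT.Kernel.isIrrCharacter_inflation D ψ.2⟩, fun d hd => ?_, ?_⟩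
  · show (ψ : H ⧸ D → ℂ) (d : H ⧸ D) = (ψ : H ⧸ D → ℂ) ((1 : H) : H ⧸ D)
    rw [(QuotientGroup.eq_one_iff d).mpr hd, QuotientGroup.mk_one]
  · show (ψ : H ⧸ D → ℂ) (x : H ⧸ D) ≠ (ψ : H ⧸ D → ℂ) ((1 : H) : H ⧸ D)
    rw [QuotientGroup.mk_one]
    exact hψ

end Cfsg.Agent.Lib.Helper20.SNSEP
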