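import Mathlib
import Cfsg.Agent.Lib.Helper79.SNStmt
import Cfsg.Agent.S0012
import Cfsg.Agent.S0081
import Cfsg.Agent.S0086

set_option autoImplicit false

/-! S4931/TATEK: Tate's theorem in the form needed: `Q ⊴ G` with `Q ∩ P ≤ P'` has a normal
`p`-complement `K`, normal in `G`, with `Q ≤ K P`. -/

namespace Cfsg.Agent.Lib.Helper20.SNTATEK

open Cfsg.Agent.Lib.Helper79.SNStmt

universe u

theorem main : TateK.{u} := by
  intro G _ _ p _ P Q hQ hQP
  haveI := hQ
  have hfr : Q ⊓ (P : Subgroup G) ≤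
      (frattini ↥(P : Subgroup G)).map (P : Subgroup G).subtype := by
    refine hQP.trans ?_
    rw [← Subgroup.map_subtype_commutator]
    exact Subgroup.map_mono (Cfsg.Agent.S0012.result p P.isPGroup').1
  obtain ⟨P₀, K₀, hK₀n, hK₀c⟩ := Cfsg.Agent.S0081.result P Q hfr
  haveI := hK₀n
  have hmem : ∀ x : ↥Q, x ∈ K₀ ↔ Nat.Coprime (orderOf x) p :=
    Cfsg.Agent.S0086.result P₀ K₀ hK₀c
  have hKmem : ∀ x : G, x ∈ K₀.map Q.subtype ↔ x ∈ Q ∧ Nat.Coprime (orderOf x) p := by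
    intro x
    constructor
    · rintro ⟨y, hy, rfl⟩
      refine ⟨y.2, ?_⟩
      have h := (hmem y).mp hy
      rw [← Subgroup.orderOf_coe] at h
      exact h
    · rintro ⟨hxQ, hx⟩
      refine ⟨⟨x, hxQ⟩, (hmem _).mpr ?_, rfl⟩
      rw [← Subgroup.orderOf_coe]
      exact hx
  have hKn : (K₀.map Q.subtype).Normal := by
    constructor
    intro k hk g
    rw [hKmem] at hk ⊢
    refine ⟨hQ.conj_mem k hk.1 g, ?_⟩
    have hord : orderOf (g * k * g⁻¹) = orderOf k := by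
      have := orderOf_injective (MulAut.conj g).toMonoidHom (MulAut.conj g).injective k
      simpa using this
    rw [hord]; exact hk.2
  haveI := hKn
  refine ⟨K₀.map Q.subtype, hKn, Subgroup.map_subtype_le _, ?_, ?_⟩
  · rw [eq_bot_iff]
    intro x hx
    obtain ⟨hxK, hxP⟩ := Subgroup.mem_inf.mp hx
    rw [Subgroup.mem_bot]
    have hcop := ((hKmem x).mp hxK).2
    obtain ⟨k, hk⟩ := P.isPGroup' ⟨x, hxP⟩
    have hk' : x ^ p ^ k = 1 := congrArg Subtype.val hk
    have hdvd : orderOf x ∣ p ^ k := orderOf_dvd_of_pow_eq_one hk'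
    have h1 : orderOf x = 1 := Nat.Coprime.eq_one_of_dvd (Nat.Coprime.pow_right k hcop) hdvd
    exact orderOf_eq_one_iff.mp h1
  · intro q hq
    have hpg : IsPGroup p
        ((Q.map (QuotientGroup.mk' (K₀.map Q.subtype)) : Subgroup (G ⧸ K₀.map Q.subtype))) := by
      rintro ⟨y, hy⟩
      obtain ⟨q', hq', rfl⟩ := hy
      obtain ⟨⟨k₀, s₀⟩, hks⟩ := hK₀c.2 ⟨q', hq'⟩
      obtain ⟨n, hn⟩ := P₀.isPGroup' ⟨s₀.1, s₀.2⟩
      refine ⟨n, ?_⟩
      apply Subtype.ext
      show (QuotientGroup.mk' (K₀.map Q.subtype) q') ^ p ^ n = 1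
      have hq'eq : q' = ((k₀.1 : ↥Q) : G) * ((s₀.1 : ↥Q) : G) := by
        have h := congrArg (fun z : ↥Q => (z : G)) hks
        exact h.symm
      have hk1 : QuotientGroup.mk' (K₀.map Q.subtype) ((k₀.1 : ↥Q) : G) = 1 := by
        rw [QuotientGroup.mk'_apply, QuotientGroup.eq_one_iff]
        exact ⟨k₀.1, k₀.2, rfl⟩
      have hs1 : (((s₀.1 : ↥Q) : G)) ^ p ^ n = 1 := by
        have h := congrArg (fun z : ↥(P₀ : Subgroup ↥Q) => ((z : ↥Q) : G)) hn
        exact h
      rw [hq'eq, map_mul, hk1, one_mul, ← map_pow, hs1, map_one]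
    haveI : (Q.map (QuotientGroup.mk' (K₀.map Q.subtype))).Normal :=
      Subgroup.Normal.map hQ _ (QuotientGroup.mk'_surjective _)
    have hle := hpg.le_sylow_of_normal
      (P.mapSurjective (QuotientGroup.mk'_surjective (K₀.map Q.subtype)))
    have hqm : QuotientGroup.mk' (K₀.map Q.subtype) q ∈
        Q.map (QuotientGroup.mk' (K₀.map Q.subtype)) := ⟨q, hq, rfl⟩
    obtain ⟨s, hs, hsq⟩ := hle hqm
    have hker : s⁻¹ * q ∈ K₀.map Q.subtype := by
      rw [← QuotientGroup.eq]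
      exact hsq
    have hqs : q = s * (s⁻¹ * q) := by group
    rw [hqs]
    exact mul_mem (Subgroup.mem_sup_right hs) (Subgroup.mem_sup_left hker)

end Cfsg.Agent.Lib.Helper20.SNTATEK
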