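-- helper20: Sidki pairs, minimal counterexample reduction (S3048). Part 1: basic tools.
import Mathlib
import Cfsg.Prelude.Def_Solvable
import Cfsg.Prelude.Def_Local
import Cfsg.Prelude.Def_Transfer
import Cfsg.Prelude.Def_SubgroupEmbedding

set_option autoImplicit false
set_option linter.unusedVariables false
set_option linter.unusedSectionVars false

namespace Cfsg.Agent.Lib.Helper20.Sidki1

universe u

section basics

variable {G : Type*} [Group G]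

theorem pCore_normal' (p : ℕ) : (Cfsg.pCore p G).Normal :=
  Subgroup.sSup_normal _ (fun _ h => h.1)

theorem pCore_le_sylow' (p : ℕ) (P : Sylow p G) : Cfsg.pCore p G ≤ (P : Subgroup G) := by
  apply sSup_le
  rintro N ⟨hN, hNp⟩
  have := hN
  exact hNp.le_sylow_of_normal P

theorem pCore_isPGroup' (p : ℕ) : IsPGroup p (Cfsg.pCore p G) := by
  obtain ⟨P⟩ := (inferInstance : Nonempty (Sylow p G))
  exact P.isPGroup'.to_le (pCore_le_sylow' p P)

theorem le_pCore' (p : ℕ) (N : Subgroup G) (hN : N.Normal) (hp : IsPGroup p N) :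
    N ≤ Cfsg.pCore p G :=
  le_sSup ⟨hN, hp⟩

theorem exists_ne_one_of_ne_bot {W : Subgroup G} (h : W ≠ ⊥) : ∃ w ∈ W, w ≠ 1 := by
  by_contra hcon
  apply h
  rw [Subgroup.eq_bot_iff_forall]
  intro x hx
  by_contra hx1
  exact hcon ⟨x, hx, hx1⟩

/-- `O_2(H)` as a subgroup of `G`. -/
abbrev O2of (H : Subgroup G) : Subgroup G := (Cfsg.pCore 2 ↥H).map H.subtype

theorem O2of_le (H : Subgroup G) : O2of H ≤ H := Subgroup.map_subtype_le _

theorem O2of_isPGroup (H : Subgroup G) : IsPGroup 2 (O2of H) :=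
  (pCore_isPGroup' 2).map H.subtype

theorem O2of_conj (H : Subgroup G) {a b : G} (ha : a ∈ H) (hb : b ∈ O2of H) :
    a * b * a⁻¹ ∈ O2of H := by
  obtain ⟨q, hq, rfl⟩ := Subgroup.mem_map.1 hb
  exact Subgroup.mem_map.2
    ⟨⟨a, ha⟩ * q * ⟨a, ha⟩⁻¹, (pCore_normal' 2).conj_mem q hq ⟨a, ha⟩, by simp⟩

theorem le_O2of (H B : Subgroup G) (hBH : B ≤ H) (hn : ∀ a ∈ H, ∀ b ∈ B, a * b * a⁻¹ ∈ B)
    (hB : IsPGroup 2 B) : B ≤ O2of H := by
  intro b hb
  have hN : (B.subgroupOf H).Normal := by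
    constructor
    intro n hn' g
    rw [Subgroup.mem_subgroupOf] at hn' ⊢
    simpa using hn g g.2 n hn'
  have hp : IsPGroup 2 (B.subgroupOf H) := hB.comap_subtype
  exact Subgroup.mem_map.2
    ⟨⟨b, hBH hb⟩, le_pCore' 2 _ hN hp (Subgroup.mem_subgroupOf.2 hb), rfl⟩

theorem O2of_conj_of_normalizes (H : Subgroup G) (g : G) (h1 : ∀ x ∈ H, g * x * g⁻¹ ∈ H)
    (h2 : ∀ x ∈ H, g⁻¹ * x * g ∈ H) {b : G} (hb : b ∈ O2of H) : g * b * g⁻¹ ∈ O2of H := by
  have key : (O2of H).map (MulAut.conj g).toMonoidHom ≤ O2of H := by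
    apply le_O2of
    · intro y hy
      obtain ⟨q, hq, rfl⟩ := Subgroup.mem_map.1 hy
      simp only [MulEquiv.coe_toMonoidHom, MulAut.conj_apply]
      exact h1 q (O2of_le H hq)
    · intro a ha y hy
      obtain ⟨q, hq, rfl⟩ := Subgroup.mem_map.1 hy
      refine Subgroup.mem_map.2
        ⟨(g⁻¹ * a * g) * q * (g⁻¹ * a * g)⁻¹, O2of_conj H (h2 a ha) hq, ?_⟩
      simp only [MulEquiv.coe_toMonoidHom, MulAut.conj_apply]
      group
    · exact (O2of_isPGroup H).map _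
  have hmem : (MulAut.conj g).toMonoidHom b ∈ (O2of H).map (MulAut.conj g).toMonoidHom :=
    Subgroup.mem_map_of_mem _ hb
  have := key hmem
  simpa using this

/-- `N` has no nontrivial normal 2-subgroup. -/
def NoO2 (N : Subgroup G) : Prop :=
  ∀ R : Subgroup G, R ≤ N → (∀ a ∈ N, ∀ b ∈ R, a * b * a⁻¹ ∈ R) → IsPGroup 2 R → R = ⊥

theorem noO2_top (hO : Cfsg.pCore 2 G = ⊥) : NoO2 (⊤ : Subgroup G) := by
  intro R _ hinv hR
  have hn : R.Normal := ⟨fun n hn g => hinv g (Subgroup.mem_top g) n hn⟩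
  have := le_pCore' 2 R hn hR
  rw [hO] at this
  exact le_bot_iff.1 this

theorem O2of_eq_bot {H : Subgroup G} (hH : NoO2 H) : O2of H = ⊥ :=
  hH _ (O2of_le H) (fun a ha b hb => O2of_conj H ha hb) (O2of_isPGroup H)

theorem NoO2.of_normal_in {N L : Subgroup G} (hN : NoO2 N) (hLN : L ≤ N)
    (hinv : ∀ a ∈ N, ∀ b ∈ L, a * b * a⁻¹ ∈ L) : NoO2 L := by
  intro R hRL hRinv hR
  have hQ : O2of L = ⊥ := by
    apply hN
    · exact (O2of_le L).trans hLN
    · intro a ha b hb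
      apply O2of_conj_of_normalizes L a (fun x hx => hinv a ha x hx) _ hb
      intro x hx
      have := hinv a⁻¹ (N.inv_mem ha) x hx
      simpa using this
    · exact O2of_isPGroup L
  have := le_O2of L R hRL hRinv hR
  rw [hQ] at this
  exact le_bot_iff.1 this

theorem noO2_of_normal (hO : Cfsg.pCore 2 G = ⊥) {N : Subgroup G} (hN : N.Normal) : NoO2 N :=
  (noO2_top hO).of_normal_in le_top (fun a _ b hb => hN.conj_mem b hb a)

theorem NoO2.involution_eq_one {N : Subgroup G} (hN : NoO2 N) {t : G} (ht : t ∈ N)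
    (ht2 : t ^ 2 = 1) (hc : ∀ a ∈ N, a * t = t * a) : t = 1 := by
  have hR : Subgroup.zpowers t = ⊥ := by
    apply hN
    · exact (Subgroup.zpowers_le).2 ht
    · intro a ha b hb
      obtain ⟨k, rfl⟩ := Subgroup.mem_zpowers_iff.1 hb
      have h1 : Commute a t := hc a ha
      have h2 : a * t ^ k * a⁻¹ = t ^ k := by
        rw [(h1.zpow_right k).eq, mul_inv_cancel_right]
      rw [h2]
      exact Subgroup.zpow_mem_zpowers t k
    · rintro ⟨b, hb⟩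
      obtain ⟨k, rfl⟩ := Subgroup.mem_zpowers_iff.1 hb
      refine ⟨1, Subtype.ext ?_⟩
      show (t ^ k) ^ 2 ^ 1 = 1
      rw [pow_one, ← zpow_natCast, zpow_comm, zpow_natCast, ht2, one_zpow]
  have hmem : t ∈ Subgroup.zpowers t := Subgroup.mem_zpowers t
  rw [hR] at hmem
  exact Subgroup.mem_bot.1 hmem

theorem centralizes_of_mem_O2of (H N : Subgroup G) (hNH : N ≤ H)
    (hn : ∀ a ∈ H, ∀ n ∈ N, a * n * a⁻¹ ∈ N) (hNO : NoO2 N) {w : G} (hw : w ∈ O2of H) :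
    ∀ n ∈ N, w * n = n * w := by
  intro n hnN
  have hR : N ⊓ O2of H = ⊥ := by
    apply hNO
    · exact inf_le_left
    · intro a ha b hb
      exact Subgroup.mem_inf.2 ⟨N.mul_mem (N.mul_mem ha (Subgroup.mem_inf.1 hb).1) (N.inv_mem ha),
        O2of_conj H (hNH ha) (Subgroup.mem_inf.1 hb).2⟩
    · exact (O2of_isPGroup H).to_le inf_le_right
  have hc : n * w * n⁻¹ * w⁻¹ ∈ N ⊓ O2of H := by
    refine Subgroup.mem_inf.2 ⟨?_, ?_⟩
    · have h1 : w * n⁻¹ * w⁻¹ ∈ N := hn w (O2of_le H hw) n⁻¹ (N.inv_mem hnN)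
      have h2 : n * (w * n⁻¹ * w⁻¹) ∈ N := N.mul_mem hnN h1
      have e : n * w * n⁻¹ * w⁻¹ = n * (w * n⁻¹ * w⁻¹) := by group
      rw [e]; exact h2
    · exact (O2of H).mul_mem (O2of_conj H (hNH hnN) hw) ((O2of H).inv_mem hw)
  rw [hR, Subgroup.mem_bot] at hc
  have h3 : n * w * n⁻¹ * w⁻¹ * (w * n) = w * n := by rw [hc, one_mul]
  rw [← h3]; group

/-- The product `A * B` of a subgroup `A` with a subgroup `B` normalizing it. -/
def prodSub (A B : Subgroup G) (h : ∀ b ∈ B, ∀ a ∈ A, b * a * b⁻¹ ∈ A) : Subgroup G where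
  carrier := {g | ∃ a ∈ A, ∃ b ∈ B, g = a * b}
  mul_mem' := by
    rintro _ _ ⟨a, ha, b, hb, rfl⟩ ⟨a', ha', b', hb', rfl⟩
    refine ⟨a * (b * a' * b⁻¹), A.mul_mem ha (h b hb a' ha'), b * b', B.mul_mem hb hb', ?_⟩
    group
  one_mem' := ⟨1, A.one_mem, 1, B.one_mem, by simp⟩
  inv_mem' := by
    rintro _ ⟨a, ha, b, hb, rfl⟩
    refine ⟨b⁻¹ * a⁻¹ * b⁻¹⁻¹, h b⁻¹ (B.inv_mem hb) a⁻¹ (A.inv_mem ha), b⁻¹, B.inv_mem hb, ?_⟩
    group

theorem mem_prodSub {A B : Subgroup G} {h : ∀ b ∈ B, ∀ a ∈ A, b * a * b⁻¹ ∈ A} {g : G} :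
    g ∈ prodSub A B h ↔ ∃ a ∈ A, ∃ b ∈ B, g = a * b := Iff.rfl

theorem left_le_prodSub {A B : Subgroup G} (h : ∀ b ∈ B, ∀ a ∈ A, b * a * b⁻¹ ∈ A) :
    A ≤ prodSub A B h := fun a ha => ⟨a, ha, 1, B.one_mem, (mul_one a).symm⟩

theorem right_le_prodSub {A B : Subgroup G} (h : ∀ b ∈ B, ∀ a ∈ A, b * a * b⁻¹ ∈ A) :
    B ≤ prodSub A B h := fun b hb => ⟨1, A.one_mem, b, hb, (one_mul b).symm⟩

theorem closure_comm (S : Set G) (h : ∀ x ∈ S, ∀ y ∈ S, x * y = y * x) :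
    ∀ x ∈ Subgroup.closure S, ∀ y ∈ Subgroup.closure S, x * y = y * x := by
  have h1 : ∀ y ∈ S, ∀ x ∈ Subgroup.closure S, x * y = y * x := by
    intro y hy
    have hle : Subgroup.closure S ≤ Subgroup.centralizer {y} := by
      rw [Subgroup.closure_le]
      intro x hx
      rw [SetLike.mem_coe, Subgroup.mem_centralizer_singleton_iff]
      exact h x hx y hy
    intro x hx
    exact Subgroup.mem_centralizer_singleton_iff.1 (hle hx)
  intro x hx
  have hle : Subgroup.closure S ≤ Subgroup.centralizer {x} := by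
    rw [Subgroup.closure_le]
    intro y hy
    rw [SetLike.mem_coe, Subgroup.mem_centralizer_singleton_iff]
    exact (h1 y hy x hx).symm
  intro y hy
  exact (Subgroup.mem_centralizer_singleton_iff.1 (hle hy)).symm

theorem closure_le_comm (S : Set G) (u : G) (h : ∀ x ∈ S, u * x = x * u) :
    ∀ x ∈ Subgroup.closure S, u * x = x * u := by
  have hle : Subgroup.closure S ≤ Subgroup.centralizer {u} := by
    rw [Subgroup.closure_le]
    intro x hx
    rw [SetLike.mem_coe, Subgroup.mem_centralizer_singleton_iff]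
    exact (h x hx).symm
  intro x hx
  exact (Subgroup.mem_centralizer_singleton_iff.1 (hle hx)).symm

theorem mem_of_sq_mem_of_odd (N : Subgroup G) {n : G} (hodd : Odd (orderOf n))
    (h : n ^ 2 ∈ N) : n ∈ N := by
  obtain ⟨k, hk⟩ := hodd
  have e : 2 * (k + 1) = orderOf n + 1 := by omega
  have h1 : (n ^ 2) ^ (k + 1) = n := by
    rw [← pow_mul, e, pow_succ, pow_orderOf_eq_one, one_mul]
  have h2 := N.pow_mem h (k + 1)
  rwa [h1] at h2

theorem odd_orderOf_of_pow {y : G} {o : ℕ} (ho : Odd o) (h : y ^ o = 1) : Odd (orderOf y) :=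
  ho.of_dvd_nat (orderOf_dvd_of_pow_eq_one h)

theorem odd_orderOf_mul {a b : G} (hc : Commute a b) (ha : Odd (orderOf a))
    (hb : Odd (orderOf b)) : Odd (orderOf (a * b)) := by
  have h1 : (a * b) ^ (orderOf a * orderOf b) = 1 := by
    rw [hc.mul_pow, pow_mul, pow_orderOf_eq_one, one_pow, mul_comm (orderOf a), pow_mul,
      pow_orderOf_eq_one, one_pow, one_mul]
  exact odd_orderOf_of_pow (ha.mul hb) h1

theorem eq_one_of_sq_of_odd {h : G} (hodd : Odd (orderOf h)) (h2 : h ^ 2 = 1) : h = 1 := by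
  have hd : orderOf h ∣ 2 := orderOf_dvd_of_pow_eq_one h2
  rcases (Nat.dvd_prime Nat.prime_two).1 hd with h1 | h1
  · exact orderOf_eq_one_iff.1 h1
  · rw [h1] at hodd
    exact absurd hodd (by decide)

theorem centralizer_normal' {N : Subgroup G} (hN : N.Normal) :
    (Subgroup.centralizer (N : Set G)).Normal := by
  have := hN
  infer_instance

theorem isQuasisimple_of_simple' {H : Type*} [Group H] [IsSimpleGroup H]
    (hna : ∃ a b : H, a * b ≠ b * a) : Cfsg.IsQuasisimple H := by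
  obtain ⟨a, b, hab⟩ := hna
  have hc : Subgroup.center H = ⊥ := by
    rcases (inferInstance : (Subgroup.center H).Normal).eq_bot_or_eq_top with h | h
    · exact h
    · exfalso
      have ha : a ∈ Subgroup.center H := by rw [h]; trivial
      exact hab ((Subgroup.mem_center_iff.1 ha b).symm)
  refine ⟨?_, ?_⟩
  · rw [Group.isPerfect_def]
    rcases (inferInstance : (commutator H).Normal).eq_bot_or_eq_top with h | h
    · exfalso
      rw [commutator_eq_bot_iff_center_eq_top] at h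
      have ha : a ∈ Subgroup.center H := by rw [h]; trivial
      exact hab ((Subgroup.mem_center_iff.1 ha b).symm)
    · exact h
  · exact ((QuotientGroup.quotientMulEquivOfEq hc).trans QuotientGroup.quotientBot).isSimpleGroup

end basics

section finite

variable {G : Type*} [Group G] [Finite G]

theorem exists_min_subgroup (P : Subgroup G → Prop) (h : ∃ K, P K) :
    ∃ K, P K ∧ ∀ M, P M → M ≤ K → M = K := by
  classical
  have hex : ∃ n : ℕ, ∃ K : Subgroup G, P K ∧ Nat.card K = n := by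
    obtain ⟨K, hK⟩ := h
    exact ⟨_, K, hK, rfl⟩
  obtain ⟨K, hK, hcard⟩ := Nat.find_spec hex
  refine ⟨K, hK, fun M hM hMK => ?_⟩
  have h1 : Nat.find hex ≤ Nat.card M := Nat.find_min' hex ⟨M, hM, rfl⟩
  exact Subgroup.eq_of_le_of_card_ge hMK (by omega)

theorem odd_orderOf_of_no_involution {n : G} (h : ∀ k : ℕ, (n ^ k) ^ 2 = 1 → n ^ k = 1) :
    Odd (orderOf n) := by
  by_contra hne
  obtain ⟨k, hk⟩ := Nat.not_odd_iff_even.1 hne
  have hpos : 0 < orderOf n := orderOf_pos n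
  have h1 : (n ^ k) ^ 2 = 1 := by
    rw [← pow_mul]
    have e : k * 2 = orderOf n := by omega
    rw [e, pow_orderOf_eq_one]
  have h2 : orderOf n ∣ k := orderOf_dvd_of_pow_eq_one (h k h1)
  have h3 : orderOf n ≤ k := Nat.le_of_dvd (by omega) h2
  omega

theorem exists_odd_of_noO2 {L : Subgroup G} (hL : NoO2 L) (hL1 : L ≠ ⊥) :
    ∃ x ∈ L, x ≠ 1 ∧ Odd (orderOf x) := by
  by_contra hcon
  have hp : IsPGroup 2 L := by
    rintro ⟨x, hx⟩
    obtain ⟨a, m, hm, ham⟩ := Nat.exists_eq_two_pow_mul_odd (orderOf_pos x).ne'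
    refine ⟨a, Subtype.ext ?_⟩
    show x ^ 2 ^ a = 1
    by_contra hne
    apply hcon
    refine ⟨x ^ 2 ^ a, L.pow_mem hx _, hne, ?_⟩
    have h1 : (x ^ 2 ^ a) ^ m = 1 := by rw [← pow_mul, ← ham, pow_orderOf_eq_one]
    exact odd_orderOf_of_pow hm h1
  exact hL1 (hL L le_rfl (fun a ha b hb => L.mul_mem (L.mul_mem ha hb) (L.inv_mem ha)) hp)

theorem NoO2.eq_one_of_nilpotent {X : Subgroup G} (hX : NoO2 X)
    (hnil : Group.IsNilpotent ↥X) {v : G} (hv : v ∈ X) (hv2 : v ^ 2 = 1) : v = 1 := by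
  have : Fact (Nat.Prime 2) := ⟨Nat.prime_two⟩
  have h2 : (⟨v, hv⟩ : ↥X) ^ 2 = 1 := Subtype.ext (by simpa using hv2)
  have hz : IsPGroup 2 (Subgroup.zpowers (⟨v, hv⟩ : ↥X)) := by
    rintro ⟨b, hb⟩
    obtain ⟨k, rfl⟩ := Subgroup.mem_zpowers_iff.1 hb
    refine ⟨1, Subtype.ext ?_⟩
    show ((⟨v, hv⟩ : ↥X) ^ k) ^ 2 ^ 1 = 1
    rw [pow_one, ← zpow_natCast, zpow_comm, zpow_natCast, h2, one_zpow]
  obtain ⟨Q, hQ⟩ := hz.exists_le_sylow
  have hQn : (Q : Subgroup ↥X).Normal :=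
    ((Group.isNilpotent_of_finite_tfae (G := ↥X)).out 0 3 rfl rfl).mp hnil 2 ⟨Nat.prime_two⟩ Q
  have hR : (Q : Subgroup ↥X).map X.subtype = ⊥ := by
    apply hX
    · exact Subgroup.map_subtype_le _
    · intro a ha y hy
      obtain ⟨q, hq, rfl⟩ := Subgroup.mem_map.1 hy
      exact Subgroup.mem_map.2
        ⟨⟨a, ha⟩ * q * ⟨a, ha⟩⁻¹, hQn.conj_mem q hq ⟨a, ha⟩, by simp⟩
    · exact Q.isPGroup'.map _
  have hvR : v ∈ (Q : Subgroup ↥X).map X.subtype :=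
    Subgroup.mem_map.2 ⟨⟨v, hv⟩, hQ (Subgroup.mem_zpowers _), rfl⟩
  rw [hR] at hvR
  exact Subgroup.mem_bot.1 hvR

theorem nilpotent_of_central_pow (X N : Subgroup G)
    (hNc : ∀ n ∈ N, ∀ g : G, g * n = n * g) (hX : ∀ x ∈ X, ∃ k : ℕ, x ^ 2 ^ k ∈ N) :
    Group.IsNilpotent ↥X := by
  have : Fact (Nat.Prime 2) := ⟨Nat.prime_two⟩
  have hp : IsPGroup 2 (↥X ⧸ Subgroup.center ↥X) := by
    intro q
    induction q using QuotientGroup.induction_on with
    | H x =>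
      obtain ⟨k, hk⟩ := hX x x.2
      refine ⟨k, ?_⟩
      rw [← QuotientGroup.mk_pow, QuotientGroup.eq_one_iff, Subgroup.mem_center_iff]
      intro g
      apply Subtype.ext
      simpa using hNc _ hk g
  have hnil : Group.IsNilpotent (↥X ⧸ Subgroup.center ↥X) := hp.isNilpotent
  exact Group.of_quotient_center_nilpotent hnil

/-- Lifting an inverted element of odd order from a quotient. -/
theorem odd_lift (N : Subgroup G) [N.Normal] (v h₀ : G) (hv2 : v ^ 2 = 1)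
    (hodd : Odd (orderOf (QuotientGroup.mk h₀ : G ⧸ N)))
    (hinv : (QuotientGroup.mk v : G ⧸ N) * QuotientGroup.mk h₀ * (QuotientGroup.mk v)⁻¹
      = (QuotientGroup.mk h₀)⁻¹) :
    ∃ h : G, Odd (orderOf h) ∧ v * h * v⁻¹ = h⁻¹ ∧
      (QuotientGroup.mk h : G ⧸ N) = QuotientGroup.mk h₀ := by
  have vv : v * v = 1 := by rw [← sq]; exact hv2
  have hvinv : v⁻¹ = v := inv_eq_of_mul_eq_one_right vv
  have vv2 : v⁻¹ * v⁻¹ = 1 := by rw [hvinv]; exact vv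
  obtain ⟨h2, hh2⟩ : ∃ h2 : G, h2 = h₀ * (v * h₀⁻¹ * v⁻¹) := ⟨_, rfl⟩
  have h2inv : v * h2 * v⁻¹ = h2⁻¹ := by
    rw [hh2]
    calc v * (h₀ * (v * h₀⁻¹ * v⁻¹)) * v⁻¹ = v * h₀ * v * h₀⁻¹ * (v⁻¹ * v⁻¹) := by group
      _ = v * h₀ * v⁻¹ * h₀⁻¹ := by rw [vv2, mul_one, hvinv]
      _ = (h₀ * (v * h₀⁻¹ * v⁻¹))⁻¹ := by group
  have hmk2 : (QuotientGroup.mk h2 : G ⧸ N) = (QuotientGroup.mk h₀) ^ 2 := by
    have e : (QuotientGroup.mk v : G ⧸ N) * (QuotientGroup.mk h₀)⁻¹ * (QuotientGroup.mk v)⁻¹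
        = QuotientGroup.mk h₀ := by
      calc (QuotientGroup.mk v : G ⧸ N) * (QuotientGroup.mk h₀)⁻¹ * (QuotientGroup.mk v)⁻¹
          = ((QuotientGroup.mk v : G ⧸ N) * QuotientGroup.mk h₀ * (QuotientGroup.mk v)⁻¹)⁻¹ := by
            group
        _ = QuotientGroup.mk h₀ := by rw [hinv, inv_inv]
    rw [hh2, QuotientGroup.mk_mul, QuotientGroup.mk_mul, QuotientGroup.mk_mul,
      QuotientGroup.mk_inv, QuotientGroup.mk_inv, e, sq]
  obtain ⟨a, m, hm, ham⟩ := Nat.exists_eq_two_pow_mul_odd (orderOf_pos h2).ne'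
  have h3m : (h2 ^ 2 ^ a) ^ m = 1 := by rw [← pow_mul, ← ham, pow_orderOf_eq_one]
  have h3odd : Odd (orderOf (h2 ^ 2 ^ a)) := odd_orderOf_of_pow hm h3m
  have hcop : Nat.Coprime (2 ^ (a + 1)) (orderOf (QuotientGroup.mk h₀ : G ⧸ N)) :=
    Nat.Coprime.pow_left _ (Nat.coprime_two_left.2 hodd)
  obtain ⟨s, hs⟩ := exists_pow_eq_self_of_coprime hcop
  have e2 : (2 : ℕ) ^ (a + 1) = 2 * 2 ^ a := pow_succ' 2 a
  rw [e2, pow_mul] at hs
  refine ⟨(h2 ^ 2 ^ a) ^ s, h3odd.of_dvd_nat (orderOf_pow_dvd s), ?_, ?_⟩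
  · rw [← pow_mul, ← conj_pow, h2inv, inv_pow]
  · rw [QuotientGroup.mk_pow, QuotientGroup.mk_pow, hmk2]
    exact hs

theorem sidki_quotient (V N : Subgroup G) [N.Normal] (hV2 : ∀ a ∈ V, a ^ 2 = 1)
    (hS : Cfsg.IsSidkiPair V) (hVN : ∀ v ∈ V, v ∈ N → v = 1) :
    Cfsg.IsSidkiPair (V.map (QuotientGroup.mk' N)) := by
  intro hb vb hvb hodd hinv
  obtain ⟨v, hv, rfl⟩ := Subgroup.mem_map.1 hvb
  obtain ⟨h₀, rfl⟩ := QuotientGroup.mk_surjective hb
  obtain ⟨h, hhodd, hhinv, hhmk⟩ := odd_lift N v h₀ (hV2 v hv) hodd hinv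
  obtain ⟨w, hw, hw1, hwc⟩ := hS h v hv hhodd hhinv
  refine ⟨QuotientGroup.mk' N w, Subgroup.mem_map_of_mem _ hw, ?_, ?_⟩
  · intro h0
    apply hw1
    apply hVN w hw
    exact (QuotientGroup.eq_one_iff w).1 h0
  · rw [← hhmk]
    show (QuotientGroup.mk w : G ⧸ N) * QuotientGroup.mk h = QuotientGroup.mk h * QuotientGroup.mk w
    rw [← QuotientGroup.mk_mul, ← QuotientGroup.mk_mul, hwc]

theorem comap_pow_mem (N : Subgroup G) [N.Normal] {x : G}
    (hx : x ∈ (Cfsg.pCore 2 (G ⧸ N)).comap (QuotientGroup.mk' N)) : ∃ k : ℕ, x ^ 2 ^ k ∈ N := by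
  have hx' : (QuotientGroup.mk' N) x ∈ Cfsg.pCore 2 (G ⧸ N) := Subgroup.mem_comap.1 hx
  obtain ⟨k, hk⟩ := pCore_isPGroup' (G := G ⧸ N) 2 ⟨_, hx'⟩
  refine ⟨k, ?_⟩
  have hk' := congrArg Subtype.val hk
  rw [← QuotientGroup.eq_one_iff]
  simpa using hk'

end finite

/-- The standing hypotheses. -/
structure Base {G : Type u} [Group G] [Finite G] (V : Subgroup G) : Prop where
  hVc : ∀ a ∈ V, ∀ b ∈ V, a * b = b * a
  hV2 : ∀ a ∈ V, a ^ 2 = 1
  hV1 : V ≠ ⊥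
  hS : Cfsg.IsSidkiPair V
  hminG : ∀ (H : Type u) [Group H] [Finite H] (W : Subgroup H), Nat.card H < Nat.card G →
    Cfsg.IsElementaryAbelian 2 W → W ≠ ⊥ → Cfsg.IsSidkiPair W → W ⊓ Cfsg.pCore 2 H ≠ ⊥

section main

variable {G : Type u} [Group G] [Finite G]

theorem Base.vinv {V : Subgroup G} (c : Base V) {v : G} (hv : v ∈ V) : v⁻¹ = v :=
  inv_eq_of_mul_eq_one_right (by rw [← sq]; exact c.hV2 v hv)

theorem Base.vv {V : Subgroup G} (c : Base V) {v : G} (hv : v ∈ V) : v * v = 1 := by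
  rw [← sq]; exact c.hV2 v hv

/-- Passing to a proper subgroup. -/
theorem Base.p2 {V : Subgroup G} (c : Base V) (H W : Subgroup G) (hH : H ≠ ⊤) (hWH : W ≤ H)
    (hWc : ∀ a ∈ W, ∀ b ∈ W, a * b = b * a) (hW2 : ∀ a ∈ W, a ^ 2 = 1) (hW1 : W ≠ ⊥)
    (hS : ∀ h ∈ H, ∀ v ∈ W, Odd (orderOf h) → v * h * v⁻¹ = h⁻¹ →
      ∃ w ∈ W, w ≠ 1 ∧ w * h = h * w) :
    ∃ w ∈ W, w ≠ 1 ∧ w ∈ O2of H := by
  have hcard : Nat.card ↥H < Nat.card G := by
    have h1 : Nat.card ↥H ≤ Nat.card G := Subgroup.card_le_card_group H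
    have h2 : Nat.card ↥H ≠ Nat.card G := fun h' => hH ((Subgroup.card_eq_iff_eq_top H).1 h')
    omega
  have hEA : Cfsg.IsElementaryAbelian 2 (W.subgroupOf H) := by
    refine ⟨⟨⟨fun a b => ?_⟩⟩, fun a ha => ?_⟩
    · apply Subtype.ext
      apply Subtype.ext
      exact hWc _ (Subgroup.mem_subgroupOf.1 a.2) _ (Subgroup.mem_subgroupOf.1 b.2)
    · apply Subtype.ext
      have := hW2 _ (Subgroup.mem_subgroupOf.1 ha)
      simpa using this
  have hne : W.subgroupOf H ≠ ⊥ := by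
    intro h0
    obtain ⟨w, hw, hw1⟩ := exists_ne_one_of_ne_bot hW1
    have hmem : (⟨w, hWH hw⟩ : ↥H) ∈ W.subgroupOf H := Subgroup.mem_subgroupOf.2 hw
    rw [h0, Subgroup.mem_bot] at hmem
    exact hw1 (congrArg Subtype.val hmem)
  have hSid : Cfsg.IsSidkiPair (W.subgroupOf H) := by
    intro h v hv hodd hinv
    have hodd' : Odd (orderOf (h : G)) := by rw [Subgroup.orderOf_coe]; exact hodd
    have hinv' : (v : G) * (h : G) * (v : G)⁻¹ = (h : G)⁻¹ := by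
      have := congrArg Subtype.val hinv
      simpa using this
    obtain ⟨w, hw, hw1, hwc⟩ := hS h h.2 v (Subgroup.mem_subgroupOf.1 hv) hodd' hinv'
    refine ⟨⟨w, hWH hw⟩, Subgroup.mem_subgroupOf.2 hw, ?_, ?_⟩
    · intro h0
      exact hw1 (congrArg Subtype.val h0)
    · apply Subtype.ext
      simpa using hwc
  have hres := c.hminG ↥H (W.subgroupOf H) hcard hEA hne hSid
  obtain ⟨x, hx, hx1⟩ := exists_ne_one_of_ne_bot hres
  refine ⟨x, Subgroup.mem_subgroupOf.1 (Subgroup.mem_inf.1 hx).1, ?_,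
    Subgroup.mem_map.2 ⟨x, (Subgroup.mem_inf.1 hx).2, rfl⟩⟩
  intro h0
  exact hx1 (Subtype.ext h0)

/-- Passing to a quotient. -/
theorem Base.quotient_step {V : Subgroup G} (c : Base V) (N : Subgroup G) [N.Normal]
    (hN1 : N ≠ ⊥) (hVN : ∀ v ∈ V, v ∈ N → v = 1) :
    ∃ v ∈ V, v ≠ 1 ∧ v ∈ (Cfsg.pCore 2 (G ⧸ N)).comap (QuotientGroup.mk' N) := by
  have hcard : Nat.card (G ⧸ N) < Nat.card G := by
    rw [Subgroup.card_eq_card_quotient_mul_card_subgroup N]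
    exact lt_mul_of_one_lt_right Nat.card_pos ((Subgroup.one_lt_card_iff_ne_bot N).2 hN1)
  have hEA : Cfsg.IsElementaryAbelian 2 (V.map (QuotientGroup.mk' N)) := by
    refine ⟨⟨⟨fun a b => ?_⟩⟩, fun a ha => ?_⟩
    · obtain ⟨a, ha⟩ := a
      obtain ⟨b, hb⟩ := b
      obtain ⟨a', ha', rfl⟩ := Subgroup.mem_map.1 ha
      obtain ⟨b', hb', rfl⟩ := Subgroup.mem_map.1 hb
      apply Subtype.ext
      show (QuotientGroup.mk' N) a' * (QuotientGroup.mk' N) b'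
        = (QuotientGroup.mk' N) b' * (QuotientGroup.mk' N) a'
      rw [← map_mul, ← map_mul, c.hVc a' ha' b' hb']
    · obtain ⟨a', ha', rfl⟩ := Subgroup.mem_map.1 ha
      rw [← map_pow, c.hV2 a' ha', map_one]
  obtain ⟨v₁, hv₁, hv₁1⟩ := exists_ne_one_of_ne_bot c.hV1
  have hne : V.map (QuotientGroup.mk' N) ≠ ⊥ := by
    intro h0
    have hmem : (QuotientGroup.mk' N) v₁ ∈ V.map (QuotientGroup.mk' N) :=
      Subgroup.mem_map_of_mem _ hv₁
    rw [h0, Subgroup.mem_bot] at hmem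
    exact hv₁1 (hVN v₁ hv₁ ((QuotientGroup.eq_one_iff v₁).1 hmem))
  have hSid := sidki_quotient V N c.hV2 c.hS hVN
  have hres := c.hminG (G ⧸ N) (V.map (QuotientGroup.mk' N)) hcard hEA hne hSid
  obtain ⟨x, hx, hx1⟩ := exists_ne_one_of_ne_bot hres
  obtain ⟨v, hv, rfl⟩ := Subgroup.mem_map.1 (Subgroup.mem_inf.1 hx).1
  refine ⟨v, hv, ?_, Subgroup.mem_comap.2 (Subgroup.mem_inf.1 hx).2⟩
  rintro rfl
  exact hx1 (map_one _)

/-- `O_2(G) = 1`. -/
theorem Base.pCore_eq_bot {V : Subgroup G} (c : Base V) (hVO : V ⊓ Cfsg.pCore 2 G = ⊥) :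
    Cfsg.pCore 2 G = ⊥ := by
  by_contra hO
  have := pCore_normal' (G := G) 2
  have hVN : ∀ v ∈ V, v ∈ Cfsg.pCore 2 G → v = 1 := by
    intro v hv hvO
    have hmem : v ∈ V ⊓ Cfsg.pCore 2 G := Subgroup.mem_inf.2 ⟨hv, hvO⟩
    rw [hVO] at hmem
    exact Subgroup.mem_bot.1 hmem
  obtain ⟨v, hv, hv1, hvX⟩ := c.quotient_step (Cfsg.pCore 2 G) hO hVN
  have hXn : ((Cfsg.pCore 2 (G ⧸ Cfsg.pCore 2 G)).comap
      (QuotientGroup.mk' (Cfsg.pCore 2 G))).Normal := (pCore_normal' 2).comap _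
  have hXp : IsPGroup 2 ((Cfsg.pCore 2 (G ⧸ Cfsg.pCore 2 G)).comap
      (QuotientGroup.mk' (Cfsg.pCore 2 G))) := by
    rintro ⟨x, hx⟩
    obtain ⟨k, hk⟩ := comap_pow_mem (Cfsg.pCore 2 G) hx
    obtain ⟨j, hj⟩ := pCore_isPGroup' (G := G) 2 ⟨_, hk⟩
    refine ⟨k + j, Subtype.ext ?_⟩
    have hj' : (x ^ 2 ^ k) ^ 2 ^ j = 1 := congrArg Subtype.val hj
    show x ^ 2 ^ (k + j) = 1
    rw [pow_add, pow_mul]
    exact hj'
  exact hv1 (hVN v hv (le_pCore' 2 _ hXn hXp hvX))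

/-- A normal subgroup containing `V` is everything. -/
theorem Base.p1 {V : Subgroup G} (c : Base V) (hO : Cfsg.pCore 2 G = ⊥) (M : Subgroup G)
    (hM : M.Normal) (hVM : V ≤ M) : M = ⊤ := by
  by_contra hne
  obtain ⟨w, hw, hw1, hwR⟩ := c.p2 M V hne hVM c.hVc c.hV2 c.hV1
    (fun h _ v hv hodd hinv => c.hS h v hv hodd hinv)
  rw [O2of_eq_bot (noO2_of_normal hO hM)] at hwR
  exact hw1 (Subgroup.mem_bot.1 hwR)

end main

end Cfsg.Agent.Lib.Helper20.Sidki1
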