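-- helper20: Sidki pairs (S3048). Part 2: G = N V for every nontrivial normal subgroup N.
import Mathlib
import Cfsg.Agent.Lib.Helper20.Sidki1

set_option autoImplicit false
set_option linter.unusedVariables false
set_option linter.unusedSectionVars false

namespace Cfsg.Agent.Lib.Helper20.Sidki2

open Cfsg.Agent.Lib.Helper20.Sidki1

universe u

variable {G : Type u} [Group G] [Finite G]

/-- Sub-case: `V` centralizes the normal subgroup `N`. -/
theorem central_case {V : Subgroup G} (c : Base V) (hO : Cfsg.pCore 2 G = ⊥)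
    (N : Subgroup G) (hNn : N.Normal) (hN1 : N ≠ ⊥)
    (hVK : ∀ v ∈ V, ∀ n ∈ N, v * n = n * v) : False := by
  have hKn : (Subgroup.centralizer (N : Set G)).Normal := centralizer_normal' hNn
  have hVle : V ≤ Subgroup.centralizer (N : Set G) := by
    intro v hv
    rw [Subgroup.mem_centralizer_iff]
    intro n hn
    exact (hVK v hv n hn).symm
  have hK := c.p1 hO _ hKn hVle
  have hNc : ∀ n ∈ N, ∀ g : G, g * n = n * g := by
    intro n hn g
    have hg : g ∈ Subgroup.centralizer (N : Set G) := by rw [hK]; exact Subgroup.mem_top g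
    exact ((Subgroup.mem_centralizer_iff.1 hg) n hn).symm
  have hT := noO2_top hO
  have hVN : ∀ v ∈ V, v ∈ N → v = 1 := by
    intro v hv hvN
    exact hT.involution_eq_one (Subgroup.mem_top v) (c.hV2 v hv) (fun a _ => hNc v hvN a)
  have := hNn
  obtain ⟨v, hv, hv1, hvX⟩ := c.quotient_step N hN1 hVN
  have hXn : ((Cfsg.pCore 2 (G ⧸ N)).comap (QuotientGroup.mk' N)).Normal :=
    (pCore_normal' 2).comap _
  have hXO := noO2_of_normal hO hXn
  have hnil := nilpotent_of_central_pow ((Cfsg.pCore 2 (G ⧸ N)).comap (QuotientGroup.mk' N)) N hNc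
    (fun x hx => comap_pow_mem N hx)
  exact hv1 (hXO.eq_one_of_nilpotent hnil hvX (c.hV2 v hv))

/-- Sub-case: `V` does not centralize `N`. -/
theorem noncentral_case {V : Subgroup G} (c : Base V) (hO : Cfsg.pCore 2 G = ⊥)
    (N : Subgroup G) (hNn : N.Normal)
    (hNV : ∀ b ∈ V, ∀ a ∈ N, b * a * b⁻¹ ∈ N) (hD : prodSub N V hNV ≠ ⊤)
    (u₀ : G) (hu₀V : u₀ ∈ V) (hu₀1 : u₀ ≠ 1) (hu₀c : ∀ n ∈ N, u₀ * n = n * u₀)
    (hK : Subgroup.centralizer (N : Set G) ≠ ⊤) : False := by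
  have hNO : NoO2 N := noO2_of_normal hO hNn
  have hKn : (Subgroup.centralizer (N : Set G)).Normal := centralizer_normal' hNn
  have hKO : NoO2 (Subgroup.centralizer (N : Set G)) := noO2_of_normal hO hKn
  have hKmem : ∀ {k : G}, k ∈ Subgroup.centralizer (N : Set G) → ∀ n ∈ N, n * k = k * n :=
    fun hk n hn => Subgroup.mem_centralizer_iff.1 hk n hn
  have hu₀K : u₀ ∈ Subgroup.centralizer (N : Set G) :=
    Subgroup.mem_centralizer_iff.2 (fun n hn => (hu₀c n hn).symm)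
  have hV₀1 : V ⊓ Subgroup.centralizer (N : Set G) ≠ ⊥ := by
    intro h0
    have hmem : u₀ ∈ V ⊓ Subgroup.centralizer (N : Set G) := Subgroup.mem_inf.2 ⟨hu₀V, hu₀K⟩
    rw [h0] at hmem
    exact hu₀1 (Subgroup.mem_bot.1 hmem)
  -- (K, V₀) is not a Sidki pair
  have hex : ∃ h ∈ Subgroup.centralizer (N : Set G),
      ∃ v₀ ∈ V ⊓ Subgroup.centralizer (N : Set G),
      Odd (orderOf h) ∧ v₀ * h * v₀⁻¹ = h⁻¹ ∧
      ∀ w ∈ V ⊓ Subgroup.centralizer (N : Set G), w * h = h * w → w = 1 := by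
    by_contra hcon
    have hSK : ∀ h ∈ Subgroup.centralizer (N : Set G),
        ∀ v ∈ V ⊓ Subgroup.centralizer (N : Set G),
        Odd (orderOf h) → v * h * v⁻¹ = h⁻¹ →
        ∃ w ∈ V ⊓ Subgroup.centralizer (N : Set G), w ≠ 1 ∧ w * h = h * w := by
      intro h hh v hv hodd hinv
      by_contra hcon2
      exact hcon ⟨h, hh, v, hv, hodd, hinv,
        fun w hw hwc => by_contra fun hw1 => hcon2 ⟨w, hw, hw1, hwc⟩⟩
    obtain ⟨w, hw, hw1, hwR⟩ := c.p2 _ (V ⊓ Subgroup.centralizer (N : Set G)) hK inf_le_right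
      (fun a ha b hb => c.hVc a (Subgroup.mem_inf.1 ha).1 b (Subgroup.mem_inf.1 hb).1)
      (fun a ha => c.hV2 a (Subgroup.mem_inf.1 ha).1) hV₀1 hSK
    rw [O2of_eq_bot hKO] at hwR
    exact hw1 (Subgroup.mem_bot.1 hwR)
  obtain ⟨h, hhK, v₀, hv₀, hhodd, hhinv, hhW⟩ := hex
  have hv₀V : v₀ ∈ V := (Subgroup.mem_inf.1 hv₀).1
  have hv₀K : v₀ ∈ Subgroup.centralizer (N : Set G) := (Subgroup.mem_inf.1 hv₀).2
  -- W := C_V(h)
  obtain ⟨w₁, hw₁V, hw₁1, hw₁c⟩ := c.hS h v₀ hv₀V hhodd hhinv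
  have hWmem : ∀ {w : G}, w ∈ V ⊓ Subgroup.centralizer {h} ↔ w ∈ V ∧ w * h = h * w := by
    intro w
    rw [Subgroup.mem_inf, Subgroup.mem_centralizer_singleton_iff]
  have hW1 : V ⊓ Subgroup.centralizer {h} ≠ ⊥ := by
    intro h0
    have hmem : w₁ ∈ V ⊓ Subgroup.centralizer {h} := hWmem.2 ⟨hw₁V, hw₁c⟩
    rw [h0] at hmem
    exact hw₁1 (Subgroup.mem_bot.1 hmem)
  have hWK : ∀ w ∈ V ⊓ Subgroup.centralizer {h},
      w ∈ Subgroup.centralizer (N : Set G) → w = 1 := by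
    intro w hw hwK
    exact hhW w (Subgroup.mem_inf.2 ⟨(hWmem.1 hw).1, hwK⟩) (hWmem.1 hw).2
  have hNW : ∀ b ∈ V ⊓ Subgroup.centralizer {h}, ∀ a ∈ N, b * a * b⁻¹ ∈ N :=
    fun b _ a ha => hNn.conj_mem a ha b
  have hH' : prodSub N (V ⊓ Subgroup.centralizer {h}) hNW ≠ ⊤ := by
    intro htop
    apply hD
    rw [eq_top_iff]
    intro g _
    have hg : g ∈ prodSub N (V ⊓ Subgroup.centralizer {h}) hNW := by
      rw [htop]; exact Subgroup.mem_top g
    obtain ⟨a, ha, b, hb, rfl⟩ := hg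
    exact ⟨a, ha, b, (hWmem.1 hb).1, rfl⟩
  have hex2 : ∃ n ∈ prodSub N (V ⊓ Subgroup.centralizer {h}) hNW,
      ∃ w' ∈ V ⊓ Subgroup.centralizer {h},
      Odd (orderOf n) ∧ w' * n * w'⁻¹ = n⁻¹ ∧
      ∀ u ∈ V ⊓ Subgroup.centralizer {h}, u * n = n * u → u = 1 := by
    by_contra hcon
    have hSK : ∀ n ∈ prodSub N (V ⊓ Subgroup.centralizer {h}) hNW,
        ∀ v ∈ V ⊓ Subgroup.centralizer {h},
        Odd (orderOf n) → v * n * v⁻¹ = n⁻¹ →
        ∃ w ∈ V ⊓ Subgroup.centralizer {h}, w ≠ 1 ∧ w * n = n * w := by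
      intro n hn v hv hodd hinv
      by_contra hcon2
      exact hcon ⟨n, hn, v, hv, hodd, hinv,
        fun w hw hwc => by_contra fun hw1 => hcon2 ⟨w, hw, hw1, hwc⟩⟩
    obtain ⟨w, hw, hw1, hwR⟩ := c.p2 _ (V ⊓ Subgroup.centralizer {h}) hH'
      (right_le_prodSub hNW)
      (fun a ha b hb => c.hVc a (Subgroup.mem_inf.1 ha).1 b (Subgroup.mem_inf.1 hb).1)
      (fun a ha => c.hV2 a (Subgroup.mem_inf.1 ha).1) hW1 hSK
    have hwc : ∀ n ∈ N, w * n = n * w :=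
      centralizes_of_mem_O2of _ N (left_le_prodSub hNW)
        (fun a _ n hn => hNn.conj_mem n hn a) hNO hwR
    exact hw1 (hWK w hw (Subgroup.mem_centralizer_iff.2 (fun n hn => (hwc n hn).symm)))
  obtain ⟨n, hnH', w', hw'W, hnodd, hninv, hnW⟩ := hex2
  have hw'V : w' ∈ V := (hWmem.1 hw'W).1
  have hw'c : w' * h = h * w' := (hWmem.1 hw'W).2
  have hnN : n ∈ N := by
    apply mem_of_sq_mem_of_odd N hnodd
    obtain ⟨a, ha, b, hb, rfl⟩ := hnH'
    have hbV : b ∈ V := (hWmem.1 hb).1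
    have e : (a * b) ^ 2 = a * (b * a * b⁻¹) := by
      calc (a * b) ^ 2 = a * (b * a * b⁻¹) * (b * b) := by rw [sq]; group
        _ = a * (b * a * b⁻¹) := by rw [c.vv hbV, mul_one]
    rw [e]
    exact N.mul_mem ha (hNn.conj_mem a ha b)
  have hhn : h * n = n * h := (hKmem hhK n hnN).symm
  have godd : Odd (orderOf (h * n)) := odd_orderOf_mul hhn hhodd hnodd
  have ginv : v₀ * w' * (h * n) * (v₀ * w')⁻¹ = (h * n)⁻¹ := by
    have e1 : w' * h * w'⁻¹ = h := by rw [hw'c, mul_inv_cancel_right]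
    have e2 : v₀ * n⁻¹ * v₀⁻¹ = n⁻¹ := by
      rw [← hKmem hv₀K n⁻¹ (N.inv_mem hnN), mul_inv_cancel_right]
    calc v₀ * w' * (h * n) * (v₀ * w')⁻¹
        = v₀ * ((w' * h * w'⁻¹) * (w' * n * w'⁻¹)) * v₀⁻¹ := by group
      _ = v₀ * (h * n⁻¹) * v₀⁻¹ := by rw [e1, hninv]
      _ = (v₀ * h * v₀⁻¹) * (v₀ * n⁻¹ * v₀⁻¹) := by group
      _ = h⁻¹ * n⁻¹ := by rw [hhinv, e2]
      _ = (n * h)⁻¹ := by group
      _ = (h * n)⁻¹ := by rw [hhn]
  obtain ⟨u, huV, hu1, huc⟩ := c.hS (h * n) (v₀ * w') (V.mul_mem hv₀V hw'V) godd ginv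
  have e : u * h * u⁻¹ * (u * n * u⁻¹) = h * n := by
    calc u * h * u⁻¹ * (u * n * u⁻¹) = u * (h * n) * u⁻¹ := by group
      _ = h * n * u * u⁻¹ := by rw [huc]
      _ = h * n := by group
  obtain ⟨m, hm⟩ : ∃ m : G, m = h⁻¹ * (u * h * u⁻¹) := ⟨_, rfl⟩
  have hm' : m = n * (u * n * u⁻¹)⁻¹ := by
    rw [hm]
    calc h⁻¹ * (u * h * u⁻¹)
        = h⁻¹ * (u * h * u⁻¹ * (u * n * u⁻¹)) * (u * n * u⁻¹)⁻¹ := by group
      _ = h⁻¹ * (h * n) * (u * n * u⁻¹)⁻¹ := by rw [e]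
      _ = n * (u * n * u⁻¹)⁻¹ := by group
  have hmK : m ∈ Subgroup.centralizer (N : Set G) := by
    rw [hm]
    exact Subgroup.mul_mem _ (Subgroup.inv_mem _ hhK) (hKn.conj_mem h hhK u)
  have hmN : m ∈ N := by
    rw [hm']
    exact N.mul_mem hnN (N.inv_mem (hNn.conj_mem n hnN u))
  have hmh : m * h = h * m := hKmem hhK m hmN
  have hmv : m * v₀ = v₀ * m := hKmem hv₀K m hmN
  have hh' : u * h * u⁻¹ = h * m := by rw [hm]; group
  have hcomm : v₀ * u = u * v₀ := c.hVc v₀ hv₀V u huV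
  have key : (h * m)⁻¹ = h⁻¹ * m := by
    have k1 : v₀ * (u * h * u⁻¹) * v₀⁻¹ = (u * h * u⁻¹)⁻¹ := by
      calc v₀ * (u * h * u⁻¹) * v₀⁻¹ = (v₀ * u) * h * (v₀ * u)⁻¹ := by group
        _ = (u * v₀) * h * (u * v₀)⁻¹ := by rw [hcomm]
        _ = u * (v₀ * h * v₀⁻¹) * u⁻¹ := by group
        _ = u * h⁻¹ * u⁻¹ := by rw [hhinv]
        _ = (u * h * u⁻¹)⁻¹ := by group
    have k2 : v₀ * (h * m) * v₀⁻¹ = h⁻¹ * m := by
      calc v₀ * (h * m) * v₀⁻¹ = (v₀ * h * v₀⁻¹) * (v₀ * m) * v₀⁻¹ := by group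
        _ = h⁻¹ * (m * v₀) * v₀⁻¹ := by rw [hhinv, hmv]
        _ = h⁻¹ * m := by group
    rw [← hh', ← k1, hh', k2]
  have hmm : m ^ 2 = 1 := by
    rw [sq]
    calc m * m = (m * h) * (h⁻¹ * m) := by group
      _ = (h * m) * (h⁻¹ * m) := by rw [hmh]
      _ = (h * m) * (h * m)⁻¹ := by rw [key]
      _ = 1 := mul_inv_cancel _
  have hm1 : m = 1 := hNO.involution_eq_one hmN hmm (fun a ha => hKmem hmK a ha)
  have huh : u * h = h * u := by
    have h1 : u * h * u⁻¹ = h := by rw [hh', hm1, mul_one]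
    calc u * h = u * h * u⁻¹ * u := by group
      _ = h * u := by rw [h1]
  have hun : u * n = n * u := by
    have h2 : n * (u * n * u⁻¹)⁻¹ = 1 := by rw [← hm', hm1]
    have h1 : u * n * u⁻¹ = n := by
      have h3 : n = u * n * u⁻¹ := by
        calc n = n * (u * n * u⁻¹)⁻¹ * (u * n * u⁻¹) := by group
          _ = u * n * u⁻¹ := by rw [h2, one_mul]
      exact h3.symm
    calc u * n = u * n * u⁻¹ * u := by group
      _ = n * u := by rw [h1]
  exact hu1 (hnW u (hWmem.2 ⟨huV, huh⟩) hun)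

/-- `G = N V` for every nontrivial normal subgroup `N`. -/
theorem case_D2 {V : Subgroup G} (c : Base V) (hO : Cfsg.pCore 2 G = ⊥)
    (N : Subgroup G) (hNn : N.Normal) (hN1 : N ≠ ⊥) :
    ∀ g : G, ∃ n ∈ N, ∃ v ∈ V, g = n * v := by
  have hNV : ∀ b ∈ V, ∀ a ∈ N, b * a * b⁻¹ ∈ N := fun b _ a ha => hNn.conj_mem a ha b
  by_contra hcon
  have hD : prodSub N V hNV ≠ ⊤ := by
    intro htop
    apply hcon
    intro g
    have hg : g ∈ prodSub N V hNV := by rw [htop]; exact Subgroup.mem_top g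
    exact hg
  have hNO : NoO2 N := noO2_of_normal hO hNn
  obtain ⟨u₀, hu₀V, hu₀1, hu₀R⟩ := c.p2 (prodSub N V hNV) V hD (right_le_prodSub hNV)
    c.hVc c.hV2 c.hV1 (fun h _ v hv hodd hinv => c.hS h v hv hodd hinv)
  have hu₀c : ∀ n ∈ N, u₀ * n = n * u₀ :=
    centralizes_of_mem_O2of (prodSub N V hNV) N (left_le_prodSub hNV)
      (fun a _ n hn => hNn.conj_mem n hn a) hNO hu₀R
  by_cases hVK : ∀ v ∈ V, ∀ n ∈ N, v * n = n * v
  · exact central_case c hO N hNn hN1 hVK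
  · have hK : Subgroup.centralizer (N : Set G) ≠ ⊤ := by
      intro htop
      apply hVK
      intro v hv n hn
      have hv' : v ∈ Subgroup.centralizer (N : Set G) := by rw [htop]; exact Subgroup.mem_top v
      exact ((Subgroup.mem_centralizer_iff.1 hv') n hn).symm
    exact noncentral_case c hO N hNn hNV hD u₀ hu₀V hu₀1 hu₀c hK

end Cfsg.Agent.Lib.Helper20.Sidki2
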