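-- helper20: Sidki pairs (S3048). Part 3: the minimal normal subgroup is simple; main theorem.
import Mathlib
import Cfsg.Agent.Lib.Helper21.Comp
import Cfsg.Agent.Lib.Helper20.Sidki1
import Cfsg.Agent.Lib.Helper20.Sidki2

set_option autoImplicit false
set_option linter.unusedVariables false
set_option linter.unusedSectionVars false

namespace Cfsg.Agent.Lib.Helper20.Sidki3

open Cfsg.Agent.Lib.Helper20.Sidki1
open scoped commutatorElement

universe u

/-- Hypotheses of the case `G = N V` with `N` minimal normal. -/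
structure D1 {G : Type u} [Group G] [Finite G] (V N : Subgroup G) : Prop where
  base : Base V
  hO : Cfsg.pCore 2 G = ⊥
  hNn : N.Normal
  hN1 : N ≠ ⊥
  hNmin : ∀ M : Subgroup G, M.Normal → M ≤ N → M ≠ ⊥ → M = N
  hD : ∀ g : G, ∃ n ∈ N, ∃ v ∈ V, g = n * v

/-- A minimal `N`-invariant subgroup `L` of `N`. -/
structure D1L {G : Type u} [Group G] [Finite G] (V N L : Subgroup G) : Prop where
  d1 : D1 V N
  hLN : L ≤ N
  hL1 : L ≠ ⊥
  hLinv : ∀ a ∈ N, ∀ b ∈ L, a * b * a⁻¹ ∈ L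
  hLmin : ∀ M : Subgroup G, M ≤ N → M ≠ ⊥ → (∀ a ∈ N, ∀ b ∈ M, a * b * a⁻¹ ∈ M) → M ≤ L → M = L

section

variable {G : Type u} [Group G] [Finite G] {V N L : Subgroup G}

theorem D1.conjN (c : D1 V N) (g : G) {n : G} (hn : n ∈ N) : g * n * g⁻¹ ∈ N :=
  c.hNn.conj_mem n hn g

theorem D1.conjN' (c : D1 V N) (g : G) {n : G} (hn : n ∈ N) : g⁻¹ * n * g ∈ N := by
  simpa using c.hNn.conj_mem n hn g⁻¹

theorem D1.nonabelian (c : D1 V N) : ¬ ∀ a ∈ N, ∀ b ∈ N, a * b = b * a := by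
  intro hab
  have hNO : NoO2 N := noO2_of_normal c.hO c.hNn
  have hT := noO2_top c.hO
  have a1 : ∀ t ∈ N, t ^ 2 = 1 → t = 1 := fun t ht ht2 =>
    hNO.involution_eq_one ht ht2 (fun a ha => hab a ha t ht)
  have a2 : ∀ w ∈ V, (∀ n ∈ N, w * n = n * w) → w = 1 := by
    intro w hw hwc
    apply hT.involution_eq_one (Subgroup.mem_top w) (c.base.hV2 w hw)
    intro g _
    obtain ⟨n, hn, v, hv, rfl⟩ := c.hD g
    calc n * v * w = n * (v * w) := mul_assoc _ _ _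
      _ = n * (w * v) := by rw [c.base.hVc v hv w hw]
      _ = (n * w) * v := (mul_assoc _ _ _).symm
      _ = (w * n) * v := by rw [hwc n hn]
      _ = w * (n * v) := mul_assoc _ _ _
  have a3 : ∀ v ∈ V, v ≠ 1 → ∀ n ∈ N, v * n * v⁻¹ = n⁻¹ := by
    intro v hv hv1 n hn
    have hvinv := c.base.vinv hv
    have vv := c.base.vv hv
    have hCmem : ∀ {x : G}, x ∈ N ⊓ Subgroup.centralizer {v} ↔ x ∈ N ∧ x * v = v * x := by
      intro x
      rw [Subgroup.mem_inf, Subgroup.mem_centralizer_singleton_iff]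
    have hCn : (N ⊓ Subgroup.centralizer {v}).Normal := by
      constructor
      intro x hx g
      obtain ⟨hxN, hxv⟩ := hCmem.1 hx
      obtain ⟨a, ha, b, hb, rfl⟩ := c.hD g
      have hbx : b * x * b⁻¹ ∈ N := c.conjN b hxN
      have e : a * b * x * (a * b)⁻¹ = b * x * b⁻¹ := by
        calc a * b * x * (a * b)⁻¹ = a * (b * x * b⁻¹) * a⁻¹ := by group
          _ = (b * x * b⁻¹) * a * a⁻¹ := by rw [hab a ha _ hbx]
          _ = b * x * b⁻¹ := by group
      rw [e]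
      refine hCmem.2 ⟨hbx, ?_⟩
      calc b * x * b⁻¹ * v = b * x * (b⁻¹ * v) := by group
        _ = b * x * (v * b⁻¹) := by rw [c.base.hVc b⁻¹ (V.inv_mem hb) v hv]
        _ = b * (x * v) * b⁻¹ := by group
        _ = b * (v * x) * b⁻¹ := by rw [hxv]
        _ = (b * v) * x * b⁻¹ := by group
        _ = (v * b) * x * b⁻¹ := by rw [c.base.hVc b hb v hv]
        _ = v * (b * x * b⁻¹) := by group
    by_cases hC : N ⊓ Subgroup.centralizer {v} = ⊥
    · have hconj : v * n * v⁻¹ ∈ N := c.conjN v hn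
      have hy : n * (v * n * v⁻¹) ∈ N ⊓ Subgroup.centralizer {v} := by
        refine hCmem.2 ⟨N.mul_mem hn hconj, ?_⟩
        calc n * (v * n * v⁻¹) * v = n * v * n := by group
          _ = (v * v) * n * v⁻¹ * n := by rw [vv, one_mul, hvinv]
          _ = v * ((v * n * v⁻¹) * n) := by group
          _ = v * (n * (v * n * v⁻¹)) := by rw [hab n hn _ hconj]
      rw [hC, Subgroup.mem_bot] at hy
      exact eq_inv_of_mul_eq_one_right hy
    · exfalso
      have hCN := c.hNmin _ hCn inf_le_left hC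
      apply hv1
      apply a2 v hv
      intro n' hn'
      have hmem : n' ∈ N ⊓ Subgroup.centralizer {v} := by rw [hCN]; exact hn'
      exact ((hCmem.1 hmem).2).symm
  obtain ⟨v, hv, hv1⟩ := exists_ne_one_of_ne_bot c.base.hV1
  obtain ⟨n, hn, hn1⟩ := exists_ne_one_of_ne_bot c.hN1
  have hodd : Odd (orderOf n) :=
    odd_orderOf_of_no_involution (fun k hk => a1 _ (N.pow_mem hn k) hk)
  obtain ⟨w, hw, hw1, hwc⟩ := c.base.hS n v hv hodd (a3 v hv hv1 n hn)
  have h1 := a3 w hw hw1 n hn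
  rw [hwc, mul_inv_cancel_right] at h1
  apply hn1
  apply a1 n hn
  rw [sq]
  calc n * n = n * n⁻¹ := by rw [← h1]
    _ = 1 := mul_inv_cancel n

theorem D1.cent (c : D1 V N) : ∀ g : G, (∀ n ∈ N, g * n = n * g) → g = 1 := by
  have hnab := c.nonabelian
  have hKn : (Subgroup.centralizer (N : Set G)).Normal := centralizer_normal' c.hNn
  have hT := noO2_top c.hO
  have hZ : ∀ x ∈ N, x ∈ Subgroup.centralizer (N : Set G) → x = 1 := by
    have hZn : (N ⊓ Subgroup.centralizer (N : Set G)).Normal := by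
      have := c.hNn
      have := hKn
      infer_instance
    by_cases hZ0 : N ⊓ Subgroup.centralizer (N : Set G) = ⊥
    · intro x hx hxK
      have hmem : x ∈ N ⊓ Subgroup.centralizer (N : Set G) := Subgroup.mem_inf.2 ⟨hx, hxK⟩
      rw [hZ0] at hmem
      exact Subgroup.mem_bot.1 hmem
    · exfalso
      have hZN := c.hNmin _ hZn inf_le_left hZ0
      apply hnab
      intro a ha b hb
      have hmem : b ∈ N ⊓ Subgroup.centralizer (N : Set G) := by rw [hZN]; exact hb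
      exact Subgroup.mem_centralizer_iff.1 (Subgroup.mem_inf.1 hmem).2 a ha
  have hK2 : ∀ k ∈ Subgroup.centralizer (N : Set G), k ^ 2 = 1 := by
    intro k hk
    apply hZ _ _ (Subgroup.pow_mem _ hk 2)
    obtain ⟨n, hn, v, hv, rfl⟩ := c.hD k
    have e : (n * v) ^ 2 = n * (v * n * v⁻¹) := by
      calc (n * v) ^ 2 = n * (v * n * v⁻¹) * (v * v) := by rw [sq]; group
        _ = n * (v * n * v⁻¹) := by rw [c.base.vv hv, mul_one]
    rw [e]
    exact N.mul_mem hn (c.conjN v hn)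
  have hKp : IsPGroup 2 (Subgroup.centralizer (N : Set G)) := by
    rintro ⟨k, hk⟩
    refine ⟨1, Subtype.ext ?_⟩
    show k ^ 2 ^ 1 = 1
    rw [pow_one]
    exact hK2 k hk
  have hK0 : Subgroup.centralizer (N : Set G) = ⊥ :=
    hT _ le_top (fun a _ b hb => hKn.conj_mem b hb a) hKp
  intro g hg
  have hmem : g ∈ Subgroup.centralizer (N : Set G) :=
    Subgroup.mem_centralizer_iff.2 (fun n hn => (hg n hn).symm)
  rw [hK0] at hmem
  exact Subgroup.mem_bot.1 hmem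

theorem D1L.dich (c : D1L V N L) (v : G) :
    (∀ b ∈ L, v * b * v⁻¹ ∈ L) ∨ (∀ b ∈ L, v * b * v⁻¹ ∈ L → b = 1) := by
  have hMmem : ∀ {b : G}, b ∈ L ⊓ L.comap (MulAut.conj v).toMonoidHom ↔
      b ∈ L ∧ v * b * v⁻¹ ∈ L := by
    intro b
    rw [Subgroup.mem_inf, Subgroup.mem_comap]
    simp only [MulEquiv.coe_toMonoidHom, MulAut.conj_apply]
  by_cases hM : L ⊓ L.comap (MulAut.conj v).toMonoidHom = ⊥
  · right
    intro b hb hvb
    have hmem : b ∈ L ⊓ L.comap (MulAut.conj v).toMonoidHom := hMmem.2 ⟨hb, hvb⟩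
    rw [hM] at hmem
    exact Subgroup.mem_bot.1 hmem
  · left
    have hMinv : ∀ a ∈ N, ∀ b ∈ L ⊓ L.comap (MulAut.conj v).toMonoidHom,
        a * b * a⁻¹ ∈ L ⊓ L.comap (MulAut.conj v).toMonoidHom := by
      intro a ha b hb
      obtain ⟨hbL, hvb⟩ := hMmem.1 hb
      refine hMmem.2 ⟨c.hLinv a ha b hbL, ?_⟩
      have e : v * (a * b * a⁻¹) * v⁻¹
          = (v * a * v⁻¹) * (v * b * v⁻¹) * (v * a * v⁻¹)⁻¹ := by group
      rw [e]
      exact c.hLinv _ (c.d1.conjN v ha) _ hvb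
    have hML := c.hLmin _ (inf_le_left.trans c.hLN) hM hMinv inf_le_left
    intro b hb
    have hmem : b ∈ L ⊓ L.comap (MulAut.conj v).toMonoidHom := by rw [hML]; exact hb
    exact (hMmem.1 hmem).2

theorem D1L.comm_of_disj (c : D1L V N L) (v : G) (hv : ∀ b ∈ L, v * b * v⁻¹ ∈ L → b = 1) :
    ∀ a ∈ L, ∀ b ∈ L, a * (v * b * v⁻¹) = (v * b * v⁻¹) * a := by
  intro a ha b hb
  have hb' : (v⁻¹ * a * v) * b * (v⁻¹ * a * v)⁻¹ * b⁻¹ ∈ L :=
    L.mul_mem (c.hLinv _ (c.d1.conjN' v (c.hLN ha)) b hb) (L.inv_mem hb)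
  have hc : v * ((v⁻¹ * a * v) * b * (v⁻¹ * a * v)⁻¹ * b⁻¹) * v⁻¹ ∈ L := by
    have e : v * ((v⁻¹ * a * v) * b * (v⁻¹ * a * v)⁻¹ * b⁻¹) * v⁻¹
        = a * ((v * b * v⁻¹) * a⁻¹ * (v * b * v⁻¹)⁻¹) := by group
    rw [e]
    exact L.mul_mem ha (c.hLinv _ (c.d1.conjN v (c.hLN hb)) a⁻¹ (L.inv_mem ha))
  have h1 := hv _ hb' hc
  calc a * (v * b * v⁻¹)
      = v * ((v⁻¹ * a * v) * b * (v⁻¹ * a * v)⁻¹ * b⁻¹) * v⁻¹ * ((v * b * v⁻¹) * a) := by group
    _ = (v * b * v⁻¹) * a := by rw [h1]; group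

/-- The `V`-conjugates of the elements of `L`. -/
def conjSet (V L : Subgroup G) : Set G := {x | ∃ v ∈ V, ∃ b ∈ L, x = v * b * v⁻¹}

theorem D1L.closure_eq (c : D1L V N L) : Subgroup.closure (conjSet V L) = N := by
  have hSN : conjSet V L ⊆ N := by
    rintro _ ⟨v, hv, b, hb, rfl⟩
    exact c.d1.conjN v (c.hLN hb)
  have hSconj : ∀ g : G, ∀ x ∈ conjSet V L, g * x * g⁻¹ ∈ conjSet V L := by
    rintro g _ ⟨v, hv, b, hb, rfl⟩
    obtain ⟨n, hn, v', hv', rfl⟩ := c.d1.hD g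
    refine ⟨v' * v, V.mul_mem hv' hv,
      ((v' * v)⁻¹ * n * (v' * v)) * b * ((v' * v)⁻¹ * n * (v' * v))⁻¹,
      c.hLinv _ (c.d1.conjN' _ hn) b hb, ?_⟩
    group
  have hAn : (Subgroup.closure (conjSet V L)).Normal := by
    constructor
    intro x hx g
    have hle : Subgroup.closure (conjSet V L)
        ≤ (Subgroup.closure (conjSet V L)).comap (MulAut.conj g).toMonoidHom := by
      rw [Subgroup.closure_le]
      intro y hy
      rw [SetLike.mem_coe, Subgroup.mem_comap]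
      simp only [MulEquiv.coe_toMonoidHom, MulAut.conj_apply]
      exact Subgroup.subset_closure (hSconj g y hy)
    have h1 := Subgroup.mem_comap.1 (hle hx)
    simpa using h1
  have hA1 : Subgroup.closure (conjSet V L) ≠ ⊥ := by
    intro h0
    obtain ⟨b, hb, hb1⟩ := exists_ne_one_of_ne_bot c.hL1
    have hmem : b ∈ Subgroup.closure (conjSet V L) :=
      Subgroup.subset_closure ⟨1, V.one_mem, b, hb, by simp⟩
    rw [h0] at hmem
    exact hb1 (Subgroup.mem_bot.1 hmem)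
  have hAN : Subgroup.closure (conjSet V L) ≤ N := by
    rw [Subgroup.closure_le]; exact hSN
  exact c.d1.hNmin _ hAn hAN hA1

theorem D1L.center_trivial (c : D1L V N L) : ∀ z ∈ L, (∀ b ∈ L, z * b = b * z) → z = 1 := by
  intro z hz hzc
  by_contra hz1
  have hZmem : ∀ {x : G}, x ∈ L ⊓ Subgroup.centralizer (L : Set G) ↔
      x ∈ L ∧ ∀ b ∈ L, b * x = x * b := by
    intro x
    rw [Subgroup.mem_inf, Subgroup.mem_centralizer_iff]
    rfl
  have hZ1 : L ⊓ Subgroup.centralizer (L : Set G) ≠ ⊥ := by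
    intro h0
    have hmem : z ∈ L ⊓ Subgroup.centralizer (L : Set G) :=
      hZmem.2 ⟨hz, fun b hb => (hzc b hb).symm⟩
    rw [h0] at hmem
    exact hz1 (Subgroup.mem_bot.1 hmem)
  have hZinv : ∀ a ∈ N, ∀ x ∈ L ⊓ Subgroup.centralizer (L : Set G),
      a * x * a⁻¹ ∈ L ⊓ Subgroup.centralizer (L : Set G) := by
    intro a ha x hx
    obtain ⟨hxL, hxc⟩ := hZmem.1 hx
    refine hZmem.2 ⟨c.hLinv a ha x hxL, fun b hb => ?_⟩
    have hb₁ : a⁻¹ * b * a ∈ L := by simpa using c.hLinv a⁻¹ (N.inv_mem ha) b hb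
    calc b * (a * x * a⁻¹) = a * ((a⁻¹ * b * a) * x) * a⁻¹ := by group
      _ = a * (x * (a⁻¹ * b * a)) * a⁻¹ := by rw [hxc _ hb₁]
      _ = a * x * a⁻¹ * b := by group
  have hZL := c.hLmin _ (inf_le_left.trans c.hLN) hZ1 hZinv inf_le_left
  have hLab : ∀ a ∈ L, ∀ b ∈ L, a * b = b * a := by
    intro a ha b hb
    have hmem : b ∈ L ⊓ Subgroup.centralizer (L : Set G) := by rw [hZL]; exact hb
    exact (hZmem.1 hmem).2 a ha
  have hScomm : ∀ x ∈ conjSet V L, ∀ y ∈ conjSet V L, x * y = y * x := by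
    rintro _ ⟨u, hu, a, ha, rfl⟩ _ ⟨v, hv, b, hb, rfl⟩
    have hcomm : a * ((u⁻¹ * v) * b * (u⁻¹ * v)⁻¹) = ((u⁻¹ * v) * b * (u⁻¹ * v)⁻¹) * a := by
      rcases c.dich (u⁻¹ * v) with h | h
      · exact hLab a ha _ (h b hb)
      · exact c.comm_of_disj _ h a ha b hb
    calc u * a * u⁻¹ * (v * b * v⁻¹)
        = u * (a * ((u⁻¹ * v) * b * (u⁻¹ * v)⁻¹)) * u⁻¹ := by group
      _ = u * (((u⁻¹ * v) * b * (u⁻¹ * v)⁻¹) * a) * u⁻¹ := by rw [hcomm]
      _ = v * b * v⁻¹ * (u * a * u⁻¹) := by group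
  have hcl := closure_comm (conjSet V L) hScomm
  rw [c.closure_eq] at hcl
  exact c.d1.nonabelian hcl

theorem D1L.exists_normalizing (c : D1L V N L) :
    ∃ v ∈ V, v ≠ 1 ∧ ∀ b ∈ L, v * b * v⁻¹ ∈ L := by
  by_contra hcon
  have hall : ∀ v ∈ V, v ≠ 1 → ∀ b ∈ L, v * b * v⁻¹ ∈ L → b = 1 := by
    intro v hv hv1
    rcases c.dich v with h | h
    · exact absurd ⟨v, hv, hv1, h⟩ hcon
    · exact h
  have hcm : ∀ v ∈ V, v ≠ 1 → ∀ a ∈ L, ∀ b ∈ L, a * (v * b * v⁻¹) = (v * b * v⁻¹) * a :=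
    fun v hv hv1 => c.comm_of_disj v (hall v hv hv1)
  obtain ⟨v, hv, hv1⟩ := exists_ne_one_of_ne_bot c.d1.base.hV1
  have hLO : NoO2 L := (noO2_of_normal c.d1.hO c.d1.hNn).of_normal_in c.hLN c.hLinv
  obtain ⟨x, hx, hx1, hxodd⟩ := exists_odd_of_noO2 hLO c.hL1
  have hvinv := c.d1.base.vinv hv
  have vv := c.d1.base.vv hv
  have vv2 : v⁻¹ * v⁻¹ = 1 := by rw [hvinv]; exact vv
  obtain ⟨h, hh⟩ : ∃ h : G, h = x⁻¹ * (v * x * v⁻¹) := ⟨_, rfl⟩
  have hc : Commute x⁻¹ (v * x * v⁻¹) := hcm v hv hv1 x⁻¹ (L.inv_mem hx) x hx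
  have hodd : Odd (orderOf h) := by
    apply odd_orderOf_of_pow hxodd
    rw [hh, hc.mul_pow, inv_pow, conj_pow, pow_orderOf_eq_one]
    group
  have hinv : v * h * v⁻¹ = h⁻¹ := by
    rw [hh]
    calc v * (x⁻¹ * (v * x * v⁻¹)) * v⁻¹ = v * x⁻¹ * v * x * (v⁻¹ * v⁻¹) := by group
      _ = v * x⁻¹ * v⁻¹ * x := by rw [vv2, mul_one, hvinv]
      _ = (x⁻¹ * (v * x * v⁻¹))⁻¹ := by group
  obtain ⟨w, hw, hw1, hwc⟩ := c.d1.base.hS h v hv hodd hinv
  have e1 : w * h * w⁻¹ = h := by rw [hwc, mul_inv_cancel_right]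
  by_cases hwv : w = v
  · rw [hwv, hinv] at e1
    have h2 : h ^ 2 = 1 := by
      rw [sq]
      calc h * h = h * h⁻¹ := by rw [e1]
        _ = 1 := mul_inv_cancel h
    have h1 : h = 1 := eq_one_of_sq_of_odd hodd h2
    rw [hh] at h1
    have h3 : v * x * v⁻¹ = x := by
      calc v * x * v⁻¹ = x * (x⁻¹ * (v * x * v⁻¹)) := by group
        _ = x := by rw [h1, mul_one]
    apply hx1
    apply hall v hv hv1 x hx
    rw [h3]; exact hx
  · have hwv1 : w * v ≠ 1 := by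
      intro h0
      apply hwv
      have h4 := eq_inv_of_mul_eq_one_left h0
      rw [h4, hvinv]
    have e2 : x = (v * x * v⁻¹) * ((w * v) * x * (w * v)⁻¹)⁻¹ * (w * x * w⁻¹) := by
      calc x = (v * x * v⁻¹) * h⁻¹ := by rw [hh]; group
        _ = (v * x * v⁻¹) * (w * h * w⁻¹)⁻¹ := by rw [e1]
        _ = (v * x * v⁻¹) * ((w * v) * x * (w * v)⁻¹)⁻¹ * (w * x * w⁻¹) := by rw [hh]; group
    apply hx1
    apply c.center_trivial x hx
    intro y hy
    have ha : Commute y (v * x * v⁻¹) := hcm v hv hv1 y hy x hx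
    have hb : Commute y (w * x * w⁻¹) := hcm w hw hw1 y hy x hx
    have hc' : Commute y ((w * v) * x * (w * v)⁻¹) :=
      hcm (w * v) (V.mul_mem hw hv) hwv1 y hy x hx
    have hall' : Commute y ((v * x * v⁻¹) * ((w * v) * x * (w * v)⁻¹)⁻¹ * (w * x * w⁻¹)) :=
      (ha.mul_right hc'.inv_right).mul_right hb
    rw [← e2] at hall'
    exact hall'.eq.symm

/-- Elements of `V` normalizing `L`. -/
def normIn (V L : Subgroup G) (hV2 : ∀ a ∈ V, a ^ 2 = 1) : Subgroup G where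
  carrier := {v | v ∈ V ∧ ∀ b ∈ L, v * b * v⁻¹ ∈ L}
  mul_mem' := by
    rintro u v ⟨hu, hul⟩ ⟨hv, hvl⟩
    refine ⟨V.mul_mem hu hv, fun b hb => ?_⟩
    have h1 := hul _ (hvl b hb)
    have e : u * v * b * (u * v)⁻¹ = u * (v * b * v⁻¹) * u⁻¹ := by group
    rw [e]; exact h1
  one_mem' := ⟨V.one_mem, fun b hb => by simpa using hb⟩
  inv_mem' := by
    rintro v ⟨hv, hvl⟩
    have hvinv : v⁻¹ = v := inv_eq_of_mul_eq_one_right (by rw [← sq]; exact hV2 v hv)
    rw [hvinv]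
    exact ⟨hv, hvl⟩

theorem mem_normIn {hV2 : ∀ a ∈ V, a ^ 2 = 1} {v : G} :
    v ∈ normIn V L hV2 ↔ v ∈ V ∧ ∀ b ∈ L, v * b * v⁻¹ ∈ L := Iff.rfl

theorem D1L.normal (c : D1L V N L) : L.Normal := by
  obtain ⟨v₁, hv₁V, hv₁1, hv₁L⟩ := c.exists_normalizing
  have hV2 := c.d1.base.hV2
  have hLV : ∀ b ∈ normIn V L hV2, ∀ a ∈ L, b * a * b⁻¹ ∈ L :=
    fun b hb a ha => (mem_normIn.1 hb).2 a ha
  have hLO : NoO2 L := (noO2_of_normal c.d1.hO c.d1.hNn).of_normal_in c.hLN c.hLinv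
  have hV₁1 : normIn V L hV2 ≠ ⊥ := by
    intro h0
    have hmem : v₁ ∈ normIn V L hV2 := mem_normIn.2 ⟨hv₁V, hv₁L⟩
    rw [h0] at hmem
    exact hv₁1 (Subgroup.mem_bot.1 hmem)
  have hLH : ∀ a ∈ prodSub L (normIn V L hV2) hLV, ∀ n ∈ L, a * n * a⁻¹ ∈ L := by
    rintro _ ⟨b, hb, v, hv, rfl⟩ n hn
    have e : b * v * n * (b * v)⁻¹ = b * (v * n * v⁻¹) * b⁻¹ := by group
    rw [e]
    exact L.mul_mem (L.mul_mem hb (hLV v hv n hn)) (L.inv_mem hb)
  have hH : prodSub L (normIn V L hV2) hLV = ⊤ := by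
    by_contra hH
    have hSH : ∀ h ∈ prodSub L (normIn V L hV2) hLV, ∀ v ∈ normIn V L hV2, Odd (orderOf h) →
        v * h * v⁻¹ = h⁻¹ → ∃ w ∈ normIn V L hV2, w ≠ 1 ∧ w * h = h * w := by
      intro h hh v hv hodd hinv
      have hhL : h ∈ L := by
        apply mem_of_sq_mem_of_odd L hodd
        obtain ⟨b, hb, v', hv', rfl⟩ := hh
        have e : (b * v') ^ 2 = b * (v' * b * v'⁻¹) := by
          calc (b * v') ^ 2 = b * (v' * b * v'⁻¹) * (v' * v') := by rw [sq]; group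
            _ = b * (v' * b * v'⁻¹) := by rw [c.d1.base.vv (mem_normIn.1 hv').1, mul_one]
        rw [e]
        exact L.mul_mem hb (hLV v' hv' b hb)
      by_cases h1 : h = 1
      · exact ⟨v₁, mem_normIn.2 ⟨hv₁V, hv₁L⟩, hv₁1, by rw [h1, mul_one, one_mul]⟩
      · obtain ⟨w, hw, hw1, hwc⟩ := c.d1.base.hS h v (mem_normIn.1 hv).1 hodd hinv
        refine ⟨w, mem_normIn.2 ⟨hw, ?_⟩, hw1, hwc⟩
        rcases c.dich w with hd | hd
        · exact hd
        · exfalso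
          apply h1
          apply hd h hhL
          have e1 : w * h * w⁻¹ = h := by rw [hwc, mul_inv_cancel_right]
          rw [e1]; exact hhL
    obtain ⟨u, hu, hu1, huR⟩ := c.d1.base.p2 _ (normIn V L hV2) hH (right_le_prodSub hLV)
      (fun a ha b hb => c.d1.base.hVc a (mem_normIn.1 ha).1 b (mem_normIn.1 hb).1)
      (fun a ha => hV2 a (mem_normIn.1 ha).1) hV₁1 hSH
    have huV : u ∈ V := (mem_normIn.1 hu).1
    have hub : ∀ b ∈ L, u * b = b * u :=
      centralizes_of_mem_O2of _ L (left_le_prodSub hLV) hLH hLO huR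
    have huS : ∀ x ∈ conjSet V L, u * x = x * u := by
      rintro _ ⟨v, hv, b, hb, rfl⟩
      calc u * (v * b * v⁻¹) = (u * v) * b * v⁻¹ := by group
        _ = (v * u) * b * v⁻¹ := by rw [c.d1.base.hVc u huV v hv]
        _ = v * (u * b) * v⁻¹ := by group
        _ = v * (b * u) * v⁻¹ := by rw [hub b hb]
        _ = v * b * (u * v⁻¹) := by group
        _ = v * b * (v⁻¹ * u) := by rw [c.d1.base.hVc u huV v⁻¹ (V.inv_mem hv)]
        _ = v * b * v⁻¹ * u := by group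
    have huN := closure_le_comm (conjSet V L) u huS
    rw [c.closure_eq] at huN
    exact hu1 (c.d1.cent u huN)
  constructor
  intro n hn g
  have hg : g ∈ prodSub L (normIn V L hV2) hLV := by rw [hH]; exact Subgroup.mem_top g
  exact hLH g hg n hn

theorem D1.simple (c : D1 V N) :
    ∀ M : Subgroup G, M ≤ N → (∀ a ∈ N, ∀ b ∈ M, a * b * a⁻¹ ∈ M) → M = ⊥ ∨ M = N := by
  obtain ⟨L, ⟨hLN, hL1, hLinv⟩, hLmin⟩ := exists_min_subgroup
    (fun K : Subgroup G => K ≤ N ∧ K ≠ ⊥ ∧ ∀ a ∈ N, ∀ b ∈ K, a * b * a⁻¹ ∈ K)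
    ⟨N, le_rfl, c.hN1, fun a ha b hb => N.mul_mem (N.mul_mem ha hb) (N.inv_mem ha)⟩
  have cL : D1L V N L := ⟨c, hLN, hL1, hLinv, fun M h1 h2 h3 h4 => hLmin M ⟨h1, h2, h3⟩ h4⟩
  have hLeq : L = N := c.hNmin L cL.normal hLN hL1
  intro M hMN hMinv
  by_cases hM : M = ⊥
  · exact Or.inl hM
  · right
    have hML : M ≤ L := by rw [hLeq]; exact hMN
    rw [← hLeq]
    exact hLmin M ⟨hMN, hM, hMinv⟩ hML

end

/-- The minimal counterexample reduction for Sidki pairs. -/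
theorem main {G : Type u} [Group G] [Finite G] (V : Subgroup G)
    (hV : Cfsg.IsElementaryAbelian 2 V) (hV1 : V ≠ ⊥) (hS : Cfsg.IsSidkiPair V)
    (hVO : V ⊓ Cfsg.pCore 2 G = ⊥)
    (hminG : ∀ (H : Type u) [Group H] [Finite H] (W : Subgroup H), Nat.card H < Nat.card G →
      Cfsg.IsElementaryAbelian 2 W → W ≠ ⊥ → Cfsg.IsSidkiPair W → W ⊓ Cfsg.pCore 2 H ≠ ⊥) :
    IsSimpleGroup ↥(Cfsg.generalizedFittingSubgroup G) ∧
      ¬ IsMulCommutative ↥(Cfsg.generalizedFittingSubgroup G) ∧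
      V ⊔ Cfsg.generalizedFittingSubgroup G = ⊤ := by
  have base : Base V :=
    ⟨fun a ha b hb => congrArg Subtype.val (hV.1.is_comm.comm ⟨a, ha⟩ ⟨b, hb⟩), hV.2, hV1, hS,
      hminG⟩
  have hO := base.pCore_eq_bot hVO
  have htop : (⊤ : Subgroup G) ≠ ⊥ := by
    intro h0
    apply hV1
    have hle : V ≤ (⊤ : Subgroup G) := le_top
    rw [h0] at hle
    exact le_bot_iff.1 hle
  obtain ⟨N, ⟨hNn, hN1⟩, hNmin⟩ := exists_min_subgroup
    (fun K : Subgroup G => K.Normal ∧ K ≠ ⊥) ⟨⊤, inferInstance, htop⟩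
  have hD := Sidki2.case_D2 base hO N hNn hN1
  have c : D1 V N := ⟨base, hO, hNn, hN1, fun M h1 h2 h3 => hNmin M ⟨h1, h3⟩ h2, hD⟩
  have hnab := c.nonabelian
  have hcent := c.cent
  have hsimple := c.simple
  have hNsimple : IsSimpleGroup ↥N := by
    have hnt : Nontrivial ↥N := (Subgroup.nontrivial_iff_ne_bot N).2 hN1
    refine ⟨fun H hH => ?_⟩
    have hinv : ∀ a ∈ N, ∀ b ∈ H.map N.subtype, a * b * a⁻¹ ∈ H.map N.subtype := by
      intro a ha b hb
      obtain ⟨q, hq, rfl⟩ := Subgroup.mem_map.1 hb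
      exact Subgroup.mem_map.2 ⟨⟨a, ha⟩ * q * ⟨a, ha⟩⁻¹, hH.conj_mem q hq ⟨a, ha⟩, by simp⟩
    rcases hsimple _ (Subgroup.map_subtype_le H) hinv with h | h
    · left
      exact (Subgroup.map_eq_bot_iff_of_injective H N.subtype_injective).1 h
    · right
      rw [eq_top_iff]
      intro x _
      have hx : (x : G) ∈ H.map N.subtype := by rw [h]; exact x.2
      obtain ⟨q, hq, hqx⟩ := Subgroup.mem_map.1 hx
      have hqe : q = x := Subtype.ext hqx
      rw [← hqe]; exact hq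
  have hNna : ∃ a b : ↥N, a * b ≠ b * a := by
    by_contra hcon
    apply hnab
    intro a ha b hb
    by_contra hab
    exact hcon ⟨⟨a, ha⟩, ⟨b, hb⟩, fun h => hab (congrArg Subtype.val h)⟩
  have hq : Cfsg.IsQuasisimple ↥N := isQuasisimple_of_simple' hNna
  have hcomp : Cfsg.IsComponent N := ⟨hNn.isSubnormal, hq⟩
  have hlayer : Cfsg.layer G = N := by
    apply le_antisymm
    · apply sSup_le
      intro K hK
      rcases Cfsg.Agent.Lib.Helper21.Comp.component_normal_cases K N hK hNn with h | h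
      · exact h
      · exfalso
        apply Cfsg.Agent.Lib.Helper21.Comp.ne_bot_of_quasisimple hK.2
        rw [Subgroup.eq_bot_iff_forall]
        intro k hk
        apply hcent k
        intro n hn
        have hmem : ⁅k, n⁆ ∈ ⁅K, N⁆ := Subgroup.commutator_mem_commutator hk hn
        rw [h, Subgroup.mem_bot] at hmem
        exact commutatorElement_eq_one_iff_mul_comm.1 hmem
    · exact le_sSup hcomp
  have hfit : Cfsg.fittingSubgroup G = ⊥ := by
    rw [eq_bot_iff]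
    apply sSup_le
    rintro M ⟨hMn, hMnil⟩
    intro m hm
    rw [Subgroup.mem_bot]
    apply hcent m
    intro n hn
    have hMN : M ⊓ N = ⊥ := by
      by_contra hne
      have hInf : (M ⊓ N).Normal := by
        have := hMn
        have := hNn
        infer_instance
      have hEq := c.hNmin _ hInf inf_le_right hne
      have hNM : N ≤ M := by
        intro x hx
        have hmem : x ∈ M ⊓ N := by rw [hEq]; exact hx
        exact (Subgroup.mem_inf.1 hmem).1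
      have := hMnil
      have hsolv : Group.IsSolvable ↥N :=
        Group.isSolvable_of_isSolvable_injective (Subgroup.inclusion_injective hNM)
      have hab := IsSimpleGroup.comm_iff_isSolvable.2 hsolv
      obtain ⟨a, b, hab'⟩ := hNna
      exact hab' (hab a b)
    have hmem : m * n * m⁻¹ * n⁻¹ ∈ M ⊓ N := by
      refine Subgroup.mem_inf.2 ⟨?_, ?_⟩
      · have e : m * n * m⁻¹ * n⁻¹ = m * (n * m⁻¹ * n⁻¹) := by group
        rw [e]
        exact M.mul_mem hm (hMn.conj_mem _ (M.inv_mem hm) n)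
      · exact N.mul_mem (hNn.conj_mem n hn m) (N.inv_mem hn)
    rw [hMN, Subgroup.mem_bot] at hmem
    calc m * n = m * n * m⁻¹ * n⁻¹ * (n * m) := by group
      _ = n * m := by rw [hmem, one_mul]
  have hF : Cfsg.generalizedFittingSubgroup G = N := by
    unfold Cfsg.generalizedFittingSubgroup
    rw [hlayer, hfit, sup_bot_eq]
  rw [hF]
  refine ⟨hNsimple, ?_, ?_⟩
  · intro hc
    apply hnab
    intro a ha b hb
    exact congrArg Subtype.val (hc.is_comm.comm ⟨a, ha⟩ ⟨b, hb⟩)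
  · rw [eq_top_iff]
    intro g _
    obtain ⟨n, hn, v, hv, rfl⟩ := hD g
    exact Subgroup.mul_mem _ (Subgroup.mem_sup_right hn) (Subgroup.mem_sup_left hv)

end Cfsg.Agent.Lib.Helper20.Sidki3
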