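import Mathlib
import Cfsg.Agent.Lib.Helper61.T2Stmt

set_option autoImplicit false

namespace Cfsg.Agent.Lib.Helper20.T2SMALL

universe u v

theorem main : Cfsg.Agent.Lib.Helper61.T2Stmt.Small.{u, v} := by
  intro G _ _ Ω _ _ hf hG
  by_contra hlt
  have hn : Fintype.card Ω ≤ 13 := by omega
  classical
  have hinj : Function.Injective (MulAction.toPermHom G Ω) := MulAction.toPerm_injective
  have hdvd : Nat.card G ∣ Nat.card (Equiv.Perm Ω) :=
    Subgroup.card_dvd_of_injective _ hinj
  rw [Nat.card_eq_fintype_card (α := Equiv.Perm Ω), Fintype.card_perm, hG] at hdvd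
  have h13 : (Fintype.card Ω).factorial ∣ Nat.factorial 13 := Nat.factorial_dvd_factorial hn
  have : 17971200 ∣ Nat.factorial 13 := hdvd.trans h13
  revert this
  decide
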