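import Mathlib
import Cfsg.Agent.Lib.Helper61.T2Stmt

set_option autoImplicit false

namespace Cfsg.Agent.Lib.Helper20.T2TRANSPORT

universe u v w

theorem main : Cfsg.Agent.Lib.Helper61.T2Stmt.Transport.{u, v, w} := by
  intro G G' _ _ e Ω _ _ hf h2
  refine ⟨MulAction.compHom Ω (e : G' →* G), ?_, ?_⟩
  · letI : MulAction G' Ω := MulAction.compHom Ω (e : G' →* G)
    refine ⟨fun {g₁ g₂} h => ?_⟩
    have h' : ∀ a : Ω, e g₁ • a = e g₂ • a := fun a => h a
    exact e.injective (hf.eq_of_smul_eq_smul h')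
  · letI : MulAction G' Ω := MulAction.compHom Ω (e : G' →* G)
    rw [MulAction.isMultiplyPretransitive_iff]
    intro x y
    obtain ⟨g, hg⟩ := h2.exists_smul_eq x y
    refine ⟨e.symm g, ?_⟩
    rw [← hg]
    ext i
    show e (e.symm g) • x i = g • x i
    rw [MulEquiv.apply_symm_apply]
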